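import Cfsg.Agent.H5.RkC4

/-! The Borel subgroup of `PSU₃(q)`, `q` even, in the model on the Hermitian unital. -/

set_option autoImplicit false
set_option linter.unusedSectionVars false

namespace Cfsg.Agent.H2.BU

open Matrix Cfsg.Agent.H8.U3Id Cfsg.Agent.H8.U3Id.Dat Cfsg.Agent.H5.Rk

variable {F : Type*} [Field F] [CharP F 2] {G Ω : Type*} [Group G] [MulAction G Ω] {σ : F →+* F} (D : UDat G Ω σ)

/-- elements of the Borel subgroup -/
structure IsB (g : G) (l y w : F) : Prop where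
  fa : g • D.a = D.a
  l0 : l ≠ 0
  val : w + σ w = y * σ y
  act : ∀ x z, z + σ z = x * σ x → g • D.P x z = D.P (l * x + y) (l * σ l * z + w + σ y * l * x)

variable {D}

theorem two : (2 : F) = 0 := CharTwo.two_eq_zero

theorem val_act (D : UDat G Ω σ) {l y w x z : F} (h : w + σ w = y * σ y) (e : z + σ z = x * σ x) :
    (l * σ l * z + w + σ y * l * x) + σ (l * σ l * z + w + σ y * l * x) = (l * x + y) * σ (l * x + y) := by
  simp only [map_add, map_mul, D.inv]
  linear_combination l * σ l * e + h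

theorem IsB.cast {g : G} {l y w l' y' w' : F} (h : IsB D g l y w) (e1 : l = l') (e2 : y = y') (e3 : w = w') :
    IsB D g l' y' w' := e1 ▸ e2 ▸ e3 ▸ h

theorem IsB.mul {g g' : G} {l y w l' y' w' : F} (h : IsB D g l y w) (h' : IsB D g' l' y' w') :
    IsB D (g * g') (l * l') (l * y' + y) (l * σ l * w' + w + σ y * l * y') where
  fa := by rw [mul_smul, h'.fa, h.fa]
  l0 := mul_ne_zero h.l0 h'.l0
  val := val_act D h.val h'.val
  act x z e := by
    rw [mul_smul, h'.act x z e, h.act _ _ (val_act D h'.val e)]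
    congr 1
    · ring
    · simp only [map_add, map_mul]; ring

theorem isB_one : IsB D 1 1 0 0 where
  fa := one_smul _ _
  l0 := one_ne_zero
  val := by simp
  act x z e := by simp

theorem IsB.ext {g g' : G} {l y w : F} (h : IsB D g l y w) (h' : IsB D g' l y w) : g = g' :=
  (inv_mul_eq_one.1 (D.faith _ fun p => by
    rw [mul_smul, inv_smul_eq_iff]
    rcases D.cover p with rfl | ⟨x, z, e, rfl⟩
    · rw [h.fa, h'.fa]
    · rw [h.act x z e, h'.act x z e])).symm

theorem IsB.b {g : G} {l y w : F} (h : IsB D g l y w) : g • D.P 0 0 = D.P y w := by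
  simpa using h.act 0 0 h00

theorem exU {y w : F} (h : w + σ w = y * σ y) : ∃ g, IsB D g 1 y w := by
  obtain ⟨u, h1, h2⟩ := D.hU y w h
  exact ⟨u, h1, one_ne_zero, h, fun x z e => by simpa using h2 x z e⟩

theorem IsB.rel {g : G} {y w : F} (h : IsB D g 1 y w) :
    (UDat.UM σ y w).1.det = 1 ∧ Sim σ 1 (UDat.UM σ y w) ∧ D.Rel (UDat.UM σ y w) g :=
  UDat.rel_U h.val h.fa fun x z e => by simpa using h.act x z e

theorem isB_of_rel {g : G} {A : GL (Fin 3) F} (r : D.Rel A g) {c l : F} (hc : c ≠ 0) (hl : l ≠ 0)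
    (hA : A.1 = !![c, 0, 0; 0, c * l, 0; 0, 0, c * (l * σ l)]) : IsB D g l 0 0 where
  fa := by
    obtain ⟨k, hk, e⟩ := r D.a
    refine (D.eq_of_vec hk (c' := c * (l * σ l)) ?_)
    rw [← e, hA, UDat.vec_a]
    ext i; fin_cases i <;> simp [mulVec, dotProduct, Fin.sum_univ_three]
  l0 := hl
  val := by simp
  act x z e := by
    obtain ⟨k, hk, e'⟩ := r (D.P x z)
    refine (D.eq_of_vec hk (c' := c) ?_)
    rw [← e', hA, D.vec_P e, D.vec_P (val_act D h00 e)]
    ext i; fin_cases i <;> simp [mulVec, dotProduct, Fin.sum_univ_three] <;> ring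

theorem IsB.inv {g : G} {l y w : F} (h : IsB D g l y w) : IsB D g⁻¹ l⁻¹ (y / l) (σ w / (l * σ l)) where
  fa := by rw [inv_smul_eq_iff, h.fa]
  l0 := inv_ne_zero h.l0
  val := by
    have h0 := h.l0
    have h1 : σ l ≠ 0 := (_root_.map_ne_zero σ).2 h0
    simp only [map_div₀, map_mul, D.inv]
    field_simp
    linear_combination h.val
  act x z e := by
    have h0 := h.l0
    have h1 : σ l ≠ 0 := (_root_.map_ne_zero σ).2 h0
    have h2 := h.val
    have h3 := two (F := F)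
    rw [inv_smul_eq_iff, h.act]
    · congr 1
      · field_simp
        linear_combination -y * h3
      · simp only [map_div₀, map_inv₀]
        field_simp
        linear_combination -h2 - (σ y * x + σ y * y) * h3
    · simp only [map_div₀, map_inv₀, map_mul, map_add, D.inv]
      field_simp
      linear_combination e + h2

theorem exB {g : G} (h : g • D.a = D.a) : ∃ l y w, IsB D g l y w := by
  rcases D.cover (g • D.P 0 0) with e | ⟨y, w, e, e'⟩
  · exact absurd (smul_left_cancel g (e.trans h.symm)) (D.ne 0 0 h00)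
  obtain ⟨u, hu⟩ := exU (D := D) e
  obtain ⟨A, d, s, r⟩ := UDat.rel_special (D := D) (u⁻¹ * g)
  obtain ⟨c, hc, e1⟩ := r (D.P 0 0)
  obtain ⟨c', -, e2⟩ := r D.a
  rw [mul_smul, e', ← hu.b, inv_smul_smul, D.vec_P h00] at e1
  rw [mul_smul, h, hu.inv.fa, UDat.vec_a] at e2
  have := hu.mul (isB_of_rel r hc (by simp [hc]) (diag_of_fix D.inv d s hc e1 e2))
  rw [mul_inv_cancel_left] at this
  exact ⟨_, _, _, this⟩

theorem nn : D.n * D.n = 1 := by
  have r := (UDat.rel_n (D := D)).2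
  refine (r.mul r).unique (?_ : D.Rel _ 1)
  rw [show UDat.NM F * UDat.NM F = 1 from Units.ext (by
    rw [Units.val_mul, UDat.NM_val]
    ext i j; fin_cases i <;> fin_cases j <;> simp [Matrix.mul_apply, Fin.sum_univ_three])]
  exact UDat.Rel.one

theorem n_inv : D.n⁻¹ = D.n := inv_eq_of_mul_eq_one_right nn

/-- the fundamental relation -/
theorem fund {u u₁ u₂ : G} {y c : F} (hc : c ≠ 0) (h : IsB D u 1 y c) (h₁ : IsB D u₁ 1 (y / c) (1 / σ c))
    (h₂ : IsB D u₂ 1 (y / σ c) (1 / σ c)) : IsB D (u₁ * D.n * u * D.n * u₂ * D.n) (σ c / c ^ 2) 0 0 := by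
  have hc' : σ c ≠ 0 := (_root_.map_ne_zero σ).2 hc
  have rn := (UDat.rel_n (D := D)).2
  have hy := h.val
  refine isB_of_rel (((((h₁.rel.2.2.mul rn).mul h.rel.2.2).mul rn).mul h₂.rel.2.2).mul rn) hc (by simp [hc]) ?_
  simp only [Units.val_mul, UDat.UM_val, UDat.NM_val, map_div₀, map_pow, D.inv]
  generalize σ c = d at *
  generalize σ y = x at *
  ext i j
  fin_cases i <;> fin_cases j <;> simp [Matrix.mul_apply, Fin.sum_univ_three] <;> field_simp <;> grind

theorem exU₁ {y c : F} (hc : c ≠ 0) (h : c + σ c = y * σ y) :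
    ∃ u₁ u₂, IsB D u₁ 1 (y / c) (1 / σ c) ∧ IsB D u₂ 1 (y / σ c) (1 / σ c) := by
  have hc' : σ c ≠ 0 := (_root_.map_ne_zero σ).2 hc
  obtain ⟨u₁, h1⟩ := exU (D := D) (y := y / c) (w := 1 / σ c) (by
    simp only [map_div₀, map_one, D.inv]; field_simp; linear_combination h)
  obtain ⟨u₂, h2⟩ := exU (D := D) (y := y / σ c) (w := 1 / σ c) (by
    simp only [map_div₀, map_one, D.inv]; field_simp; linear_combination h)
  exact ⟨u₁, u₂, h1, h2⟩

theorem exT {c : F} (hc : c ≠ 0) : ∃ h, IsB D h (σ c / c ^ 2) 0 0 := by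
  obtain ⟨y, hy⟩ := D.norm c
  obtain ⟨u, h⟩ := exU (D := D) hy
  obtain ⟨u₁, u₂, h1, h2⟩ := exU₁ (D := D) hc hy
  exact ⟨_, fund hc h h1 h2⟩

theorem IsB.fix {g : G} {y w : F} (h : IsB D g 1 y w) (h1 : g ≠ 1) {p : Ω} (e : g • p = p) : p = D.a := by
  rcases D.cover p with rfl | ⟨x, z, e', rfl⟩
  · rfl
  rw [h.act x z e'] at e
  obtain ⟨e1, e2⟩ := D.inj _ _ _ _ (val_act D h.val e') e' e
  obtain rfl : y = 0 := by linear_combination e1
  obtain rfl : w = 0 := by simpa using e2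
  exact absurd (h.ext isB_one) h1

variable (D) in
/-- the action on the lines through the base point -/
def Af (g : G) (l y : F) : Prop := ∃ w, IsB D g l y w

theorem Af.mul {g g' : G} {l y l' y' : F} (h : Af D g l y) (h' : Af D g' l' y') : Af D (g * g') (l * l') (l * y' + y) :=
  let ⟨_, h⟩ := h; let ⟨_, h'⟩ := h'; ⟨_, h.mul h'⟩

theorem Af.inv {g : G} {l y : F} (h : Af D g l y) : Af D g⁻¹ l⁻¹ (y / l) := let ⟨_, h⟩ := h; ⟨_, h.inv⟩

theorem Af.cast {g : G} {l y l' y' : F} (h : Af D g l y) (e1 : l = l') (e2 : y = y') : Af D g l' y' := e1 ▸ e2 ▸ h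

theorem Af.l0 {g : G} {l y : F} (h : Af D g l y) : l ≠ 0 := let ⟨_, h⟩ := h; h.l0

theorem Af.fa {g : G} {l y : F} (h : Af D g l y) : g • D.a = D.a := let ⟨_, h⟩ := h; h.fa

theorem Af.fix {g : G} {y : F} (h : Af D g 1 y) (h1 : g ≠ 1) {p : Ω} (e : g • p = p) : p = D.a :=
  let ⟨_, h⟩ := h; h.fix h1 e

theorem af_one : Af D 1 1 0 := ⟨_, isB_one⟩

theorem exAf {g : G} (h : g • D.a = D.a) : ∃ l y, Af D g l y := let ⟨_, _, _, h⟩ := exB h; ⟨_, _, _, h⟩

theorem Af.conj {g k : G} {l y m c : F} (hk : Af D k m c) (h : Af D g l y) :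
    Af D (k * g * k⁻¹) l (m * y + (l + 1) * c) := by
  have := hk.l0
  refine ((hk.mul h).mul hk.inv).cast (by field_simp) (by field_simp; ring)

theorem Af.conj' {g k : G} {l y m c : F} (hk : Af D k m c) (h : Af D g l y) :
    Af D (k⁻¹ * g * k) l ((y + (l + 1) * c) / m) := by
  have := hk.l0
  refine ((hk.inv.mul h).mul hk).cast (by field_simp) (by field_simp; ring)

theorem Af.conjU {g k : G} {y m c : F} (hk : Af D k m c) (h : Af D g 1 y) : Af D (k * g * k⁻¹) 1 (m * y) :=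
  (hk.conj h).cast rfl (by linear_combination c * two (F := F))

theorem Af.conjU' {g k : G} {y m c : F} (hk : Af D k m c) (h : Af D g 1 y) : Af D (k⁻¹ * g * k) 1 (y / m) :=
  (hk.conj' h).cast rfl (by congr 1; linear_combination c * two (F := F))

theorem Af.sq {g : G} (h : Af D g 1 0) : g * g = 1 := by
  obtain ⟨w, h⟩ := h
  exact ((h.mul h).cast (by simp) (by simp) (by simpa using CharTwo.add_self_eq_zero w)).ext isB_one

theorem Af.comm {e g : G} {y : F} (he : Af D e 1 0) (h : Af D g 1 y) : g * e = e * g := by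
  obtain ⟨w, h⟩ := h
  obtain ⟨t, he⟩ := he
  exact ((h.mul he).cast rfl (by simp) (by simp [add_comm])).ext (he.mul h)

section omega

variable {ω : F} (hω : ω + σ ω = 1)
include hω

theorem val_ω (D : UDat G Ω σ) (y : F) : y * σ y * ω + σ (y * σ y * ω) = y * σ y := by
  simp only [map_mul, D.inv]
  linear_combination y * σ y * hω

theorem exAU (y : F) : ∃ g, Af D g 1 y := let ⟨_, h⟩ := exU (D := D) (val_ω hω D y); ⟨_, _, h⟩

theorem Af.uniq {g : G} {l y l' y' : F} (h : Af D g l y) (h' : Af D g l' y') : l = l' ∧ y = y' := by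
  obtain ⟨w, h⟩ := h
  obtain ⟨w', h'⟩ := h'
  have e := val_ω hω D 1
  have h1 := (D.inj _ _ _ _ h.val h'.val (h.b.symm.trans h'.b)).1
  have h2 := (D.inj _ _ _ _ (val_act D h.val e) (val_act D h'.val e) ((h.act _ _ e).symm.trans (h'.act _ _ e))).1
  exact ⟨by linear_combination h2 - h1, h1⟩

theorem Af.conj_of {g g' : G} {y : F} (hy : y ≠ 0) (h : Af D g 1 y) (h' : Af D g' 1 y) : ∃ k, k * g * k⁻¹ = g' := by
  obtain ⟨w, h⟩ := h
  obtain ⟨w', h'⟩ := h'
  have hy' : σ y ≠ 0 := (_root_.map_ne_zero σ).2 hy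
  obtain ⟨k, t, hk⟩ := exAU (D := D) hω ((w + w') * ω / σ y)
  refine ⟨k, mul_inv_eq_iff_eq_mul.2 (((hk.mul h).cast rfl (by ring) ?_).ext (h'.mul hk))⟩
  have h1 := h.val
  have h2 := h'.val
  have h3 := two (F := F)
  simp only [map_div₀, map_mul, map_add, map_one, D.inv]
  field_simp
  generalize σ w = a, σ w' = b, σ y = c, σ ω = d at *
  grind

end omega

end Cfsg.Agent.H2.BU
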