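import Cfsg.Agent.H2.BU1
import Cfsg.Agent.H4.Sz1

/-! Binary actions of `PSU₃(q)`, `q` even, with a point stabiliser of even order. -/

set_option autoImplicit false
set_option linter.unusedSectionVars false

namespace Cfsg.Agent.H2.BU

open MulAction Cfsg.Agent.H8.U3Id.Dat Cfsg.Agent.H5.Rk Cfsg.Agent.H4.Pair Cfsg.Agent.H4.Bin

variable {F : Type*} [Field F] [CharP F 2] [Finite F] {G Ω : Type*} [Group G] [MulAction G Ω] {σ : F →+* F}
  (D : UDat G Ω σ)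

/-- the subgroup contains the centre of the Sylow subgroup -/
def EH (H : Subgroup G) : Prop := ∀ g, Af D g 1 0 → g ∈ H

/-- translations induced by the subgroup -/
def InA (H : Subgroup G) (y : F) : Prop := ∃ g ∈ H, Af D g 1 y

/-- centres of the root groups contained in the subgroup -/
def Lam (H : Subgroup G) (p : Ω) : Prop := ∀ k, k • D.a = p → EH D (cj k⁻¹ H)

variable {D} {H : Subgroup G}

theorem EH.mem (hE : EH D H) {g g' : G} {l y : F} (h : Af D g l y) (h' : Af D g' l y) (hg : g' ∈ H) : g ∈ H := by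
  have := h.l0
  have h1 := hE _ ((h.mul h'.inv).cast (by field_simp) (by field_simp; linear_combination y * two (F := F)))
  simpa using H.mul_mem h1 hg

theorem EH.cj (hE : EH D H) {k : G} (hk : k • D.a = D.a) : EH D (cj k H) := fun g hg => by
  obtain ⟨m, c, hk⟩ := exAf hk
  exact mem_cj.2 (hE _ ((hk.conjU' hg).cast rfl (zero_div _)))

theorem EH.lam {k : G} (hE : EH D (H4.Pair.cj k⁻¹ H)) : Lam D H (k • D.a) := fun k' e => by
  have := hE.cj (k := k'⁻¹ * k) (by rw [mul_smul, ← e, inv_smul_smul])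
  rwa [cj_cj, mul_inv_cancel_right] at this

theorem Lam.cj {p : Ω} (h : Lam D H p) (g : G) : Lam D (cj g H) (g • p) := fun k e => by
  have := h (g⁻¹ * k) (by rw [mul_smul, e, inv_smul_smul])
  rwa [cj_cj, ← inv_inv g, ← _root_.mul_inv_rev]

theorem cj_self {g : G} (hg : g ∈ H) : cj g H = H := by
  ext x
  rw [mem_cj, H.mul_mem_cancel_right hg, H.mul_mem_cancel_left (H.inv_mem hg)]

theorem Lam.smul {p : Ω} (h : Lam D H p) {g : G} (hg : g ∈ H) : Lam D H (g • p) := cj_self hg ▸ h.cj g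

theorem EH.lam_a (hE : EH D H) : Lam D H D.a := fun _ e => hE.cj (by rw [inv_smul_eq_iff, e])

theorem InA.add {x y : F} (h : InA D H x) (h' : InA D H y) : InA D H (x + y) := by
  obtain ⟨g, hg, h⟩ := h
  obtain ⟨g', hg', h'⟩ := h'
  exact ⟨_, H.mul_mem hg hg', (h.mul h').cast (by simp) (by ring)⟩

theorem InA.smul {g : G} {l c y : F} (hg : g ∈ H) (h : Af D g l c) (h' : InA D H y) : InA D H (l * y) := by
  obtain ⟨g', hg', h'⟩ := h'
  exact ⟨_, H.mul_mem (H.mul_mem hg hg') (H.inv_mem hg), h.conjU h'⟩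

theorem InA.cancel {r v : F} (hr : r ≠ 0) (h : ∀ y, InA D H y → InA D H (r * y)) (hv : InA D H (r * v)) : InA D H v := by
  obtain ⟨x, hx⟩ := Finite.surjective_of_injective (f := fun y : {y // InA D H y} => (⟨_, h _ y.2⟩ : {y // InA D H y}))
    (fun a b e => Subtype.ext (mul_left_cancel₀ hr (congrArg Subtype.val e))) ⟨_, hv⟩
  exact mul_left_cancel₀ hr (congrArg Subtype.val hx) ▸ x.2

theorem InA.cancel' {g : G} {l c v : F} (hg : g ∈ H) (h : Af D g l c) (hl : l ≠ 1) (hv : InA D H ((l + 1) * v)) :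
    InA D H v :=
  InA.cancel (fun e => hl (by linear_combination e - two (F := F)))
    (fun y hy => by simpa [add_mul] using (hy.smul hg h).add hy) hv

theorem cA {g k : G} {l m c : F} (hg : g ∈ H) (h : Af D g l 0) (hl : l ≠ 1) (hk : k ∈ H) (h' : Af D k m c) :
    InA D H c := by
  have := h.l0
  exact InA.cancel' hg h hl ⟨_, H.mul_mem (H.mul_mem (H.mul_mem hk hg) (H.inv_mem hk)) (H.inv_mem hg),
    ((h'.conj h).mul h.inv).cast (by field_simp) (by simp)⟩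

variable {ω : F} (hω : ω + σ ω = 1)
include hω

theorem one (hb : Binary G (G ⧸ H)) (hE : EH D H) {g τ : G} {l v : F} (hg : g ∈ H) (h : Af D g l 0) (hl : l ≠ 1)
    (hτ : Af D τ 1 v) (hz : ∀ z ∈ H, z ∈ cj τ H → z • D.a = D.a) : InA D H v := by
  have h1 : l + 1 ≠ 0 := fun e => hl (by linear_combination e - two (F := F))
  have h0 := h.l0
  obtain ⟨τ', hτ'⟩ := exAU (D := D) hω (v / (l + 1))
  obtain ⟨z, z1, z2, z3⟩ := hb.triple (x := τ) (y := τ') (k := (τ * g * τ⁻¹)⁻¹) hg ((cj τ H).inv_mem (conj_mem_cj.2 hg)) (by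
    rw [inv_inv]
    refine mem_cj.2 (hE.mem (hτ'.conj' ((hτ.conj h).mul h)) ((h.mul h).cast rfl ?_) (H.mul_mem hg hg))
    field_simp
    linear_combination -(l ^ 2 + l + 1) * v * two (F := F))
  obtain ⟨m, c, hz⟩ := exAf (hz z z1 z2)
  have m0 := hz.l0
  have c1 := cA hg h hl z1 hz
  have c2 := c1.add (cA hg h hl (mem_cj.1 z2) (hτ.conj' hz))
  have c3 := c1.add ((cA hg h hl (mem_cj.1 z3) (hτ'.conj' (hz.inv.mul h))).smul z1 hz)
  by_cases hm : m = 1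
  · subst hm
    convert c3 using 1
    field_simp
    linear_combination -c * two (F := F)
  · refine InA.cancel' z1 hz hm ?_
    convert c2 using 1
    linear_combination -c * two (F := F)

omit hω in
theorem tor (hE : EH D H) (hL : Lam D H (D.P 0 0)) : D.n ∈ H ∧ ∀ s, σ s = s → s ≠ 0 → ∃ h ∈ H, Af D h s 0 := by
  have key : ∀ s, σ s = s → s ≠ 0 → ∃ h, IsB D h s⁻¹ 0 0 ∧ h * D.n ∈ H := fun s hs s0 => by
    have e : s + σ s = 0 * σ 0 := by simp [hs, CharTwo.add_self_eq_zero]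
    obtain ⟨u, h⟩ := exU (D := D) e
    obtain ⟨u₁, u₂, h1, h2⟩ := exU₁ (D := D) s0 e
    refine ⟨_, (fund s0 h h1 h2).cast (by rw [hs]; field_simp) rfl rfl, ?_⟩
    have h3 := mem_cj.1 (hL _ D.na _ ⟨_, h⟩)
    rw [inv_inv, n_inv] at h3
    rw [mul_assoc, nn, mul_one, mul_assoc u₁, mul_assoc u₁]
    exact H.mul_mem (H.mul_mem (hE _ ⟨_, h1.cast rfl (zero_div _) rfl⟩) h3) (hE _ ⟨_, h2.cast rfl (zero_div _) rfl⟩)
  obtain ⟨h, h1, h2⟩ := key 1 (map_one σ) one_ne_zero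
  rw [(h1.cast inv_one rfl rfl).ext isB_one, one_mul] at h2
  refine ⟨h2, fun s hs s0 => ?_⟩
  obtain ⟨h, h1, h3⟩ := key s⁻¹ (by rw [map_inv₀, hs]) (inv_ne_zero s0)
  exact ⟨h, (H.mul_mem_cancel_right h2).1 h3, _, h1.cast (inv_inv s) rfl rfl⟩

omit hω in
theorem span {x r : F} (hx : x ≠ 0) (hr : σ r ≠ r) (h : ∀ s, σ s = s → InA D H (s * x) ∧ InA D H (s * (r * x))) (y : F) :
    InA D H y := by
  have h2 := two (F := F)
  have h1 : r + σ r ≠ 0 := fun e => hr (by linear_combination e - r * h2)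
  have h3 : σ ((y / x + σ (y / x)) / (r + σ r)) = (y / x + σ (y / x)) / (r + σ r) := by
    rw [map_div₀, map_add, map_add, D.inv, D.inv, add_comm (σ r), add_comm (σ _)]
  have := (h (y / x + (y / x + σ (y / x)) / (r + σ r) * r) (by
    rw [map_add, map_mul, h3]
    field_simp
    linear_combination (x * σ (y / x) * σ r - y * r) * 0 + (x * σ (y / x) * σ r - y * r) * h2)).1.add (h _ h3).2
  convert this using 1
  field_simp
  linear_combination -((y + x * σ (y / x)) * r) * h2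

theorem zero [Finite G] [IsSimpleGroup G] {s : F} (hs : σ s = s) (s0 : s ≠ 0) (s1 : s ≠ 1) (hb : Binary G (G ⧸ H))
    (hE : EH D H) (hL : Lam D H (D.P 0 0)) : H = ⊤ := by
  obtain ⟨hn, ht⟩ := tor hE hL
  obtain ⟨g, hg, h⟩ := ht s hs s0
  have h1 : ∀ x z, z + σ z = x * σ x → Lam D H (D.P x z) → InA D H x := fun x z e hl => by
    obtain ⟨τ, hτ⟩ := exU (D := D) e
    obtain ⟨k, hk, h'⟩ := (tor (hE.cj hτ.inv.fa) (by simpa [← hτ.b] using hl.cj τ⁻¹)).2 s hs s0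
    rw [mem_cj, inv_inv] at hk
    exact InA.cancel' hg h s1 (by simpa using cA hg h s1 hk (Af.conj ⟨_, hτ⟩ h'))
  obtain ⟨e, he⟩ := exU (D := D) (y := 0) (w := 1) (by simp [CharTwo.add_self_eq_zero])
  have e1 : e ≠ 1 := fun e' => one_ne_zero (D.inj _ _ _ _ he.val h00 (by rw [← he.b, e', one_smul])).2
  by_cases hA : ∃ x, x ≠ 0 ∧ InA D H x
  · obtain ⟨x, x0, k, hk, z, h2⟩ := hA
    have h3 : σ z ≠ z := fun e => x0 (by simpa [e, CharTwo.add_self_eq_zero] using h2.val.symm)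
    have z0 : z ≠ 0 := fun e => h3 (by simp [e])
    have z0' : σ z ≠ 0 := (_root_.map_ne_zero σ).2 z0
    have z1 : 1 / z + 1 ≠ 0 := fun e => h3 (by
      obtain rfl : z = 1 := by field_simp at e; linear_combination e - two (F := F)
      simp)
    have v1 : 1 / z + σ (1 / z) = x / z * σ (x / z) := by
      simp only [map_div₀, map_one]; field_simp; linear_combination h2.val
    have v2 := val_act (l := 1) D he.val v1
    have h4 := (((hL.smul hk).smul hn).smul (hE _ ⟨_, he⟩)).smul hn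
    rw [h2.b, D.hn _ _ h2.val z0, he.act _ _ v1] at h4
    simp only [map_one, map_zero, one_mul, zero_mul, add_zero] at h4 v2
    rw [D.hn _ _ v2 z1] at h4
    have h5 := h1 _ _ (by
      have : σ (1 / z + 1) ≠ 0 := (_root_.map_ne_zero σ).2 z1
      rw [map_div₀, map_div₀ σ (x / z), map_one, div_add_div _ _ z1 this, div_mul_div_comm, ← v2, one_mul, mul_one,
        add_comm]) h4
    have h6 : ∀ y, InA D H y := span x0 (r := 1 / z / (1 / z + 1)) (fun e => h3 (by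
      have : 1 / σ z + 1 ≠ 0 := by simpa using (_root_.map_ne_zero σ).2 z1
      simp only [map_div₀, map_add, map_one] at e
      field_simp at e
      simpa using e)) fun t ht' => by
        by_cases t0 : t = 0
        · subst t0
          simpa using ⟨1, H.one_mem, af_one⟩
        obtain ⟨g', hg', h'⟩ := ht t ht' t0
        exact ⟨InA.smul hg' h' ⟨k, hk, z, h2⟩, by convert h5.smul hg' h' using 2; ring⟩
    have h7 : ∀ p, Lam D H p := fun p => by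
      rcases D.cover p with rfl | ⟨x, z, e, rfl⟩
      · exact hE.lam_a
      obtain ⟨τ, hτ⟩ := exU (D := D) e
      obtain ⟨τ', h1, h2⟩ := h6 x
      exact hτ.b ▸ hL.smul (hE.mem ⟨_, hτ⟩ h2 h1)
    rcases H.normalCore_normal.eq_bot_or_eq_top with h8 | h8
    · have : e ∈ H.normalCore := fun k => by simpa [mem_cj] using h7 _ k rfl e ⟨_, he⟩
      exact absurd (Subgroup.mem_bot.1 (h8 ▸ this)) e1
    · exact top_le_iff.1 (h8 ▸ H.normalCore_le)
  · obtain ⟨τ, hτ⟩ := exAU (D := D) hω 1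
    refine absurd ⟨1, one_ne_zero, one hω hb hE hg h s1 hτ fun z z1 z2 => ?_⟩ hA
    rcases D.cover (z • D.a) with e | ⟨x, t, e, e'⟩
    · exact e
    have h2 := hE.lam_a.smul z1
    have h3 := ((hE.cj hτ.fa).lam_a.smul z2).cj τ⁻¹
    obtain ⟨w, hτ⟩ := hτ.inv
    rw [cj_inv_cj, e', hτ.act _ _ e] at h3
    rw [e'] at h2
    have h4 := by_contra fun h => hA ⟨_, h, h1 _ _ e h2⟩
    have h5 := by_contra fun h => hA ⟨_, h, h1 _ _ (val_act D hτ.val e) h3⟩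
    simp [h4] at h5

theorem le_B [Finite G] [IsSimpleGroup G] {s : F} (hs : σ s = s) (s0 : s ≠ 0) (s1 : s ≠ 1) (hb : Binary G (G ⧸ H))
    (hE : EH D H) (hH : H ≠ ⊤) {g : G} (hg : g ∈ H) : g • D.a = D.a := by
  rcases D.cover (g • D.a) with e | ⟨x, z, e, e'⟩
  · exact e
  obtain ⟨τ, hτ⟩ := exU (D := D) e
  exact absurd (H4.Sz.cj_eq_top (zero hω hs s0 s1 (binary_cj hb τ⁻¹) (hE.cj hτ.inv.fa)
    (by simpa [e', ← hτ.b] using (hE.lam_a.smul hg).cj τ⁻¹))) hH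

theorem three (hb : Binary G (G ⧸ H)) (hE : EH D H) (hB : ∀ g ∈ H, g • D.a = D.a) (hA : ∀ y, InA D H y) : False := by
  have hU : ∀ {g y}, Af D g 1 y → g ∈ H := fun {g y} h => let ⟨_, h1, h2⟩ := hA y; hE.mem h h2 h1
  have key : ∀ y c y' c', c + σ c = y * σ y → c' + σ c' = y' * σ y' → c ≠ 0 → c' ≠ 0 →
      (∃ k ∈ H, ∃ t, Af D k (σ c' / c' ^ 2 / (σ c / c ^ 2)) t) →
      ∃ k ∈ H, ∃ l, Af D k l 0 ∧ l * (y / c) = y' / c' ∧ l * σ l * (1 / c) = 1 / c' := by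
    rintro y c y' c' e e' c0 c0' ⟨k, hk, t, hk'⟩
    have v : ∀ {y c : F}, c + σ c = y * σ y → c ≠ 0 → 1 / c + σ (1 / c) = y / c * σ (y / c) := fun {y c} e c0 => by
      have : σ c ≠ 0 := (_root_.map_ne_zero σ).2 c0
      simp only [map_div₀, map_one]; field_simp; linear_combination e
    obtain ⟨u, h⟩ := exU (D := D) e
    obtain ⟨u₁, u₂, h1, h2⟩ := exU₁ (D := D) c0 e
    obtain ⟨u', h'⟩ := exU (D := D) e'
    obtain ⟨u₁', u₂', h1', h2'⟩ := exU₁ (D := D) c0' e'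
    have f := fund c0 h h1 h2
    have f' := fund c0' h' h1' h2'
    have m1 : (u₁' * D.n * u' * D.n * u₂' * D.n) * (u₁ * D.n * u * D.n * u₂ * D.n)⁻¹ ∈ H := by
      have := hk'.l0
      have h3 := hU (((Af.mul ⟨_, f'⟩ (Af.inv ⟨_, f⟩)).mul hk'.inv).cast (by rw [← div_eq_mul_inv (σ c' / c' ^ 2), mul_inv_cancel₀ this]) rfl)
      simpa using H.mul_mem h3 hk
    have m2 := H.mul_mem (H.mul_mem (H.inv_mem (hU ⟨_, h1'⟩)) m1) (hU ⟨_, h1⟩)
    obtain ⟨z, z1, z2, z3⟩ := hb.triple (x := D.n) (y := D.n * u * D.n) (k := D.n * (u' * u⁻¹) * D.n⁻¹) m2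
      (conj_mem_cj.2 (H.mul_mem (hU ⟨_, h'⟩) (H.inv_mem (hU ⟨_, h⟩)))) (by
        convert (conj_mem_cj (g := D.n * u * D.n)).2 (H.mul_mem (hU ⟨_, h2'⟩) (H.inv_mem (hU ⟨_, h2⟩))) using 1
        group)
    obtain ⟨l, y₀, w₀, hz⟩ := exB (hB z z1)
    have z4 := hB _ (mem_cj.1 z2)
    rw [mul_smul, mul_smul, D.na, inv_smul_eq_iff, D.na, hz.b] at z4
    obtain ⟨rfl, rfl⟩ := D.inj _ _ _ _ hz.val h00 z4
    have z5 := hB _ (mem_cj.1 z3)
    rw [mul_smul, mul_smul, inv_smul_eq_iff, mul_smul, inv_smul_eq_iff, ← mul_smul, show u₁'⁻¹ *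
      (u₁' * D.n * u' * D.n * u₂' * D.n * (u₁ * D.n * u * D.n * u₂ * D.n)⁻¹) * u₁ * (D.n * u * D.n) =
      D.n * u' * D.n * (u₂' * u₂⁻¹) by group, mul_smul, mul_smul u₂', h2.inv.fa, h2'.fa] at z5
    simp only [mul_smul, D.na, h.b, h'.b, D.hn _ _ e c0, D.hn _ _ e' c0', hz.act _ _ (v e c0)] at z5
    have := D.inj _ _ _ _ (v e' c0') (val_act D hz.val (v e c0)) z5
    exact ⟨z, z1, l, ⟨_, hz⟩, by simpa using this.1.symm, by simpa using this.2.symm⟩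
  have h2 := two (F := F)
  have ω0 : ω ≠ 0 := fun e => by simp [e] at hω
  have ω0' : σ ω ≠ 0 := (_root_.map_ne_zero σ).2 ω0
  obtain ⟨k, hk, l, h3, h4, -⟩ := key 1 ω ((σ ω / ω) ^ 3) ω (by simpa using hω) (by
    simp only [map_pow, map_div₀, D.inv, hω]; field_simp) ω0 ω0 ⟨1, H.one_mem, 0, af_one.cast (by field_simp) rfl⟩
  obtain ⟨y, hy⟩ := D.norm (ω / σ ω)
  obtain ⟨-, -, m, -, -, h5⟩ := key 0 1 y (ω / σ ω) (by simp [CharTwo.add_self_eq_zero]) hy one_ne_zero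
    (div_ne_zero ω0 ω0') ⟨k, hk, 0, h3.cast (by
      simp only [map_div₀, D.inv, map_one]; field_simp at h4 ⊢; linear_combination h4) rfl⟩
  have h6 := congrArg σ h5
  simp only [map_mul, map_div₀, map_one, D.inv] at h6
  have h7 : 1 / (ω / σ ω) = 1 / (σ ω / ω) := by rw [← h5, ← h6]; ring
  field_simp at h7
  grind

theorem fix_B (hU : ∀ g ∈ H, g • D.a = D.a) {g : G} {y : F} (h : Af D g 1 y) (g1 : g ≠ 1) {k : G} (hk : g ∈ cj k H) :
    k • D.a = D.a := h.fix g1 (by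
  have := hU _ (mem_cj.1 hk)
  rwa [mul_smul, mul_smul, inv_smul_eq_iff] at this)

theorem two_step [Finite G] {c : F} (hc : σ (c ^ 3) ≠ c ^ 3) (hb : Binary G (G ⧸ H)) (hE : EH D H)
    (hU : ∀ g ∈ H, ∃ y, Af D g 1 y) {x : F} (x0 : x ≠ 0) (hx : InA D H x) (y : F) : InA D H y := by
  have h2 := two (F := F)
  have hB : ∀ g ∈ H, g • D.a = D.a := fun g hg => let ⟨_, h⟩ := hU g hg; h.fa
  have hne : ∀ {g y}, Af D g 1 y → y ≠ 0 → g ≠ 1 := fun h y0 e => y0 ((e ▸ h).uniq hω af_one).2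
  obtain ⟨g₀, ⟨y₀, y0, h0⟩, hm⟩ := Set.exists_max_image {g : G | ∃ y, y ≠ 0 ∧ Af D g 1 y}
    (fun g => (fixedBy (G ⧸ H) g).ncard) (Set.toFinite _) (let ⟨g, _, h⟩ := hx; ⟨g, x, x0, h⟩)
  set m := (fixedBy (G ⧸ H) g₀).ncard
  have m0 : 0 < m := by
    obtain ⟨g, hg, h⟩ := hx
    exact lt_of_lt_of_le ((Set.ncard_pos (s := fixedBy (G ⧸ H) g) (Set.toFinite _)).2
      ⟨((1 : G) : G ⧸ H), smul_mk_eq.2 (by simpa using hg)⟩) (hm g ⟨x, x0, h⟩)
  have k1 : ∀ {g g' y μ}, (∃ t, Af D t μ 0) → y ≠ 0 → Af D g 1 y → Af D g' 1 (μ * y) →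
      (fixedBy (G ⧸ H) g').ncard = (fixedBy (G ⧸ H) g).ncard := by
    rintro g g' y μ ⟨t, ht⟩ y0 h h'
    obtain ⟨k, rfl⟩ := (ht.conjU h).conj_of hω (mul_ne_zero ht.l0 y0) h'
    rw [ncard_fixedBy_conj, ncard_fixedBy_conj]
  have k2 : ∀ {g g' y μ}, (∃ t, Af D t μ 0) → (∃ t, Af D t (μ + 1) 0) → y ≠ 0 → Af D g 1 y → Af D g' 1 (μ * y) →
      (fixedBy (G ⧸ H) g).ncard = m → fixedBy (G ⧸ H) g = fixedBy (G ⧸ H) g' := by
    intro g g' y μ t1 t2 y0 h h' e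
    have h3 : Af D (g'⁻¹ * g) 1 ((μ + 1) * y) := (h'.inv.mul h).cast (by simp) (by simp; ring)
    refine hb.fixedBy_eq e ((k1 t1 y0 h h').trans e) ((k1 t2 y0 h h3).trans e) fun z z1 z2 => ?_
    obtain ⟨p, hp⟩ := (Set.ncard_pos (Set.toFinite _)).1 (e ▸ m0)
    obtain ⟨k, rfl⟩ := QuotientGroup.mk_surjective p
    obtain ⟨a, b, hk⟩ := exAf (fix_B hω hB h (hne h y0) (mem_cj.2 (smul_mk_eq.1 hp)))
    obtain ⟨v, hv⟩ := hU _ (smul_mk_eq.1 (z1 _ hp))
    have h4 := hk.conjU hv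
    rw [show k * (k⁻¹ * z * k) * k⁻¹ = z by group] at h4
    by_cases v0 : a * v = 0
    · refine Or.inl fun p hp => ?_
      obtain ⟨k', rfl⟩ := QuotientGroup.mk_surjective p
      obtain ⟨t, t2⟩ := t2
      rw [← z2 _ hp]
      exact smul_mk_eq.2 (mem_cj.1 (hE.cj (fix_B hω hB h3 (hne h3 (mul_ne_zero t2.l0 y0)) (mem_cj.2 (smul_mk_eq.1 (by
        rw [mul_smul, hp, inv_smul_smul])))) _ (h4.cast rfl v0)))
    · exact Or.inr (hm z ⟨_, v0, h4⟩)
  have tK : ∀ s, σ s = s → s ≠ 0 → ∃ t, Af D t s 0 := fun s hs s0 => by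
    obtain ⟨t, ht⟩ := exT (D := D) (inv_ne_zero s0)
    exact ⟨t, _, ht.cast (by rw [map_inv₀, hs]; field_simp) rfl rfl⟩
  obtain ⟨p, hp⟩ := (Set.ncard_pos (Set.toFinite _)).1 m0
  obtain ⟨k, rfl⟩ := QuotientGroup.mk_surjective p
  obtain ⟨a, b, hk⟩ := exAf (fix_B hω hB h0 (hne h0 y0) (mem_cj.2 (smul_mk_eq.1 hp)))
  have k3 : ∀ {g y}, y ≠ 0 → Af D g 1 y → fixedBy (G ⧸ H) g₀ = fixedBy (G ⧸ H) g → ∀ s, σ s = s →
      InA D (cj k H) (s * y) := by
    intro g y y0 h e s hs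
    by_cases s0 : s = 0
    · exact ⟨1, Subgroup.one_mem _, af_one.cast rfl (by simp [s0])⟩
    by_cases s1 : s = 1
    · exact ⟨g, mem_cj.2 (smul_mk_eq.1 (e ▸ hp :)), h.cast rfl (by simp [s1])⟩
    obtain ⟨g', h'⟩ := exAU (D := D) hω (s * y)
    exact ⟨g', mem_cj.2 (smul_mk_eq.1 (k2 (tK s hs s0) (tK _ (by simp [hs]) fun e => s1 (by linear_combination e - h2))
      y0 h h' (e ▸ rfl) ▸ e ▸ hp :)), h'⟩
  have c0 : c ≠ 0 := fun e => hc (by simp [e])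
  have c0' : σ c ≠ 0 := (_root_.map_ne_zero σ).2 c0
  have hc' : σ c ^ 3 + c ^ 3 ≠ 0 := fun e => hc (by rw [map_pow]; linear_combination e - c ^ 3 * h2)
  obtain ⟨t, ht⟩ := exT (D := D) (div_ne_zero c0' c0)
  replace ht : Af D t ((c / σ c) ^ 3) 0 := ⟨_, ht.cast (by simp only [map_div₀, D.inv]; field_simp) rfl rfl⟩
  obtain ⟨t', ht'⟩ := tK ((c / σ c) ^ 3 + (σ c / c) ^ 3) (by simp only [map_add, map_pow, map_div₀, D.inv, add_comm])
    (fun e => hc' (by field_simp at e; grind))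
  obtain ⟨g₁, h1⟩ := exAU (D := D) hω ((c / σ c) ^ 3 * (c / σ c) ^ 3 * y₀)
  have h3 := k2 ⟨_, (ht.mul ht).cast rfl (by simp)⟩ ⟨_, (ht.mul ht').cast (by field_simp) (by simp)⟩ y0 h0 h1 rfl
  obtain ⟨g, hg, h4⟩ := span (D := D) (H := cj k H) y0 (r := (c / σ c) ^ 3 * (c / σ c) ^ 3) (fun e => hc' (by
    simp only [map_mul, map_pow, map_div₀, D.inv] at e; field_simp at e; grind))
    (fun s hs => ⟨k3 y0 h0 rfl s hs, k3 (mul_ne_zero (mul_ne_zero ht.l0 ht.l0) y0) h1 h3 s hs⟩) (a * y)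
  exact ⟨_, mem_cj.1 hg, (hk.conjU' h4).cast rfl (mul_div_cancel_left₀ _ hk.l0)⟩

theorem eq_E [Finite G] [IsSimpleGroup G] {s c : F} (hs : σ s = s) (s0 : s ≠ 0) (s1 : s ≠ 1) (hc : σ (c ^ 3) ≠ c ^ 3)
    (hb : Binary G (G ⧸ H)) (hE : EH D H) (hH : H ≠ ⊤) {g : G} (hg : g ∈ H) : Af D g 1 0 := by
  have hB := fun g (hg : g ∈ H) => le_B hω hs s0 s1 hb hE hH hg
  have hA : ¬ ∀ y, InA D H y := three hω hb hE hB
  have hU : ∀ g ∈ H, ∃ y, Af D g 1 y := fun g hg => by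
    obtain ⟨l, y, h⟩ := exAf (hB g hg)
    by_cases hl : l = 1
    · exact ⟨y, hl ▸ h⟩
    have h1 : l + 1 ≠ 0 := fun e => hl (by linear_combination e - two (F := F))
    obtain ⟨τ, hτ⟩ := exAU (D := D) hω (y / (l + 1))
    refine absurd (fun v => ?_) hA
    obtain ⟨τ', hτ'⟩ := exAU (D := D) hω v
    obtain ⟨k, hk, h2⟩ := one hω (binary_cj hb τ) (hE.cj hτ.fa) (conj_mem_cj.2 hg) ((hτ.conj h).cast rfl (by
      field_simp; linear_combination y * two (F := F))) hl hτ' fun z hz _ => by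
        have := hB _ (mem_cj.1 hz)
        rwa [mul_smul, mul_smul, hτ.fa, inv_smul_eq_iff, hτ.fa] at this
    exact ⟨_, mem_cj.1 hk, (hτ.conjU' h2).cast rfl (div_one _)⟩
  obtain ⟨y, h⟩ := hU g hg
  exact (by_contra fun y0 => hA (two_step hω hc hb hE hU y0 ⟨g, hg, h⟩) : y = 0) ▸ h

omit hω

variable (D) in
/-- the Sylow subgroup -/
def U : Subgroup G where
  carrier := {g | ∃ y, Af D g 1 y}
  mul_mem' := by rintro _ _ ⟨_, h⟩ ⟨_, h'⟩; exact ⟨_, (h.mul h').cast (one_mul _) rfl⟩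
  one_mem' := ⟨_, af_one⟩
  inv_mem' := by rintro _ ⟨_, h⟩; exact ⟨_, h.inv.cast inv_one rfl⟩

variable (D) in
/-- its centre -/
def E : Subgroup G where
  carrier := {g | Af D g 1 0}
  mul_mem' h h' := (Af.mul h h').cast (one_mul _) (by simp)
  one_mem' := af_one
  inv_mem' h := (Af.inv h).cast inv_one (by simp)

theorem cj_E {k : G} (hk : k • D.a = D.a) : cj k (E D) = E D := by
  have h : EH D (E D) := fun _ h => h
  exact le_antisymm (cj_le_iff.2 (h.cj (by rw [inv_smul_eq_iff, hk]))) (h.cj hk)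

theorem bin_E : Binary G (G ⧸ E D) := by
  refine binary_of_triple' fun x y g k hg hk hgk => triple_of_invol (fun g h => Af.sq h) (fun g1 k1 e => ?_) hg hk hgk
  have h1 : k • D.a = D.a := Af.fix hg g1 (by rw [← mul_smul, e, mul_smul, Af.fa hg])
  have h2 : x⁻¹ • D.a = D.a := Af.fix (mem_cj.1 hk) (fun e => k1 (by
    simpa [mul_assoc] using congrArg (fun z => x * z * x⁻¹) e)) (by rw [mul_smul, mul_smul, smul_inv_smul, h1])
  exact (cj_E (by rw [← inv_smul_eq_iff.1 h2])).symm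

theorem exE : ∃ e, e ≠ 1 ∧ Af D e 1 0 := by
  obtain ⟨e, he⟩ := exU (D := D) (y := 0) (w := 1) (by simp [CharTwo.add_self_eq_zero])
  exact ⟨e, fun e' => one_ne_zero (D.inj _ _ _ _ he.val h00 (by rw [← he.b, e', one_smul])).2, _, he⟩

include hω

theorem center_U : (Subgroup.center (U D)).map (U D).subtype = E D := by
  refine le_antisymm ?_ fun g hg => ⟨⟨g, _, hg⟩, Subgroup.mem_center_iff.2 fun ⟨_, _, h⟩ => Subtype.ext (Af.comm hg h), rfl⟩
  rintro _ ⟨⟨g, y, w, h⟩, hx, rfl⟩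
  obtain ⟨k, t, hk⟩ := exAU (D := D) hω (y * ω)
  have h1 : k * g = g * k := congrArg Subtype.val (Subgroup.mem_center_iff.1 hx ⟨k, _, _, hk⟩)
  have h2 := (D.inj _ _ _ _ (hk.mul h).val (h.mul hk).val ((hk.mul h).b.symm.trans (h1 ▸ (h.mul hk).b))).2
  have h3 := two (F := F)
  simp only [map_mul, map_one] at h2
  have h4 : y * σ y = 0 := by linear_combination h2 - y * σ y * hω + y * σ y * ω * h3
  obtain rfl : y = 0 := by simpa using h4
  exact ⟨w, h⟩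

theorem exists_sylow [Finite G] [Finite Ω] : ∃ P : Sylow 2 G, (P : Subgroup G) = U D := by
  have hU : IsPGroup 2 (U D) := fun ⟨g, y, h⟩ => ⟨2, Subtype.ext (by
    have := ((h.mul h).cast (one_mul _) (by simp [CharTwo.add_self_eq_zero])).sq
    simpa [pow_succ, mul_assoc] using this)⟩
  obtain ⟨e, e1, he⟩ := exE (D := D)
  refine ⟨⟨U D, hU, fun {Q} hQ hle => le_antisymm (fun g hg => ?_) hle⟩, rfl⟩
  have h1 := hU.card_modEq_card_fixedPoints Ω
  rw [show fixedPoints (U D) Ω = {D.a} from Set.ext fun p => ⟨fun hp => he.fix e1 (hp ⟨e, _, he⟩), by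
    rintro rfl ⟨g, _, h⟩; exact h.fa⟩] at h1
  obtain ⟨p, hp⟩ := hQ.nonempty_fixed_point_of_prime_not_dvd_card Ω (fun h => by
    have := (Nat.modEq_zero_iff_dvd.2 h).symm.trans h1
    simp [Nat.ModEq] at this)
  obtain rfl := he.fix e1 (hp ⟨e, hle ⟨_, he⟩⟩)
  obtain ⟨l, y, h⟩ := exAf (hp ⟨g, hg⟩)
  obtain ⟨k, hk⟩ := hQ ⟨g, hg⟩
  have h2 : ∀ n, ∃ y, Af D (g ^ n) (l ^ n) y := fun n => by
    induction n with
    | zero => exact ⟨0, by simpa using af_one⟩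
    | succ n ih => exact ⟨_, by simpa only [pow_succ] using ih.choose_spec.mul h⟩
  obtain ⟨y', h3⟩ := h2 (2 ^ k)
  rw [show g ^ 2 ^ k = 1 from congrArg Subtype.val hk] at h3
  have h4 := (h3.uniq hω af_one).1
  have h5 : (l - 1) ^ 2 ^ k = 0 := by rw [sub_pow_char_pow, h4, one_pow, sub_self]
  exact ⟨y, h.cast (sub_eq_zero.1 (pow_eq_zero_iff (by positivity) |>.1 h5)) rfl⟩

theorem bin_iff [Finite G] [Finite Ω] [IsSimpleGroup G] {s c : F} (hs : σ s = s) (s0 : s ≠ 0) (s1 : s ≠ 1)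
    (hc : σ (c ^ 3) ≠ c ^ 3) (D : UDat G Ω σ)
    (hone : ∀ s t : G, s ≠ 1 → s * s = 1 → t ≠ 1 → t * t = 1 → ∃ k, k * s * k⁻¹ = t) (hH : H ≠ ⊤)
    (he : Even (Nat.card H)) :
    Binary G (G ⧸ H) ↔ ∃ P : Sylow 2 G, H = (Subgroup.center (P : Subgroup G)).map (P : Subgroup G).subtype := by
  obtain ⟨P₀, hP⟩ := exists_sylow (D := D) hω
  refine ⟨fun hb => ?_, ?_⟩
  · obtain ⟨t, ht⟩ := exists_prime_orderOf_dvd_card' (G := H) 2 he.two_dvd
    have t1 : (t : G) ≠ 1 := fun e => by simp [show t = 1 from Subtype.ext e] at ht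
    have t2 : (t : G) * t = 1 := by rw [← pow_two, ← ht, ← Subgroup.coe_pow, pow_orderOf_eq_one, Subgroup.coe_one]
    obtain ⟨e, e1, he⟩ := exE (D := D)
    obtain ⟨k, hk⟩ := hone _ _ e1 he.sq t1 t2
    have h1 := binary_cj hb k⁻¹
    have hE : EH D (cj k⁻¹ H) := fun g hg =>
      h1.invol_mem hone e1 he.sq hg.sq (hg.comm he) (by rw [mem_cj, inv_inv, hk]; exact t.2)
    have h2 : cj k⁻¹ H = E D :=
      le_antisymm (fun g hg => eq_E hω hs s0 s1 hc h1 hE (fun e => hH (H4.Sz.cj_eq_top e)) hg) hE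
    refine ⟨k • P₀, ?_⟩
    rw [← cj_cj_inv k H, h2, ← center_U hω, ← hP, ← H4.Sz.center_cj]
    rfl
  · rintro ⟨P, rfl⟩
    obtain ⟨k, rfl⟩ := MulAction.exists_smul_eq G P₀ P
    rw [show ((k • P₀ : Sylow 2 G) : Subgroup G) = cj k (U D) by rw [← hP]; rfl, H4.Sz.center_cj, center_U hω]
    exact binary_cj bin_E k

end Cfsg.Agent.H2.BU
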