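import Cfsg.Agent.H2.BU2

/-! The unital model of `PSU₃(q)`, `q` even, and its binary actions. -/

set_option autoImplicit false
set_option linter.unusedSectionVars false

namespace Cfsg.Agent.H2.BU

open MulAction Cfsg.Agent.H8.U3Id.Dat Cfsg.Agent.H5.Rk Cfsg.Agent.H4.Pair Cfsg.Agent.H4.Bin

variable {F : Type*} [Field F] [CharP F 2] {σ : F →+* F}

/-- affine points -/
abbrev Pt (σ : F →+* F) := {p : F × F // p.2 + σ p.2 = p.1 * σ p.1}

open Classical in
/-- points -/
noncomputable def PP (σ : F →+* F) (x z : F) : Option (Pt σ) := if h : z + σ z = x * σ x then some ⟨(x, z), h⟩ else none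

theorem PP_eq {x z : F} (h : z + σ z = x * σ x) : PP σ x z = some ⟨(x, z), h⟩ := dif_pos h

variable (hσ : ∀ x, σ (σ x) = x)

/-- translations -/
def uP {y w : F} (h : w + σ w = y * σ y) : Equiv.Perm (Pt σ) where
  toFun p := ⟨(p.1.1 + y, p.1.2 + w + σ y * p.1.1), by
    simp only [map_add, map_mul, hσ]; linear_combination p.2 + h⟩
  invFun p := ⟨(p.1.1 + y, p.1.2 + σ w + σ y * p.1.1), by
    simp only [map_add, map_mul, hσ]; linear_combination p.2 + h⟩
  left_inv p := Subtype.ext (Prod.ext (by simp only; linear_combination y * two (F := F))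
    (by simp only; linear_combination h + (σ y * p.1.1 + y * σ y) * two (F := F)))
  right_inv p := Subtype.ext (Prod.ext (by simp only; linear_combination y * two (F := F))
    (by simp only; linear_combination h + (σ y * p.1.1 + y * σ y) * two (F := F)))

theorem val_n {x z : F} (e : z + σ z = x * σ x) (z0 : z ≠ 0) : 1 / z + σ (1 / z) = x / z * σ (x / z) := by
  have : σ z ≠ 0 := (_root_.map_ne_zero σ).2 z0
  simp only [map_div₀, map_one]; field_simp; linear_combination e

open Classical in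
/-- the Weyl element as a function -/
noncomputable def nF (σ : F →+* F) : Option (Pt σ) → Option (Pt σ)
  | none => PP σ 0 0
  | some p => if p.1.2 = 0 then none else PP σ (p.1.1 / p.1.2) (1 / p.1.2)

theorem nF_PP {x z : F} (e : z + σ z = x * σ x) (z0 : z ≠ 0) : nF σ (PP σ x z) = PP σ (x / z) (1 / z) := by
  rw [PP_eq e]; exact if_neg z0

theorem nF_zero : nF σ (PP σ 0 0) = none := by
  rw [PP_eq h00]; exact if_pos rfl

theorem nF_inv : Function.Involutive (nF σ) := by
  rintro (_ | ⟨⟨x, z⟩, e⟩)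
  · exact nF_zero
  · by_cases z0 : z = 0
    · subst z0
      obtain rfl : x = 0 := by simpa using e
      rw [← PP_eq e, nF_zero]; rfl
    · rw [← PP_eq e, nF_PP e z0, nF_PP (val_n e z0) (one_div_ne_zero z0)]
      congr 1 <;> field_simp

/-- the group generated by the translations and the Weyl element -/
def G0 : Subgroup (Equiv.Perm (Option (Pt σ))) :=
  Subgroup.closure ({nF_inv.toPerm} ∪ {g | ∃ y w, ∃ h : w + σ w = y * σ y, g = (uP hσ h).optionCongr})

theorem uP_PP {y w : F} (h : w + σ w = y * σ y) {x z : F} (e : z + σ z = x * σ x) :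
    (uP hσ h).optionCongr (PP σ x z) = PP σ (x + y) (z + w + σ y * x) := by
  rw [PP_eq e]
  exact (PP_eq (uP hσ h ⟨(x, z), e⟩).2).symm

/-- the model -/
noncomputable def dat0 (hn : ∀ w, ∃ y, w + σ w = y * σ y) : UDat (G0 hσ) (Option (Pt σ)) σ where
  a := none
  P := PP σ
  n := ⟨nF_inv.toPerm, Subgroup.subset_closure (Or.inl rfl)⟩
  inv := hσ
  faith g h := Subtype.ext (Equiv.ext h)
  cover := by
    rintro (_ | ⟨⟨x, z⟩, e⟩)
    exacts [Or.inl rfl, Or.inr ⟨x, z, e, (PP_eq e).symm⟩]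
  ne x z e := by rw [PP_eq e]; exact Option.some_ne_none _
  inj x z x' z' e e' h := by
    rw [PP_eq e, PP_eq e'] at h
    simpa using h
  hU y w h := ⟨⟨_, Subgroup.subset_closure (Or.inr ⟨y, w, h, rfl⟩)⟩, rfl, fun _ _ e => uP_PP hσ h e⟩
  na := rfl
  nb := nF_zero
  hn _ _ e z0 := nF_PP e z0
  gen N h1 h2 _ := fun ⟨g, hg⟩ => by
    induction hg using Subgroup.closure_induction with
    | mem g hg =>
      rcases hg with rfl | ⟨y, w, h, rfl⟩
      · exact h1
      · exact h2 _ y w h rfl fun _ _ e => uP_PP hσ h e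
    | one => exact N.one_mem
    | mul a b ha hb h h' => exact N.mul_mem h h'
    | inv a ha h => exact N.inv_mem h
  norm := hn

/-- transport of the model -/
def transport {G G' Ω : Type*} [Group G] [Group G'] [MulAction G Ω] [MulAction G' Ω] (D : UDat G Ω σ) (e : G ≃* G')
    (he : ∀ (g : G) (p : Ω), e g • p = g • p) : UDat G' Ω σ where
  a := D.a
  P := D.P
  n := e D.n
  inv := D.inv
  faith g h := by
    obtain ⟨g, rfl⟩ := e.surjective g
    rw [D.faith g fun p => (he g p).symm.trans (h p), map_one]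
  cover := D.cover
  ne := D.ne
  inj := D.inj
  hU y w h := let ⟨u, h1, h2⟩ := D.hU y w h; ⟨e u, (he _ _).trans h1, fun x z h => (he _ _).trans (h2 x z h)⟩
  na := (he _ _).trans D.na
  nb := (he _ _).trans D.nb
  hn x z h h' := (he _ _).trans (D.hn x z h h')
  gen N h1 h2 h3 g := by
    obtain ⟨g, rfl⟩ := e.surjective g
    exact D.gen (N.comap e.toMonoidHom) h1
      (fun u y w a b c => h2 _ y w a ((he _ _).trans b) fun x z h => (he _ _).trans (c x z h))
      (fun u l a b c d => h3 _ l a b ((he _ _).trans c) fun x z h => (he _ _).trans (d x z h)) g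
  norm := D.norm

theorem u3 {F : Type*} [Field F] [Fintype F] {a : ℕ} (ha : 2 ≤ a) (hF : Fintype.card F = (2 ^ a) ^ 2)
    [IsSimpleGroup (Cfsg.PSU 3 F (2 ^ a))]
    (hone : ∀ s t : Cfsg.PSU 3 F (2 ^ a), s ≠ 1 → s * s = 1 → t ≠ 1 → t * t = 1 → ∃ k, k * s * k⁻¹ = t)
    (H : Subgroup (Cfsg.PSU 3 F (2 ^ a))) (hH : H ≠ ⊤) (he : Even (Nat.card H)) :
    H4.Bin.Binary (Cfsg.PSU 3 F (2 ^ a)) (Cfsg.PSU 3 F (2 ^ a) ⧸ H) ↔
      ∃ P : Sylow 2 (Cfsg.PSU 3 F (2 ^ a)), H = (Subgroup.center (P : Subgroup (Cfsg.PSU 3 F (2 ^ a)))).map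
        (P : Subgroup (Cfsg.PSU 3 F (2 ^ a))).subtype := by
  classical
  have : CharP F 2 := charP_of_card_eq_prime_pow (p := 2) (f := a * 2) (by rw [hF, pow_mul])
  let σ : F →+* F := iterateFrobenius F 2 a
  have hσ : ∀ x, σ x = x ^ 2 ^ a := fun x => iterateFrobenius_def 2 a x
  have hinv : ∀ x, σ (σ x) = x := fun x => by rw [hσ, hσ, Form.pow_q_pow_q hF]
  let D := dat0 hinv fun w => by
    obtain ⟨l, hl⟩ := Asch.exists_norm_eq hF (a := w + σ w) (by rw [← hσ, map_add, hinv, add_comm])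
    exact ⟨l, by rw [← hl, hσ]⟩
  obtain ⟨e⟩ := iso_psu' hF hσ D
  let _ : MulAction (Cfsg.PSU 3 F (2 ^ a)) (Option (Pt σ)) := MulAction.compHom _ e.symm.toMonoidHom
  have h4 : 4 ≤ 2 ^ a := Nat.pow_le_pow_right (n := 2) (by decide) ha
  have key : ∀ i, 0 < i → i < (2 ^ a) ^ 2 - 1 → ∃ x : F, x ≠ 0 ∧ x ^ i ≠ 1 := fun i h0 h1 => by
    by_contra h
    push Not at h
    exact absurd (Nat.le_of_dvd h0 (hF ▸ (FiniteField.forall_pow_eq_one_iff F i).1 fun x =>
      Units.ext (by simpa using h x x.ne_zero))) (not_le.2 h1)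
  obtain ⟨q, hq⟩ : ∃ q, 2 ^ a = q + 1 := ⟨2 ^ a - 1, by omega⟩
  obtain ⟨x, x0, hx⟩ := key (q + 2) (by omega) (by rw [hq] at h4 ⊢; apply Nat.lt_sub_of_add_lt; nlinarith)
  obtain ⟨c, c0, hc⟩ := key (3 * q) (by omega) (by rw [hq] at h4 ⊢; apply Nat.lt_sub_of_add_lt; nlinarith)
  obtain ⟨b, hb⟩ := Form.exists_pow_q_ne hF
  rw [← hσ] at hb
  have hb' : b + σ b ≠ 0 := fun e => hb (by linear_combination e - b * two (F := F))
  exact bin_iff (ω := b / (b + σ b)) (by
      rw [map_div₀, map_add, hinv, add_comm (σ b), ← add_div, div_self hb']) (s := x * σ x) (c := c)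
    (by rw [map_mul, hinv, mul_comm]) (by simp [x0]) (by rwa [hσ, hq, ← pow_succ'])
    (fun e => hc (mul_right_cancel₀ (pow_ne_zero 3 c0) (by rw [one_mul, pow_mul, ← pow_succ, ← hq, ← hσ, e])))
    (transport D e fun g p => congrArg (· • p) (e.symm_apply_apply g)) hone hH he

end Cfsg.Agent.H2.BU
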