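import Mathlib

set_option autoImplicit false

/-! Binary affine groups, I: basic consequences of binarity. -/

namespace Cfsg.Agent.H2.Binary

open Module

variable {F V : Type*} [Field F] [AddCommGroup V] [Module F V]

/-- fixed space -/
def W (g : V ≃ₗ[F] V) : Submodule F V := LinearMap.ker (g.toLinearMap - LinearMap.id)
/-- commutator space -/
def U (g : V ≃ₗ[F] V) : Submodule F V := LinearMap.range (g.toLinearMap - LinearMap.id)
/-- rank of `g - 1` -/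
noncomputable def rk (g : V ≃ₗ[F] V) : ℕ := finrank F (U g)

variable {g h k s t x : V ≃ₗ[F] V} {u v w : V}

theorem mem_W : v ∈ W g ↔ g v = v := by simp [W, sub_eq_zero]
theorem mem_U : v ∈ U g ↔ ∃ u, g u - u = v := by simp [U]
theorem sub_mem_U (g : V ≃ₗ[F] V) (u : V) : g u - u ∈ U g := mem_U.mpr ⟨u, rfl⟩
theorem mul_app (g h : V ≃ₗ[F] V) (v : V) : (g * h) v = g (h v) := rfl
theorem one_app (v : V) : (1 : V ≃ₗ[F] V) v = v := rfl
theorem inv_app (g : V ≃ₗ[F] V) (v : V) : g⁻¹ (g v) = v := g.symm_apply_apply v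
theorem app_inv (g : V ≃ₗ[F] V) (v : V) : g (g⁻¹ v) = v := g.apply_symm_apply v
theorem app_app (ht : t * t = 1) (v : V) : t (t v) = v := by rw [← mul_app, ht]; rfl
theorem inv_eq (ht : t * t = 1) : t⁻¹ = t := inv_eq_of_mul_eq_one_right ht
theorem neg_of_U (ht : t * t = 1) (hv : v ∈ U t) : t v = -v := by
  obtain ⟨u, rfl⟩ := mem_U.mp hv
  rw [map_sub, app_app ht, neg_sub]
theorem U_mul_le (g h : V ≃ₗ[F] V) : U (g * h) ≤ U g ⊔ U h := by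
  intro v hv
  obtain ⟨u, rfl⟩ := mem_U.mp hv
  rw [show (g * h) u - u = (g (h u) - h u) + (h u - u) by rw [mul_app]; abel]
  exact Submodule.add_mem_sup (sub_mem_U _ _) (sub_mem_U _ _)
theorem mul_mem_W (h1 : v ∈ W g) (h2 : v ∈ W h) : v ∈ W (g * h) := by
  rw [mem_W] at *; rw [mul_app, h2, h1]
theorem W_inv (g : V ≃ₗ[F] V) : W g⁻¹ = W g := by
  ext v
  rw [mem_W, mem_W]
  exact ⟨fun h => by rw [← h, app_inv, h], fun h => by rw [← h, inv_app, h]⟩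
theorem U_inv_le (g : V ≃ₗ[F] V) : U g⁻¹ ≤ U g := by
  intro v hv
  obtain ⟨u, rfl⟩ := mem_U.mp hv
  have := neg_mem (sub_mem_U g (g⁻¹ u))
  rwa [app_inv, neg_sub] at this
theorem U_inv (g : V ≃ₗ[F] V) : U g⁻¹ = U g :=
  le_antisymm (U_inv_le g) (by simpa using U_inv_le g⁻¹)
theorem W_conj (x : V ≃ₗ[F] V) (hv : v ∈ W g) : x v ∈ W (x * g * x⁻¹) := by
  rw [mem_W] at *; rw [mul_app, mul_app, inv_app, hv]
theorem U_conj (x : V ≃ₗ[F] V) (hv : v ∈ U g) : x v ∈ U (x * g * x⁻¹) := by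
  obtain ⟨u, rfl⟩ := mem_U.mp hv
  exact mem_U.mpr ⟨x u, by rw [mul_app, mul_app, inv_app, map_sub]⟩
theorem U_conj' (x : V ≃ₗ[F] V) (hv : v ∈ U (x * g * x⁻¹)) : x⁻¹ v ∈ U g := by
  have := U_conj x⁻¹ hv
  rwa [show x⁻¹ * (x * g * x⁻¹) * x⁻¹⁻¹ = g by group] at this
theorem U_comm (hc : x * g = g * x) (hv : v ∈ U g) : x v ∈ U g := by
  have := U_conj x hv
  rwa [hc, mul_inv_cancel_right] at this
theorem W_comm (hc : x * g = g * x) (hv : v ∈ W g) : x v ∈ W g := by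
  have := W_conj x hv
  rwa [hc, mul_inv_cancel_right] at this
theorem conj_eq_inv (hk : k * k = 1) (hi : h * k * (h * k) = 1) : k * h * k⁻¹ = h⁻¹ := by
  rw [inv_eq hk, eq_inv_iff_mul_eq_one]
  calc k * h * k * h = h⁻¹ * (h * k * (h * k)) * k⁻¹ * (k * h) := by group
    _ = 1 := by rw [hi]; group
theorem U_invert (hk : k * k = 1) (hi : h * k * (h * k) = 1) (hv : v ∈ U h) : k v ∈ U h := by
  have := U_conj k hv
  rwa [conj_eq_inv hk hi, U_inv] at this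
theorem W_invert (hk : k * k = 1) (hi : h * k * (h * k) = 1) (hv : v ∈ W h) : k v ∈ W h := by
  have := W_conj k hv
  rwa [conj_eq_inv hk hi, W_inv] at this
theorem eq_one_of_W (hg : ∀ v, v ∈ W g) : g = 1 := LinearEquiv.ext fun v => mem_W.mp (hg v)
theorem eq_one_of_U (hg : ∀ v ∈ U g, v = 0) : g = 1 :=
  LinearEquiv.ext fun v => sub_eq_zero.mp (hg _ (sub_mem_U g v))
theorem exists_mem_U (hg : g ≠ 1) : ∃ v ∈ U g, v ≠ 0 := by
  by_contra h; push Not at h; exact hg (eq_one_of_U h)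
theorem half (h2 : (2 : F) ≠ 0) (hv : v + v = 0) : v = 0 :=
  (smul_eq_zero.mp (by rw [two_smul, hv])).resolve_left h2
theorem add_self (h2 : (2 : F) = 0) (v : V) : v + v = 0 := by rw [← two_smul F, h2, zero_smul]
theorem neg_self (h2 : (2 : F) = 0) (v : V) : -v = v :=
  neg_eq_of_add_eq_zero_left (add_self h2 v)
theorem mem_U_of_neg (h2 : (2 : F) ≠ 0) (hv : g v = -v) : v ∈ U g :=
  mem_U.mpr ⟨-((2 : F)⁻¹ • v), by
    rw [map_neg, map_smul, hv, smul_neg, neg_neg, sub_neg_eq_add, ← smul_add, ← two_smul F,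
      inv_smul_smul₀ h2]⟩
theorem U_le_W (h2 : (2 : F) = 0) (ht : t * t = 1) : U t ≤ W t := fun v hv => by
  rw [mem_W, neg_of_U ht hv, neg_self h2]

/-- `W g` and `U g` are disjoint -/
def Dj (g : V ≃ₗ[F] V) : Prop := ∀ v ∈ W g, v ∈ U g → v = 0
/-- a semisimple element of order greater than two -/
def Rot (g : V ≃ₗ[F] V) : Prop := g * g ≠ 1 ∧ Dj g

theorem Rot.ne_one (hg : Rot g) : g ≠ 1 := fun h => hg.1 (by rw [h, one_mul])

theorem disjoint_of {A B : Submodule F V} (h : ∀ v ∈ A, v ∈ B → v = 0) : A ⊓ B = ⊥ :=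
  eq_bot_iff.mpr fun v hv => h v hv.1 hv.2

variable [FiniteDimensional F V]

theorem finrank_sup_of {A B : Submodule F V} (h : ∀ v ∈ A, v ∈ B → v = 0) :
    finrank F (A ⊔ B : Submodule F V) = finrank F A + finrank F B := by
  rw [← Submodule.finrank_sup_add_finrank_inf_eq, disjoint_of h, finrank_bot, add_zero]

theorem rk_add (g : V ≃ₗ[F] V) : rk g + finrank F (W g) = finrank F V :=
  LinearMap.finrank_range_add_finrank_ker _

theorem W_eq_of_le (h1 : W g ≤ W h) (h2 : rk g ≤ rk h) : W g = W h :=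
  Submodule.eq_of_le_of_finrank_le h1 (by have := rk_add g; have := rk_add h; omega)

theorem rk_le_of_le (h1 : W g ≤ W h) : rk h ≤ rk g := by
  have := Submodule.finrank_mono h1; have := rk_add g; have := rk_add h; omega

theorem rk_lt_of (h1 : W g ≤ W h) (hv : v ∉ W g) (hv' : v ∈ W h) : rk h < rk g := by
  by_contra h2
  exact hv (W_eq_of_le h1 (not_lt.mp h2) ▸ hv')

theorem rk_conj (x g : V ≃ₗ[F] V) : rk (x * g * x⁻¹) = rk g := by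
  have : U (x * g * x⁻¹) = (U g).map x.toLinearMap := by
    ext v
    exact ⟨fun h => ⟨x⁻¹ v, U_conj' x h, app_inv x v⟩, fun ⟨u, hu, h⟩ => h ▸ U_conj x hu⟩
  rw [rk, this]; exact LinearEquiv.finrank_map_eq x _

theorem Dj.decomp (hg : Dj g) (v : V) : ∃ w ∈ W g, ∃ u ∈ U g, v = w + u := by
  have : W g ⊔ U g = ⊤ := Submodule.eq_top_of_finrank_eq (by
    rw [finrank_sup_of hg, add_comm]; exact rk_add g)
  obtain ⟨w, hw, u, hu, h⟩ := Submodule.mem_sup.mp (this.ge (Submodule.mem_top (x := v)))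
  exact ⟨w, hw, u, hu, h.symm⟩

theorem Dj.preimage (hg : Dj g) (hk : W g ≤ W k) (hv : v ∈ U k) : ∃ y ∈ U g, k y - y = v := by
  obtain ⟨u, rfl⟩ := mem_U.mp hv
  obtain ⟨w, hw, y, hy, rfl⟩ := hg.decomp u
  exact ⟨y, hy, by rw [map_add, mem_W.mp (hk hw)]; abel⟩

theorem Dj.eq_of (hg : Dj g) (h1 : ∀ v ∈ W g, h v = k v) (h2 : ∀ v ∈ U g, h v = k v) : h = k := by
  ext v
  obtain ⟨w, hw, y, hy, rfl⟩ := hg.decomp v
  rw [map_add, map_add, h1 w hw, h2 y hy]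

theorem two_inv (hs : s * s = 1) (ht : t * t = 1) (hg : Dj (s * t)) (h1 : W (s * t) ≤ W s)
    (h2 : W (s * t) ≤ W t) : U s ≤ U (s * t) ∧ U t ≤ U (s * t) ∧ (∀ v ∈ U s, v ∈ U t → v = 0) ∧
      rk s + rk t ≤ rk (s * t) := by
  have e1 : U s ≤ U (s * t) := fun v hv => by
    obtain ⟨y, hy, rfl⟩ := hg.preimage h1 hv
    refine sub_mem ?_ hy
    have := U_conj s hy
    rwa [show s * (s * t) * s⁻¹ = (s * t)⁻¹ by
      rw [← mul_assoc, hs, one_mul, mul_inv_rev, inv_eq ht], U_inv] at this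
  have e2 : U t ≤ U (s * t) := fun v hv => by
    obtain ⟨y, hy, rfl⟩ := hg.preimage h2 hv
    exact sub_mem (U_invert ht (by rw [mul_assoc s, ht, mul_one, hs]) hy) hy
  have e3 : ∀ v ∈ U s, v ∈ U t → v = 0 := fun v h3 h4 => hg v (by
    rw [mem_W, mul_app, neg_of_U ht h4, map_neg, neg_of_U hs h3, neg_neg]) (e1 h3)
  exact ⟨e1, e2, e3, by
    rw [rk, rk, ← finrank_sup_of e3]; exact Submodule.finrank_mono (sup_le e1 e2)⟩

omit [FiniteDimensional F V]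

/-- binary linear group: partial isometries extend -/
def Bin (H : Subgroup (V ≃ₗ[F] V)) : Prop :=
  ∀ R : Set (V × V), (∀ p ∈ R, ∃ g ∈ H, g p.1 = p.2) →
    (∀ p ∈ R, ∀ q ∈ R, ∃ g ∈ H, g (p.1 - q.1) = p.2 - q.2) → ∃ g ∈ H, ∀ p ∈ R, g p.1 = p.2

/-- pointwise stabiliser -/
def fix (H : Subgroup (V ≃ₗ[F] V)) (X : Submodule F V) : Subgroup (V ≃ₗ[F] V) where
  carrier := {g | g ∈ H ∧ X ≤ W g}
  one_mem' := ⟨one_mem H, fun _ _ => mem_W.mpr rfl⟩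
  mul_mem' := fun ha hb => ⟨mul_mem ha.1 hb.1, fun _ hv => mul_mem_W (ha.2 hv) (hb.2 hv)⟩
  inv_mem' := fun ha => ⟨inv_mem ha.1, by rw [W_inv]; exact ha.2⟩

variable {H : Subgroup (V ≃ₗ[F] V)}

theorem Bin.fix (hH : Bin H) (X : Submodule F V) : Bin (fix H X) := by
  intro R h1 h2
  obtain ⟨g, hg, h3⟩ := hH (R ∪ {p | p.1 ∈ X ∧ p.2 = p.1}) (by
    rintro p (hp | hp)
    · obtain ⟨g, hg, h⟩ := h1 p hp; exact ⟨g, hg.1, h⟩
    · exact ⟨1, one_mem H, hp.2.symm⟩) (by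
    rintro p (hp | hp) q (hq | hq)
    · obtain ⟨g, hg, h⟩ := h2 p hp q hq; exact ⟨g, hg.1, h⟩
    · obtain ⟨g, hg, h⟩ := h1 p hp
      exact ⟨g, hg.1, by rw [map_sub, h, mem_W.mp (hg.2 hq.1), hq.2]⟩
    · obtain ⟨g, hg, h⟩ := h1 q hq
      exact ⟨g, hg.1, by rw [map_sub, h, mem_W.mp (hg.2 hp.1), hp.2]⟩
    · exact ⟨1, one_mem H, by rw [hp.2, hq.2]; rfl⟩)
  exact ⟨g, ⟨hg, fun v hv => mem_W.mpr (h3 (v, v) (Or.inr ⟨hv, rfl⟩))⟩, fun p hp => h3 p (Or.inl hp)⟩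

theorem rel_neg {a b a' b' : V} (h : ∃ g ∈ H, g (a - b) = a' - b') :
    ∃ g ∈ H, g (b - a) = b' - a' := by
  obtain ⟨g, hg, h⟩ := h
  exact ⟨g, hg, by rw [← neg_sub, map_neg, h, neg_sub]⟩

theorem rel_self (a a' : V) : ∃ g ∈ H, g (a - a) = a' - a' := ⟨1, one_mem H, by simp⟩

theorem Bin.three (hH : Bin H) {a b c a' b' c' : V} (ha : ∃ g ∈ H, g a = a')
    (hb : ∃ g ∈ H, g b = b') (hc : ∃ g ∈ H, g c = c') (hab : ∃ g ∈ H, g (a - b) = a' - b')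
    (hac : ∃ g ∈ H, g (a - c) = a' - c') (hbc : ∃ g ∈ H, g (b - c) = b' - c') :
    ∃ g ∈ H, g a = a' ∧ g b = b' ∧ g c = c' := by
  obtain ⟨g, hg, h⟩ := hH {(a, a'), (b, b'), (c, c')} (by
    rintro p (rfl | rfl | rfl); exacts [ha, hb, hc]) (by
    rintro p (rfl | rfl | rfl) q (rfl | rfl | rfl)
    exacts [rel_self _ _, hab, hac, rel_neg hab, rel_self _ _, hbc, rel_neg hac, rel_neg hbc,
      rel_self _ _])
  exact ⟨g, hg, h (a, a') (by simp), h (b, b') (by simp), h (c, c') (by simp)⟩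

theorem Bin.two (hH : Bin H) {a b a' b' : V} (ha : ∃ g ∈ H, g a = a')
    (hb : ∃ g ∈ H, g b = b') (hab : ∃ g ∈ H, g (a - b) = a' - b') :
    ∃ g ∈ H, g a = a' ∧ g b = b' := by
  obtain ⟨g, hg, h1, h2, -⟩ := hH.three ha hb hb hab hab (rel_self _ _)
  exact ⟨g, hg, h1, h2⟩

theorem Bin.glue (hH : Bin H) (A B C : Submodule F V) {a b c : V ≃ₗ[F] V}
    (hab : ∃ g ∈ H, (∀ v ∈ A, g v = a v) ∧ ∀ v ∈ B, g v = b v)
    (hac : ∃ g ∈ H, (∀ v ∈ A, g v = a v) ∧ ∀ v ∈ C, g v = c v)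
    (hbc : ∃ g ∈ H, (∀ v ∈ B, g v = b v) ∧ ∀ v ∈ C, g v = c v) :
    ∃ g ∈ H, (∀ v ∈ A, g v = a v) ∧ (∀ v ∈ B, g v = b v) ∧ ∀ v ∈ C, g v = c v := by
  obtain ⟨g1, h1, a1, b1⟩ := hab
  obtain ⟨g2, h2, a2, c2⟩ := hac
  obtain ⟨g3, h3, b3, c3⟩ := hbc
  obtain ⟨g, hg, h⟩ := hH {p | (p.1 ∈ A ∧ p.2 = a p.1) ∨ (p.1 ∈ B ∧ p.2 = b p.1) ∨
      (p.1 ∈ C ∧ p.2 = c p.1)} (by
    rintro p (⟨hp, e⟩ | ⟨hp, e⟩ | ⟨hp, e⟩) <;> rw [e]
    exacts [⟨g1, h1, a1 _ hp⟩, ⟨g1, h1, b1 _ hp⟩, ⟨g2, h2, c2 _ hp⟩]) (by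
    rintro p (⟨hp, e⟩ | ⟨hp, e⟩ | ⟨hp, e⟩) q (⟨hq, e'⟩ | ⟨hq, e'⟩ | ⟨hq, e'⟩) <;> rw [e, e']
    exacts [⟨g1, h1, by rw [map_sub, a1 _ hp, a1 _ hq]⟩, ⟨g1, h1, by rw [map_sub, a1 _ hp, b1 _ hq]⟩,
      ⟨g2, h2, by rw [map_sub, a2 _ hp, c2 _ hq]⟩, ⟨g1, h1, by rw [map_sub, b1 _ hp, a1 _ hq]⟩,
      ⟨g1, h1, by rw [map_sub, b1 _ hp, b1 _ hq]⟩, ⟨g3, h3, by rw [map_sub, b3 _ hp, c3 _ hq]⟩,
      ⟨g2, h2, by rw [map_sub, c2 _ hp, a2 _ hq]⟩, ⟨g3, h3, by rw [map_sub, c3 _ hp, b3 _ hq]⟩,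
      ⟨g2, h2, by rw [map_sub, c2 _ hp, c2 _ hq]⟩])
  exact ⟨g, hg, fun v hv => h (v, _) (Or.inl ⟨hv, rfl⟩), fun v hv => h (v, _) (Or.inr (Or.inl ⟨hv, rfl⟩)),
    fun v hv => h (v, _) (Or.inr (Or.inr ⟨hv, rfl⟩))⟩

theorem Bin.swap (hH : Bin H) (hh : h ∈ H) (u : V) : ∃ t ∈ H, t u = h u ∧ t (h u) = u := by
  obtain ⟨t, ht, h1, h2⟩ := hH.two (a := u) (b := u + h u) (a' := h u) (b' := u + h u) ⟨h, hh, rfl⟩
    ⟨1, one_mem H, rfl⟩ ⟨h⁻¹, inv_mem hh, by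
      rw [sub_add_cancel_left, map_neg, inv_app]; abel⟩
  refine ⟨t, ht, h1, ?_⟩
  rw [map_add, h1, add_comm] at h2
  exact add_right_cancel h2

theorem Bin.swap' (hH : Bin H) (hh : h ∈ H) (u : V) :
    ∃ t ∈ H, W h ≤ W t ∧ t u = h u ∧ t (h u) = u := by
  obtain ⟨t, ht, h1⟩ := (hH.fix (W h)).swap (h := h) ⟨hh, le_rfl⟩ u
  exact ⟨t, ht.1, ht.2, h1⟩

theorem Bin.sumfree (hH : Bin H) {a b d : V} (ha : ∃ g ∈ H, g a = a + d)
    (hb : ∃ g ∈ H, g b = b + d) (hab : ∃ g ∈ H, g (a + b) = a + b + d) : d = 0 := by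
  obtain ⟨g, -, h1, h2, h3⟩ := hH.three (a := a + b) (a' := a + b + d) (b := a) (b' := a) (c := b)
    (c' := b) hab ⟨1, one_mem H, rfl⟩ ⟨1, one_mem H, rfl⟩
    (by rw [add_sub_cancel_left, show a + b + d - a = b + d by abel]; exact hb)
    (by rw [add_sub_cancel_right, show a + b + d - b = a + d by abel]; exact ha)
    ⟨1, one_mem H, rfl⟩
  rw [map_add, h2, h3] at h1
  exact add_eq_left.mp h1.symm

theorem Bin.nine (hH : Bin H) (hg : g ∈ H) {y d : V} (hy : y ∈ W g) (hd : d ∈ U g)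
    (hyd : ∃ h ∈ H, h y = y + d) : d = 0 := by
  obtain ⟨u, hu⟩ := mem_U.mp hd
  exact hH.sumfree (a := u) ⟨g, hg, by rw [← hu]; abel⟩ hyd
    ⟨g, hg, by rw [map_add, mem_W.mp hy, ← hu]; abel⟩

theorem Bin.dj_odd (hH : Bin H) (h2 : (2 : F) ≠ 0) (hh : h ∈ H) : Dj h := by
  intro d hd1 hd2
  obtain ⟨u, hu⟩ := mem_U.mp hd2
  obtain ⟨t, -, h1, h3, h4⟩ := hH.swap' hh u
  have e : h u = u + d := by rw [← hu]; abel
  rw [e] at h3 h4
  rw [map_add, h3, mem_W.mp (h1 hd1), add_assoc, add_eq_left] at h4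
  exact half h2 h4

theorem Bin.dj_sq (hH : Bin H) (h2 : (2 : F) = 0) (hg : g ∈ H) : Dj (g * g) := by
  have e2 : ∀ v, (g * g) v = v + (g (g v - v) - (g v - v)) := fun v => by
    rw [mul_app, map_sub]
    linear_combination (norm := abel) add_self h2 (g v) - add_self h2 v
  have key : ∀ u, g (g (g u - u) - (g u - u)) = g (g u - u) - (g u - u) →
      g (g u - u) - (g u - u) = 0 := by
    intro u hu
    refine hH.sumfree (a := g u - u) (b := u) ⟨g, hg, by abel⟩ ⟨g * g, mul_mem hg hg, e2 u⟩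
      ⟨g * g, mul_mem hg hg, ?_⟩
    rw [map_add, e2, e2, hu]; abel
  intro d hd1 hd2
  obtain ⟨u, hu⟩ := mem_U.mp hd2
  rw [e2, add_sub_cancel_left] at hu
  rw [mem_W, e2, add_eq_left] at hd1
  have h3 := key (g u - u) (by rw [hu]; exact sub_eq_zero.mp hd1)
  rw [hu] at h3
  rw [← hu]
  exact key u (by rw [hu]; exact sub_eq_zero.mp h3)

theorem Bin.sq_eq_one (hH : Bin H) (h2 : (2 : F) = 0) (hg : g ∈ H) (h4 : g * g * (g * g) = 1) :
    g * g = 1 := eq_one_of_U fun v hv => hH.dj_sq h2 hg v (U_le_W h2 h4 hv) hv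

theorem Bin.rot (hH : Bin H) (hk : k ∈ H) (hk2 : k * k ≠ 1) :
    ((2 : F) ≠ 0 ∧ Rot k) ∨ ((2 : F) = 0 ∧ Rot (k * k)) := by
  by_cases h2 : (2 : F) = 0
  · exact Or.inr ⟨h2, fun h => hk2 (hH.sq_eq_one h2 hk h), hH.dj_sq h2 hk⟩
  · exact Or.inl ⟨h2, hk2, hH.dj_odd h2 hk⟩

/-- commuting involutions act quadratically in characteristic two -/
theorem Bin.quad (hH : Bin H) (h2 : (2 : F) = 0) (hs : s ∈ H) (ht : t ∈ H) (ht2 : t * t = 1)
    (hc : s * t = t * s) : U t ≤ W s := by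
  intro y hy
  rw [mem_W, ← sub_eq_zero]
  exact hH.nine ht (U_le_W h2 ht2 hy) (sub_mem (U_comm hc hy) hy) ⟨s, hs, by abel⟩

variable [FiniteDimensional F V]

theorem Bin.le_of_inv (hH : Bin H) (K : Subgroup (V ≃ₗ[F] V))
    (hK : ∀ t ∈ H, t * t = 1 → t ∈ K) : H ≤ K := by
  intro h hh
  induction hn : rk h using Nat.strong_induction_on generalizing h with
  | _ n ih =>
    by_cases h1 : ∀ u, u + h u ∈ W h
    · refine hK h hh (LinearEquiv.ext fun u => ?_)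
      have := mem_W.mp (h1 u)
      rw [map_add, add_comm] at this
      exact add_right_cancel this
    push Not at h1
    obtain ⟨u, hu⟩ := h1
    obtain ⟨t, ht, h2, h3, h4⟩ := hH.swap' hh u
    have e1 : t ∈ K := ih _ (hn ▸ rk_lt_of h2 hu (by rw [mem_W, map_add, h3, h4, add_comm])) ht rfl
    have e2 : t⁻¹ * h ∈ K := ih _ (hn ▸ rk_lt_of (v := u)
      (fun v hv => mul_mem_W (by rw [W_inv]; exact h2 hv) hv)
      (fun h5 => hu (add_mem h5 (by rw [mem_W.mp h5]; exact h5)))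
      (by rw [mem_W, mul_app, ← h3, inv_app])) (mul_mem (inv_mem ht) hh) rfl
    simpa using mul_mem e1 e2

theorem Bin.exists_noncomm_of (hH : Bin H) (hg : g ∈ H) (hk : k * g ≠ g * k) :
    ∃ j ∈ H, j * j = 1 ∧ k * j ≠ j * k := by
  by_contra hno
  push Not at hno
  exact hk (Subgroup.mem_centralizer_singleton_iff.mp (hH.le_of_inv (Subgroup.centralizer {k})
    (fun j hj hj2 => Subgroup.mem_centralizer_singleton_iff.mpr (hno j hj hj2).symm) hg)).symm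

theorem Bin.exists_noncomm (hH : Bin H) (hg : g ∈ H) (hg2 : g * g ≠ 1) :
    ∃ s ∈ H, ∃ t ∈ H, s * s = 1 ∧ t * t = 1 ∧ s * t ≠ t * s := by
  by_contra hno
  push Not at hno
  have h1 : ∀ a ∈ H, ∀ b ∈ H, a * b = b * a := by
    intro a ha b hb
    by_contra h
    obtain ⟨j, hj, hj2, h3⟩ := hH.exists_noncomm_of hb h
    obtain ⟨i, hi, hi2, h4⟩ := hH.exists_noncomm_of ha h3.symm
    exact h4 (hno j hj i hi hj2 hi2)
  let K : Subgroup (V ≃ₗ[F] V) :=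
    { carrier := {x | x ∈ H ∧ x * x = 1}
      one_mem' := ⟨one_mem H, one_mul 1⟩
      mul_mem' := fun {a b} ha hb => ⟨mul_mem ha.1 hb.1, by
        rw [mul_assoc, ← mul_assoc b, ← h1 a ha.1 b hb.1, mul_assoc, hb.2, mul_one, ha.2]⟩
      inv_mem' := fun {a} ha => ⟨inv_mem ha.1, by rw [inv_eq ha.2, ha.2]⟩ }
  exact hg2 (hH.le_of_inv K (fun t ht ht2 => ⟨ht, ht2⟩) hg).2

omit [FiniteDimensional F V] in
theorem sq_ne_of_noncomm (hs : s * s = 1) (ht : t * t = 1) (hc : s * t ≠ t * s) :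
    s * t * (s * t) ≠ 1 := fun h => hc (by
  rw [eq_inv_of_mul_eq_one_left h, mul_inv_rev, inv_eq hs, inv_eq ht])

omit [FiniteDimensional F V] in
theorem conj_sq (x : V ≃ₗ[F] V) (hs : s * s = 1) : x * s * x⁻¹ * (x * s * x⁻¹) = 1 := by
  calc _ = x * (s * s) * x⁻¹ := by group
    _ = 1 := by rw [hs]; group

omit [FiniteDimensional F V] in
theorem Bin.rot_pair (hH : Bin H) (hs : s ∈ H) (ht : t ∈ H) (hs2 : s * s = 1) (ht2 : t * t = 1)
    (hc : s * t ≠ t * s) : ∃ s', (s' = t ∨ s' = t * s * t⁻¹) ∧ Rot (s * s') := by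
  rcases hH.rot (mul_mem hs ht) (sq_ne_of_noncomm hs2 ht2 hc) with ⟨-, h⟩ | ⟨-, h⟩
  · exact ⟨t, Or.inl rfl, h⟩
  · exact ⟨_, Or.inr rfl, by rw [inv_eq ht2, ← mul_assoc, ← mul_assoc, mul_assoc (s * t)]; exact h⟩

theorem Bin.exists_half (hH : Bin H) (hg : g ∈ H) (hr : Rot g) :
    ∃ τ ∈ H, τ ≠ 1 ∧ 2 * rk τ ≤ rk g := by
  induction hn : rk g using Nat.strong_induction_on generalizing g with
  | _ n ih =>
    obtain ⟨s, hs, t, ht, hs2, ht2, hc⟩ := (hH.fix (W g)).exists_noncomm ⟨hg, le_rfl⟩ hr.1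
    obtain ⟨s', h1, h2⟩ := hH.rot_pair hs.1 ht.1 hs2 ht2 hc
    have h3 : s' ∈ Binary.fix H (W g) ∧ s' * s' = 1 := by
      rcases h1 with rfl | rfl
      exacts [⟨ht, ht2⟩, ⟨mul_mem (mul_mem ht hs) (inv_mem ht), conj_sq t hs2⟩]
    have h4 := mul_mem hs h3.1
    rcases (rk_le_of_le h4.2).lt_or_eq with h5 | h5
    · obtain ⟨τ, h6, h7, h8⟩ := ih _ (hn ▸ h5) h4.1 h2 rfl
      exact ⟨τ, h6, h7, by omega⟩
    · have h6 := W_eq_of_le h4.2 h5.ge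
      have h7 := (two_inv hs2 h3.2 h2.2 (h6 ▸ hs.2) (h6 ▸ h3.1.2)).2.2.2
      by_cases h8 : rk s ≤ rk s'
      · exact ⟨s, hs.1, fun h => h2.1 (by rw [h, one_mul, h3.2]), by omega⟩
      · exact ⟨s', h3.1.1, fun h => h2.1 (by rw [h, mul_one, hs2]), by omega⟩

end Cfsg.Agent.H2.Binary
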