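import Mathlib
import Cfsg.Agent.H2.Bin1

set_option autoImplicit false

/-! Binary affine groups, II: minimal reflections and planes. -/

namespace Cfsg.Agent.H2.Binary

open Module

variable {F V : Type*} [Field F] [AddCommGroup V] [Module F V] [FiniteDimensional F V]
variable {g h k s t x j : V ≃ₗ[F] V} {u v w : V} {H : Subgroup (V ≃ₗ[F] V)} {m : ℕ}

/-- `m` is the minimal rank in the binary group `H` -/
structure Ctx (H : Subgroup (V ≃ₗ[F] V)) (m : ℕ) : Prop where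
  bin : Bin H
  min : ∀ g ∈ H, g ≠ 1 → m ≤ rk g
  pos : 0 < m

/-- minimal reflections -/
structure T (H : Subgroup (V ≃ₗ[F] V)) (m : ℕ) (t : V ≃ₗ[F] V) : Prop where
  mem : t ∈ H
  rk : rk t = m

/-- rotations of a plane -/
structure Pl (H : Subgroup (V ≃ₗ[F] V)) (m : ℕ) (g : V ≃ₗ[F] V) : Prop where
  mem : g ∈ H
  rot : Rot g
  rk : rk g = 2 * m

omit [FiniteDimensional F V] in
theorem rk_one : rk (1 : V ≃ₗ[F] V) = 0 := by
  have : U (1 : V ≃ₗ[F] V) = ⊥ := eq_bot_iff.mpr fun v hv => by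
    obtain ⟨u, rfl⟩ := mem_U.mp hv
    simp
  rw [rk, this, finrank_bot]

theorem T.conj (ht : T H m t) (hx : x ∈ H) : T H m (x * t * x⁻¹) :=
  ⟨mul_mem (mul_mem hx ht.mem) (inv_mem hx), by rw [rk_conj, ht.rk]⟩

namespace Ctx
variable (c : Ctx H m)
include c

omit [FiniteDimensional F V] in
theorem ne_one (ht : T H m t) : t ≠ 1 := fun h => by
  have := ht.rk; rw [h, rk_one] at this; exact c.pos.ne this

theorem maxW (ht : T H m t) (hg : g ∈ H) (hg1 : g ≠ 1) (h : W t ≤ W g) : W t = W g ∧ T H m g :=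
  ⟨W_eq_of_le h (ht.rk ▸ c.min g hg hg1), hg, le_antisymm (ht.rk ▸ rk_le_of_le h) (c.min g hg hg1)⟩

theorem sq (ht : T H m t) : t * t = 1 := by
  ext u
  by_cases hu : u ∈ W t
  · rw [mul_app, mem_W.mp hu, mem_W.mp hu]; rfl
  obtain ⟨s, hs, h1, h2, h3⟩ := c.bin.swap' ht.mem u
  have h4 := (c.maxW ht hs (fun h => hu (by rw [mem_W, ← h2, h]; rfl)) h1).1
  have h5 : u + t u ∈ W t := by rw [h4, mem_W, map_add, h2, h3, add_comm]
  rw [mem_W, map_add, add_comm] at h5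
  exact add_right_cancel h5

theorem two_le (hg : g ∈ H) (hr : Rot g) : 2 * m ≤ rk g := by
  obtain ⟨τ, h1, h2, h3⟩ := c.bin.exists_half hg hr
  have := c.min τ h1 h2
  omega

theorem plane_aux (hs : T H m s) (ht : T H m t) (hr : Rot (s * t)) :
    Pl H m (s * t) ∧ U (s * t) = U s ⊔ U t ∧ W (s * t) = W s ⊓ W t := by
  have h1 := c.two_le (mul_mem hs.mem ht.mem) hr
  have h2 : finrank F (U s ⊔ U t : Submodule F V) ≤ 2 * m := by
    have := Submodule.finrank_add_le_finrank_add_finrank (U s) (U t)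
    have e1 := hs.rk; have e2 := ht.rk
    unfold rk at e1 e2; omega
  have h3 : rk (s * t) ≤ 2 * m := (Submodule.finrank_mono (U_mul_le s t)).trans h2
  refine ⟨⟨mul_mem hs.mem ht.mem, hr, by omega⟩,
    Submodule.eq_of_le_of_finrank_le (U_mul_le s t) (h2.trans h1), ?_⟩
  symm
  refine Submodule.eq_of_le_of_finrank_le (fun v hv => mul_mem_W hv.1 hv.2) ?_
  have := Submodule.finrank_sup_add_finrank_inf_eq (W s) (W t)
  have := Submodule.finrank_le (W s ⊔ W t)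
  have := rk_add s; have := rk_add t; have := rk_add (s * t); have := hs.rk; have := ht.rk
  omega

theorem plane (hs : T H m s) (ht : T H m t) (hc : s * t ≠ t * s) :
    ∃ g, Pl H m g ∧ (g = s * t ∨ g = s * t * (s * t)) ∧ U g = U s ⊔ U t ∧ W g = W s ⊓ W t := by
  have hs2 := c.sq hs
  have ht2 := c.sq ht
  rcases c.bin.rot (mul_mem hs.mem ht.mem) (sq_ne_of_noncomm hs2 ht2 hc) with ⟨-, h⟩ | ⟨-, h⟩
  · obtain ⟨h1, h2, h3⟩ := c.plane_aux hs ht h
    exact ⟨_, h1, Or.inl rfl, h2, h3⟩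
  have e1 : s * t * (s * t) = s * (t * s * t⁻¹) := by rw [inv_eq ht2]; group
  have e2 : s * t * (s * t) = s * t * s⁻¹ * t := by rw [inv_eq hs2]; group
  obtain ⟨h1, h2, h3⟩ := c.plane_aux hs (hs.conj ht.mem) (e1 ▸ h)
  obtain ⟨-, h4, h5⟩ := c.plane_aux (ht.conj hs.mem) ht (e2 ▸ h)
  rw [← e1] at h1 h2 h3
  rw [← e2] at h4 h5
  have h6 : W (s * t * (s * t)) = W s ⊓ W t := le_antisymm
    (le_inf (h3.le.trans inf_le_left) (h5.le.trans inf_le_right))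
    (fun v hv => mul_mem_W (mul_mem_W hv.1 hv.2) (mul_mem_W hv.1 hv.2))
  refine ⟨_, h1, Or.inr rfl, ?_, h6⟩
  symm
  have h7 : U s ≤ U (s * t * (s * t)) := le_sup_left.trans h2.ge
  refine Submodule.eq_of_le_of_finrank_le (sup_le h7 (le_sup_right.trans h4.ge)) ?_
  rw [finrank_sup_of fun v hv hv' => h.2 v ?_ (h7 hv)]
  · have := h1.rk; have := hs.rk; have := ht.rk
    unfold rk at *; omega
  · have : v ∈ W (s * t) := by
      rw [mem_W, mul_app, neg_of_U ht2 hv', map_neg, neg_of_U hs2 hv, neg_neg]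
    exact mul_mem_W this this

theorem pl_of (hg : Pl H m g) (hh : h ∈ H) (hW : W g ≤ W h) (hr : Rot h) :
    Pl H m h ∧ W g = W h := by
  have h1 := c.two_le hh hr
  have h2 := rk_le_of_le hW
  have h3 := hg.rk
  exact ⟨⟨hh, hr, by omega⟩, W_eq_of_le hW (by omega)⟩

theorem sq_of_fix (hg : Pl H m g) (hk : k ∈ H) (hW : W g ≤ W k) (hv : v ∉ W g) (hkv : v ∈ W k) :
    k * k = 1 := by
  by_contra h
  rcases c.bin.rot hk h with ⟨-, h1⟩ | ⟨-, h1⟩
  · exact hv ((c.pl_of hg hk hW h1).2 ▸ hkv)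
  · exact hv ((c.pl_of hg (mul_mem hk hk) (fun v hv => mul_mem_W (hW hv) (hW hv)) h1).2 ▸
      mul_mem_W hkv hkv)

theorem of_invert (hg : Pl H m g) (hk : k ∈ H) (hW : W g ≤ W k) (hk2 : k * k = 1)
    (hi : g * k * (g * k) = 1) : T H m k ∧ T H m (g * k) ∧ U g = U (g * k) ⊔ U k ∧
      ∀ v ∈ U (g * k), v ∈ U k → v = 0 := by
  have e : g * k * k = g := by rw [mul_assoc, hk2, mul_one]
  obtain ⟨h1, h2, h3, h4⟩ := two_inv hi hk2 (e.symm ▸ hg.rot.2)
    (by rw [e]; exact fun v hv => mul_mem_W hv (hW hv)) (by rw [e]; exact hW)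
  rw [e] at h1 h2 h4
  have h5 := c.min k hk fun h => hg.rot.1 (by rwa [h, mul_one] at hi)
  have h6 := c.min _ (mul_mem hg.mem hk) fun h => hg.rot.1 (by rw [← e, h, one_mul, hk2])
  have h7 := hg.rk
  refine ⟨⟨hk, by omega⟩, ⟨mul_mem hg.mem hk, by omega⟩, ?_, h3⟩
  symm
  refine Submodule.eq_of_le_of_finrank_le (sup_le h1 h2) ?_
  rw [finrank_sup_of h3]
  unfold rk at *; omega

theorem exists_invert (hg : Pl H m g) (hu : u ∈ U g) (hu2 : g (g u) ≠ u) :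
    ∃ k ∈ H, W g ≤ W k ∧ u ∈ W k ∧ k * k = 1 ∧ g * k * (g * k) = 1 := by
  obtain ⟨t, ht, h1, h2, h3⟩ := c.bin.swap' hg.mem u
  have h4 : t * t = 1 := c.sq_of_fix hg ht h1 (v := u + g u) (fun h => hu2 (by
    have h5 := hg.rot.2 _ h (add_mem hu (U_comm rfl hu))
    rw [eq_neg_of_add_eq_zero_right h5, map_neg, eq_neg_of_add_eq_zero_right h5, neg_neg]))
    (by rw [mem_W, map_add, h2, h3, add_comm])
  have h5 : W g ≤ W (g⁻¹ * t) := fun v hv => mul_mem_W (by rwa [W_inv]) (h1 hv)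
  have h6 : u ∈ W (g⁻¹ * t) := by rw [mem_W, mul_app, h2, inv_app]
  refine ⟨g⁻¹ * t, mul_mem (inv_mem hg.mem) ht, h5, h6,
    c.sq_of_fix hg (mul_mem (inv_mem hg.mem) ht) h5 (fun h => hu2 ?_) h6, by
      rw [mul_inv_cancel_left, h4]⟩
  rw [mem_W.mp h, mem_W.mp h]

/-- commuting involutions in odd characteristic -/
theorem four (h2 : (2 : F) ≠ 0) (ht : T H m t) (hs : s ∈ H) (hs2 : s * s = 1)
    (hc : s * t = t * s) (hv : v ∈ U s) (hv' : v ∈ U t) (hv0 : v ≠ 0) : U t ≤ U s := by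
  have ht2 := c.sq ht
  obtain ⟨σ, h1, h3, h4, h5⟩ := c.bin.glue (W s) (W t) (U s ⊓ U t) (a := 1) (b := 1) (c := s)
    ⟨1, one_mem H, fun _ _ => rfl, fun _ _ => rfl⟩
    ⟨s, hs, fun _ hv => mem_W.mp hv, fun _ _ => rfl⟩
    ⟨t, ht.mem, fun _ hv => mem_W.mp hv, fun v hv => by rw [neg_of_U ht2 hv.2, neg_of_U hs2 hv.1]⟩
  have h6 := (c.maxW ht h1 (fun h => hv0 (half h2 (by
    have := h5 v ⟨hv, hv'⟩
    rw [h, neg_of_U hs2 hv] at this
    exact add_eq_zero_iff_eq_neg.mpr this))) (fun v hv => mem_W.mpr (h4 v hv))).1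
  intro y hy
  apply mem_U_of_neg h2
  have h7 : y + s y ∈ W t := by
    rw [h6, mem_W]
    exact h3 _ (by rw [mem_W, map_add, app_app hs2, add_comm])
  exact eq_neg_of_add_eq_zero_right (c.bin.dj_odd h2 ht.mem _ h7 (add_mem hy (U_comm hc hy)))

theorem four' (h2 : (2 : F) ≠ 0) (ht : T H m t) (hs : s ∈ H) (hs2 : s * s = 1)
    (hc : s * t = t * s) : U t ≤ U s ∨ U t ≤ W s := by
  by_cases h : U t ≤ W s
  · exact Or.inr h
  obtain ⟨y, hy, hy'⟩ := SetLike.not_le_iff_exists.mp h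
  exact Or.inl (c.four h2 ht hs hs2 hc (sub_mem_U s y) (sub_mem (U_comm hc hy) hy)
    fun h => hy' (mem_W.mpr (sub_eq_zero.mp h)))

theorem sq_fpf (hg : Pl H m g) (hu : u ∈ U g) (hu2 : g (g u) = u) : u = 0 := by
  have hW : W g ≤ W (g * g) := fun v hv => mul_mem_W hv hv
  by_cases h4 : g * g * (g * g) = 1
  swap
  · rcases c.bin.rot hg.mem hg.rot.1 with ⟨h2, -⟩ | ⟨h2, h⟩
    · exact hg.rot.2 u ((c.pl_of hg (mul_mem hg.mem hg.mem) hW
        ⟨h4, c.bin.dj_odd h2 (mul_mem hg.mem hg.mem)⟩).2 ▸ mem_W.mpr hu2) hu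
    · exact hg.rot.2 u ((c.pl_of hg (mul_mem hg.mem hg.mem) hW h).2 ▸ mem_W.mpr hu2) hu
  by_cases h2 : (2 : F) = 0
  · exact absurd (c.bin.sq_eq_one h2 hg.mem h4) hg.rot.1
  obtain ⟨a, ha, ha0⟩ := exists_mem_U hg.rot.1
  have ha1 : g (g a) = -a := neg_of_U h4 ha
  have haU : a ∈ U g := by simpa using U_mul_le g g ha
  obtain ⟨k, hk, h5, h6, h7, h8⟩ := c.exists_invert hg haU (fun h => ha0 (half h2 (by
    rw [ha1] at h; exact add_eq_zero_iff_eq_neg.mpr h.symm)))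
  obtain ⟨t1, t2, h9, -⟩ := c.of_invert hg hk h5 h7 h8
  have e : k * g = g⁻¹ * k := by rw [← conj_eq_inv h7 h8]; group
  have e' : g⁻¹ * g⁻¹ = g * g := by rw [← mul_inv_rev, inv_eq h4]
  have c1 : g * g * k = k * (g * g) := by
    rw [← mul_assoc, e, mul_assoc g⁻¹, e, ← mul_assoc, e']
  have c2 : g * g * (g * k) = g * k * (g * g) := by rw [mul_assoc g k, ← c1]; group
  have hga : g a ∈ U (g * g) := U_comm (mul_assoc g g g).symm ha
  have hkga : k (g a) = -g a := by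
    rw [← mul_app, e, mul_app, mem_W.mp h6, ← neg_neg a, ← ha1, map_neg, inv_app, ha1, neg_neg]
  have l1 := c.four h2 t1 (mul_mem hg.mem hg.mem) h4 c1 hga (mem_U_of_neg h2 hkga)
    (fun h => ha0 (g.injective (h.trans (map_zero g).symm)))
  have l2 := c.four h2 t2 (mul_mem hg.mem hg.mem) h4 c2 (v := g a - a) (sub_mem hga ha)
    (mem_U.mpr ⟨a, by rw [mul_app, mem_W.mp h6]⟩)
    (fun h => ha0 (hg.rot.2 a (mem_W.mpr (sub_eq_zero.mp h)) haU))
  have h10 := neg_of_U h4 (sup_le l2 l1 (h9 ▸ hu))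
  rw [mul_app, hu2] at h10
  exact half h2 (add_eq_zero_iff_eq_neg.mpr h10)

theorem exists_T (hg : Pl H m g) (hu : u ∈ U g) (hu0 : u ≠ 0) :
    ∃ k, T H m k ∧ W g ≤ W k ∧ u ∈ W k ∧ g * k * (g * k) = 1 := by
  obtain ⟨k, hk, h1, h2, h3, h4⟩ := c.exists_invert hg hu fun h => hu0 (c.sq_fpf hg hu h)
  exact ⟨k, (c.of_invert hg hk h1 h3 h4).1, h1, h2, h4⟩

theorem exists_T' (hg : Pl H m g) (hv : v ∉ W g) :
    ∃ k, T H m k ∧ W g ≤ W k ∧ v ∈ W k ∧ g * k * (g * k) = 1 := by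
  obtain ⟨w, hw, u, hu, rfl⟩ := hg.rot.2.decomp v
  obtain ⟨k, h1, h2, h3, h4⟩ := c.exists_T hg hu (fun h => hv (by rwa [h, add_zero]))
  exact ⟨k, h1, h2, add_mem (h2 hw) h3, h4⟩

/-- reflections `s`, `t` with `U s ∩ W t ≠ 0` or `U s ∩ U t ≠ 0` commute -/
theorem comm_of (hs : T H m s) (ht : T H m t) (hv : v ∈ U s) (hv' : v ∈ W t ∨ v ∈ U t)
    (hv0 : v ≠ 0) : s * t = t * s := by
  by_contra hc
  obtain ⟨g, hg, h1, h2, -⟩ := c.plane hs ht hc
  have e : (s * t) ((s * t) v) = v := by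
    rcases hv' with h | h
    · simp only [mul_app, mem_W.mp h, neg_of_U (c.sq hs) hv, map_neg, neg_neg]
    · simp only [mul_app, neg_of_U (c.sq ht) h, neg_of_U (c.sq hs) hv, map_neg, neg_neg]
  refine hv0 (c.sq_fpf hg (h2 ▸ Submodule.mem_sup_left hv) ?_)
  rcases h1 with rfl | rfl
  · exact e
  · simp only [mul_app (s * t), e]

omit c in
theorem eight (hH : Bin H) (h2 : (2 : F) = 0) (hh : h ∈ H) (hd : Dj h) (hj : j ∈ H)
    (hc : j * h = h * j) (hj2 : j * j = 1) : U h ≤ W j := by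
  intro u hu
  obtain ⟨y, hy, hy2⟩ := hd.preimage le_rfl (sub_mem (U_comm hc hu) hu)
  have h1 : j y - y ∈ W h := by
    rw [mem_W, map_sub, ← mul_app h j, ← hc, mul_app, eq_add_of_sub_eq hy2, map_add,
      mem_W.mp (U_le_W h2 hj2 (sub_mem_U j u))]
    abel
  have h3 := hd _ h1 (sub_mem (U_comm hc hy) hy)
  rw [mem_W, ← sub_eq_zero]
  exact hH.nine hj (mem_W.mpr (sub_eq_zero.mp h3)) (sub_mem_U j u) ⟨h, hh, by rw [← hy2]; abel⟩

theorem T_of_fix (hg : Pl H m g) (hk : k ∈ H) (hW : W g ≤ W k) (hk1 : k ≠ 1) (hk2 : k * k = 1)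
    (hv : (2 : F) = 0 ∨ W g ≠ W k) :
    T H m k ∧ ∃ h, Pl H m h ∧ W g = W h ∧ h * k * (h * k) = 1 := by
  by_cases hall : ∀ j ∈ fix H (W g), j * j = 1 → k * j = j * k
  · exfalso
    by_cases h2 : (2 : F) = 0
    · have hc : k * g = g * k := by
        by_contra hc
        obtain ⟨j, hj, hj2, hjk⟩ := (c.bin.fix (W g)).exists_noncomm_of (g := g) ⟨hg.mem, le_rfl⟩ hc
        exact hjk (hall j hj hj2)
      exact hk1 (hg.rot.2.eq_of (fun v hv => mem_W.mp (hW hv))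
        fun v hv => mem_W.mp (eight c.bin h2 hg.mem hg.rot.2 hk hc hk2 hv))
    obtain ⟨u, hu, hu0⟩ := exists_mem_U hg.rot.ne_one
    obtain ⟨t, t1, h3, -, h4⟩ := c.exists_T hg hu hu0
    obtain ⟨-, t2, h5, -⟩ := c.of_invert hg t1.mem h3 (c.sq t1) h4
    have c1 := hall t ⟨t1.mem, h3⟩ (c.sq t1)
    have c2 := hall (g * t) ⟨t2.mem, fun v hv => mul_mem_W hv (h3 hv)⟩ h4
    have dk := c.bin.dj_odd h2 hk
    have fin : ∀ v ∈ U g, g v = -v → v = 0 := fun v hv h =>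
      c.sq_fpf hg hv (by rw [h, map_neg, h, neg_neg])
    rcases c.four' h2 t1 hk hk2 c1 with h6 | h6 <;> rcases c.four' h2 t2 hk hk2 c2 with h7 | h7
    · refine hv.resolve_left h2 (W_eq_of_le hW ?_)
      exact Submodule.finrank_mono (h5.le.trans (sup_le h7 h6))
    · refine c.ne_one t2 (eq_one_of_U fun v hv => fin v (h5.ge (Submodule.mem_sup_left hv)) ?_)
      have := dk _ (sub_mem (W_comm c1.symm (h7 hv)) (h7 hv)) (h6 (sub_mem_U t v))
      rw [← neg_of_U h4 hv, mul_app, sub_eq_zero.mp this]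
    · refine c.ne_one t1 (eq_one_of_U fun v hv => fin v (h5.ge (Submodule.mem_sup_right hv)) ?_)
      have := dk _ (sub_mem (W_comm c2.symm (h6 hv)) (h6 hv)) (h7 (sub_mem_U _ v))
      rw [mul_app, neg_of_U (c.sq t1) hv, map_neg, sub_eq_zero] at this
      exact neg_eq_iff_eq_neg.mp this
    · exact hk1 (hg.rot.2.eq_of (fun v hv => mem_W.mp (hW hv))
        fun v hv => mem_W.mp (sup_le h7 h6 (h5.le hv)))
  · push Not at hall
    obtain ⟨j, hj, hj2, hjk⟩ := hall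
    obtain ⟨s', h1, h3⟩ := c.bin.rot_pair hk hj.1 hk2 hj2 hjk
    have h4 : s' ∈ Binary.fix H (W g) ∧ s' * s' = 1 := by
      rcases h1 with rfl | rfl
      exacts [⟨hj, hj2⟩, ⟨mul_mem (mul_mem hj ⟨hk, hW⟩) (inv_mem hj), conj_sq j hk2⟩]
    obtain ⟨hr, hW'⟩ := c.pl_of hg (mul_mem hk h4.1.1) (fun v hv => mul_mem_W (hW hv) (h4.1.2 hv)) h3
    have h5 : k * s' * k * (k * s' * k) = 1 := by
      have := conj_sq k h4.2; rwa [inv_eq hk2] at this
    exact ⟨(c.of_invert hr hk (hW' ▸ hW) hk2 h5).1, _, hr, hW', h5⟩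

end Ctx

end Cfsg.Agent.H2.Binary
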