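import Mathlib
import Cfsg.Agent.H2.Bin2

set_option autoImplicit false

/-! Binary affine groups, III: structure of planes. -/

namespace Cfsg.Agent.H2.Binary

open Module

theorem ncard_le_of_cover {α β : Type*} [Finite α] [Finite β] (S : Set α) (Z : Set β)
    (f : α → Set β) (n : ℕ) (hf : ∀ a ∈ S, (f a).ncard ≤ n) (hZ : ∀ z ∈ Z, ∃ a ∈ S, z ∈ f a) :
    Z.ncard ≤ S.ncard * n := by
  classical
  rw [Set.ncard_eq_toFinset_card S, Set.ncard_eq_toFinset_card Z]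
  refine le_trans (Finset.card_le_card fun z hz => ?_) (Finset.card_biUnion_le_card_mul _
    (fun a => (Set.toFinite (f a)).toFinset) n fun a ha => ?_)
  · simpa using hZ z (by simpa using hz)
  · rw [← Set.ncard_eq_toFinset_card]; exact hf a (by simpa using ha)

theorem le_ncard_of_disj {α β : Type*} [Finite α] [Finite β] (S : Set α) (Z : Set β)
    (f : α → Set β) (n : ℕ) (hf : ∀ a ∈ S, n ≤ (f a).ncard) (hZ : ∀ a ∈ S, f a ⊆ Z)
    (hd : ∀ a ∈ S, ∀ b ∈ S, ∀ z ∈ f a, z ∈ f b → a = b) : S.ncard * n ≤ Z.ncard := by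
  classical
  rw [Set.ncard_eq_toFinset_card S, Set.ncard_eq_toFinset_card Z]
  refine le_trans ?_ (Finset.card_le_card (s := (Set.toFinite S).toFinset.biUnion
    (fun a => (Set.toFinite (f a)).toFinset)) fun z hz => ?_)
  · rw [Finset.card_biUnion]
    · refine le_trans (by simp) (Finset.card_nsmul_le_sum _ _ n fun a ha => ?_)
      rw [← Set.ncard_eq_toFinset_card]; exact hf a (by simpa using ha)
    · intro a ha b hb hab
      rw [Function.onFun, Finset.disjoint_left]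
      intro z hz hz'
      exact hab (hd a (by simpa using ha) b (by simpa using hb) z (by simpa using hz)
        (by simpa using hz'))
  · obtain ⟨a, ha, hz⟩ := Finset.mem_biUnion.mp hz
    simpa using hZ a (by simpa using ha) (by simpa using hz)

variable {F V : Type*} [Field F] [AddCommGroup V] [Module F V] [FiniteDimensional F V]
variable {g h k s t x j r : V ≃ₗ[F] V} {u v w : V} {H : Subgroup (V ≃ₗ[F] V)} {m : ℕ}

theorem ncard_nonzero [Finite V] (X : Submodule F V) :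
    ((X : Set V) \ {0}).ncard = Nat.card F ^ finrank F X - 1 := by
  rw [Set.ncard_diff_singleton_of_mem (zero_mem X), ← Module.natCard_eq_pow_finrank]; rfl

omit [FiniteDimensional F V] in
theorem Rot.conj (hg : Rot g) (x : V ≃ₗ[F] V) : Rot (x * g * x⁻¹) := by
  refine ⟨fun h => hg.1 ?_, fun v h1 h2 => ?_⟩
  · have := conj_sq x⁻¹ h
    rwa [show x⁻¹ * (x * g * x⁻¹) * x⁻¹⁻¹ = g by group] at this
  · have h3 := W_conj x⁻¹ h1
    rw [show x⁻¹ * (x * g * x⁻¹) * x⁻¹⁻¹ = g by group] at h3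
    rw [← app_inv x v, hg.2 _ h3 (U_conj' x h2), map_zero]

omit [FiniteDimensional F V] in
theorem comm_of_sq (hs : s * s = 1) (ht : t * t = 1) (h : s * t * (s * t) = 1) : s * t = t * s := by
  by_contra hc; exact sq_ne_of_noncomm hs ht hc h

namespace Ctx
variable (c : Ctx H m)
include c

theorem eq_of_U_odd (h2 : (2 : F) ≠ 0) (hs : T H m s) (ht : T H m t) (hv : v ∈ U s) (hv' : v ∈ U t)
    (hv0 : v ≠ 0) : s = t := by
  have hc := c.comm_of hs ht hv (Or.inr hv') hv0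
  have h1 := c.four h2 ht hs.mem (c.sq hs) hc hv hv' hv0
  have h3 := c.four h2 hs ht.mem (c.sq ht) hc.symm hv' hv hv0
  have d := c.bin.dj_odd h2 ht.mem
  refine d.eq_of (fun w hw => ?_) fun y hy => by rw [neg_of_U (c.sq ht) hy, neg_of_U (c.sq hs) (h1 hy)]
  rw [mem_W.mp hw]
  exact sub_eq_zero.mp (d _ (sub_mem (W_comm hc hw) hw) (h3 (sub_mem_U s w)))

theorem U_le_W_odd (h2 : (2 : F) ≠ 0) (hs : T H m s) (ht : T H m t) (hc : s * t = t * s)
    (hne : s ≠ t) : U t ≤ W s := by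
  refine (c.four' h2 ht hs.mem (c.sq hs) hc).resolve_left fun h => hne ?_
  obtain ⟨v, hv, hv0⟩ := exists_mem_U (c.ne_one ht)
  exact c.eq_of_U_odd h2 hs ht (h hv) hv hv0

theorem U_le_W_of (hs : T H m s) (ht : T H m t) (hc : s * t = t * s) (hne : s ≠ t) : U t ≤ W s := by
  by_cases h2 : (2 : F) = 0
  · exact c.bin.quad h2 hs.mem ht.mem (c.sq ht) hc
  · exact c.U_le_W_odd h2 hs ht hc hne

theorem W_eq_sup (h2 : (2 : F) = 0) (hg : Pl H m g) (hk : T H m k) (hW : W g ≤ W k) :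
    W k = W g ⊔ U k := by
  obtain ⟨-, h, h1, h3, h4⟩ := c.T_of_fix hg hk.mem hW (c.ne_one hk) (c.sq hk) (Or.inl h2)
  have h5 := (c.of_invert h1 hk.mem (h3 ▸ hW) (c.sq hk) h4).2.2.1
  symm
  refine Submodule.eq_of_le_of_finrank_le (sup_le hW (U_le_W h2 (c.sq hk))) ?_
  rw [finrank_sup_of fun v hv hv' => h1.rot.2 v (h3 ▸ hv) (h5.ge (Submodule.mem_sup_right hv'))]
  have := rk_add g; have := rk_add k; have := hg.rk; have := hk.rk
  unfold rk at *; omega

theorem axis_eq (h2 : (2 : F) = 0) (hg : Pl H m g) (hk : T H m k) (hW : W g ≤ W k) (ht : T H m t)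
    (hW' : W g ≤ W t) (hc : k * t = t * k) : W t = W k :=
  W_eq_of_le ((c.W_eq_sup h2 hg ht hW').le.trans (sup_le hW
    (c.bin.quad h2 hk.mem ht.mem (c.sq ht) hc))) (by rw [hk.rk, ht.rk])

theorem orbit_axis (h2 : (2 : F) = 0) (hg : Pl H m g) (ht : T H m t) (hW : W g ≤ W t) (hx : x ∈ H)
    (hx' : W g ≤ W x) (hv : v ∉ W g) (h1 : v ∈ W t) (h3 : x v ∈ W t) : x v = v := by
  obtain ⟨j, hj, h4, h5⟩ := (c.bin.fix (W g)).swap (h := x) ⟨hx, hx'⟩ v
  have h6 : j * j = 1 := c.bin.sq_eq_one h2 hj.1 (c.sq_of_fix hg (mul_mem hj.1 hj.1)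
    (fun v hv => mul_mem_W (hj.2 hv) (hj.2 hv)) hv (by rw [mem_W, mul_app, h4, h5]))
  by_contra hne
  have h7 := (c.T_of_fix hg hj.1 hj.2 (fun h => hne (by rw [← h4, h]; rfl)) h6 (Or.inl h2)).1
  have h8 := c.comm_of h7 ht (sub_mem_U j v) (Or.inl (by rw [h4]; exact sub_mem h3 h1))
    (by rw [h4]; exact sub_ne_zero.mpr hne)
  rw [c.axis_eq h2 hg h7 hj.2 ht hW h8, mem_W, h4] at h1
  exact hne h1

variable [Finite V]

theorem eq_of_fix (hg : Pl H m g) (hk : T H m k) (hW : W g ≤ W k) (ht : T H m t)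
    (hW' : W g ≤ W t) (hv : v ∉ W g) (h1 : v ∈ W k) (h3 : v ∈ W t) : k = t := by
  have hc : k * t = t * k := comm_of_sq (c.sq hk) (c.sq ht) (c.sq_of_fix hg (mul_mem hk.mem ht.mem)
    (fun v hv => mul_mem_W (hW hv) (hW' hv)) hv (mul_mem_W h1 h3))
  by_cases h2 : (2 : F) = 0
  swap
  · by_contra hne
    have h4 := c.U_le_W_odd h2 hk ht hc hne
    have h5 : W k ⊔ W t = ⊤ := eq_top_iff.mpr fun v _ => by
      obtain ⟨w, hw, y, hy, rfl⟩ := (c.bin.dj_odd h2 ht.mem).decomp v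
      exact add_mem (Submodule.mem_sup_right hw) (Submodule.mem_sup_left (h4 hy))
    have h6 : W g = W k ⊓ W t := Submodule.eq_of_le_of_finrank_le (le_inf hW hW') (by
      have := Submodule.finrank_sup_add_finrank_inf_eq (W k) (W t)
      rw [h5, finrank_top] at this
      have := rk_add g; have := rk_add k; have := rk_add t; have := hg.rk; have := hk.rk
      have := ht.rk
      omega)
    exact hv (h6 ▸ ⟨h1, h3⟩)
  have : Finite (V ≃ₗ[F] V) := DFunLike.finite _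
  have hA := c.axis_eq h2 hg hk hW ht hW' hc
  obtain ⟨u, hu⟩ : ∃ u, u ∉ W k := by
    by_contra h; push Not at h; exact c.ne_one hk (eq_one_of_W h)
  have hu' : u ∉ W g := fun h => hu (hW h)
  let S := {t | T H m t ∧ W g ≤ W t ∧ u ∉ W t}
  have hS : ∀ t ∈ S, t u ∉ W g := fun t ht h => ht.2.2 (by
    have := mem_W.mp (ht.2.1 h)
    rw [app_app (c.sq ht.1)] at this
    exact mem_W.mpr this.symm)
  choose! κ k1 k2 k3 k4 using fun v (hv : v ∉ W g) => c.exists_T' hg hv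
  have h5 : S.ncard ≤ (W '' S).ncard := by
    refine Set.ncard_le_ncard_of_injOn (fun t => W (κ (t u))) (fun t ht => ?_) ?_
    · refine ⟨_, ⟨k1 _ (hS t ht), k2 _ (hS t ht), fun h => ht.2.2 (mem_W.mpr ?_)⟩, rfl⟩
      exact c.orbit_axis h2 hg (k1 _ (hS t ht)) (k2 _ (hS t ht)) ht.1.mem ht.2.1 hu' h
        (k3 _ (hS t ht))
    · intro a ha b hb hab
      have hab' : W (κ (a u)) = W (κ (b u)) := hab
      have e : b u = a u := by
        have := c.orbit_axis h2 hg (k1 _ (hS a ha)) (k2 _ (hS a ha)) (mul_mem hb.1.mem ha.1.mem)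
          (fun v hv => mul_mem_W (hb.2.1 hv) (ha.2.1 hv)) (hS a ha) (k3 _ (hS a ha))
          (by rw [mul_app, app_app (c.sq ha.1), hab']; exact k3 _ (hS b hb))
        rwa [mul_app, app_app (c.sq ha.1)] at this
      have e2 := c.comm_of ha.1 hb.1 (sub_mem_U a u) (Or.inr (e ▸ sub_mem_U b u))
        (fun h => ha.2.2 (mem_W.mpr (sub_eq_zero.mp h)))
      have e3 := c.axis_eq h2 hg ha.1 ha.2.1 hb.1 hb.2.1 e2
      by_contra hne
      have e4 := (c.maxW ha.1 (mul_mem ha.1.mem hb.1.mem) (fun h => hne (by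
        rw [eq_inv_of_mul_eq_one_left h, inv_eq (c.sq hb.1)]))
        (fun v hv => mul_mem_W hv (e3 ▸ hv))).1
      exact ha.2.2 (by rw [e4, mem_W, mul_app, e, app_app (c.sq ha.1)])
  exact Set.injOn_of_ncard_image_eq (le_antisymm (Set.ncard_image_le) h5) (Set.toFinite S)
    ⟨hk, hW, hu⟩ ⟨ht, hW', hA ▸ hu⟩ hA.symm

omit [Finite V] in
theorem exists_notMem (hg : Pl H m g) (ht : T H m t) (hW : W g ≤ W t) : ∃ v ∈ W t, v ∉ W g := by
  by_contra h
  push Not at h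
  have := rk_le_of_le (show W t ≤ W g from h)
  have := hg.rk; have := ht.rk; have := c.pos
  omega

theorem inverts (hg : Pl H m g) (ht : T H m t) (hW : W g ≤ W t) : g * t * (g * t) = 1 := by
  obtain ⟨v, hv, hv'⟩ := c.exists_notMem hg ht hW
  obtain ⟨k, h1, h2, h3, h4⟩ := c.exists_T' hg hv'
  rwa [← c.eq_of_fix hg h1 h2 ht hW hv' h3 hv]

theorem U_le (hg : Pl H m g) (ht : T H m t) (hW : W g ≤ W t) : U t ≤ U g :=
  le_sup_right.trans (c.of_invert hg ht.mem hW (c.sq ht) (c.inverts hg ht hW)).2.2.1.ge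

theorem U_pl_le (hg : Pl H m g) (hh : Pl H m h) (hW : W g = W h) : U h ≤ U g := by
  obtain ⟨u, hu, hu0⟩ := exists_mem_U hh.rot.ne_one
  obtain ⟨t, t1, h3, -, h4⟩ := c.exists_T hh hu hu0
  obtain ⟨-, t2, h5, -⟩ := c.of_invert hh t1.mem h3 (c.sq t1) h4
  exact h5.le.trans (sup_le (c.U_le hg t2 fun v hv => mul_mem_W (hW ▸ hv) (h3 (hW ▸ hv)))
    (c.U_le hg t1 (hW ▸ h3)))

theorem apply_mem (hg : Pl H m g) (hx : x ∈ H) (hW : W g ≤ W x) (hv : v ∈ U g) : x v ∈ U g := by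
  obtain ⟨h1, h2⟩ := c.pl_of hg (mul_mem (mul_mem hx hg.mem) (inv_mem hx)) (fun v hv =>
    mul_mem_W (mul_mem_W (hW hv) hv) (by rw [W_inv]; exact hW hv)) (hg.rot.conj x)
  exact c.U_pl_le hg h1 h2 (U_conj x hv)

theorem U_eq_sup (hg : Pl H m g) (hs : T H m s) (ht : T H m t) (h1 : U s ≤ U g) (h2 : U t ≤ U g)
    (hd : ∀ v ∈ U s, v ∈ U t → v = 0) : U g = U s ⊔ U t := by
  symm
  refine Submodule.eq_of_le_of_finrank_le (sup_le h1 h2) ?_
  rw [finrank_sup_of hd]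
  have := hg.rk; have := hs.rk; have := ht.rk
  unfold rk at *; omega

theorem exists_neg (h2 : (2 : F) ≠ 0) (hg : Pl H m g) :
    ∃ z ∈ H, W g ≤ W z ∧ ∀ v ∈ U g, z v = -v := by
  obtain ⟨u, hu, hu0⟩ := exists_mem_U hg.rot.ne_one
  obtain ⟨t, t1, h3, -, -⟩ := c.exists_T hg hu hu0
  obtain ⟨v, hv, hv0⟩ := exists_mem_U (c.ne_one t1)
  obtain ⟨k, k1, h4, h5, -⟩ := c.exists_T hg (c.U_le hg t1 h3 hv) hv0
  have hc := c.comm_of t1 k1 hv (Or.inl h5) hv0
  have hne : t ≠ k := fun h => hv0 (c.bin.dj_odd h2 t1.mem v (h ▸ h5) hv)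
  refine ⟨t * k, mul_mem t1.mem k1.mem, fun v hv => mul_mem_W (h3 hv) (h4 hv), fun y hy => ?_⟩
  rw [c.U_eq_sup hg t1 k1 (c.U_le hg t1 h3) (c.U_le hg k1 h4) fun v h h' => by
    by_contra h0; exact hne (c.eq_of_U_odd h2 t1 k1 h h' h0)] at hy
  obtain ⟨a, ha, b, hb, rfl⟩ := Submodule.mem_sup.mp hy
  rw [mul_app, map_add, mem_W.mp (c.U_le_W_odd h2 k1 t1 hc.symm hne.symm ha), neg_of_U (c.sq k1) hb,
    map_add, neg_of_U (c.sq t1) ha, map_neg, mem_W.mp (c.U_le_W_odd h2 t1 k1 hc hne hb), neg_add]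

theorem exists_U (hg : Pl H m g) (hu : u ∈ U g) (hu0 : u ≠ 0) :
    ∃ t, T H m t ∧ W g ≤ W t ∧ u ∈ U t := by
  obtain ⟨k, k1, h1, h3, -⟩ := c.exists_T hg hu hu0
  by_cases h2 : (2 : F) = 0
  · refine ⟨k, k1, h1, ?_⟩
    rw [c.W_eq_sup h2 hg k1 h1] at h3
    obtain ⟨a, ha, b, hb, rfl⟩ := Submodule.mem_sup.mp h3
    rw [hg.rot.2 a ha ((add_mem_cancel_right (c.U_le hg k1 h1 hb)).mp hu), zero_add]
    exact hb
  obtain ⟨z, hz, h4, h5⟩ := c.exists_neg h2 hg
  have h6 : (z * k) u = -u := by rw [mul_app, mem_W.mp h3, h5 u hu]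
  have h7 : W g ≤ W (z * k) := fun v hv => mul_mem_W (h4 hv) (h1 hv)
  obtain ⟨y, hy, hy0⟩ := exists_mem_U (c.ne_one k1)
  have hy1 := c.U_le hg k1 h1 hy
  have hy2 : y ∉ W g := fun h => hy0 (hg.rot.2 y h hy1)
  have hy3 : y ∈ W (z * k) := by
    rw [mem_W, mul_app, neg_of_U (c.sq k1) hy, map_neg, h5 y hy1, neg_neg]
  exact ⟨z * k, (c.T_of_fix hg (mul_mem hz k1.mem) h7 (fun h => hu0 (half h2 (by
    rw [h] at h6; exact add_eq_zero_iff_eq_neg.mpr h6)))
    (c.sq_of_fix hg (mul_mem hz k1.mem) h7 hy2 hy3) (Or.inr fun h => hy2 (h ▸ hy3))).1, h7,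
    mem_U_of_neg h2 h6⟩

omit [Finite V] in
theorem ten (h2 : (2 : F) = 0) (ht : T H m t) (hj : j ∈ H) (hj2 : j * j = 1)
    (hc : j * t ≠ t * j) : T H m j ∨ 2 * m ≤ rk j := by
  have ht2 := c.sq ht
  have e : j * t * j⁻¹ * t = j * t * (j * t) := by rw [inv_eq hj2]; group
  obtain ⟨-, hr⟩ := (c.bin.rot (mul_mem hj ht.mem) (sq_ne_of_noncomm hj2 ht2 hc)).resolve_left
    fun h => h.1 h2
  have hg := (c.plane_aux (ht.conj hj) ht (e ▸ hr)).1
  have hi : j * t * j⁻¹ * t * j * (j * t * j⁻¹ * t * j) = 1 := by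
    have := conj_sq (j * t) hj2
    rw [mul_inv_rev, inv_eq ht2, inv_eq hj2] at this
    rw [inv_eq hj2]
    simpa only [mul_assoc] using this
  set g := j * t * j⁻¹ * t
  obtain ⟨u, hu, hu1, hu0⟩ : ∃ u ∈ U g, u ∈ W j ∧ u ≠ 0 := by
    obtain ⟨y, hy, hy0⟩ := exists_mem_U hg.rot.ne_one
    by_cases h : j y - y = 0
    · exact ⟨y, hy, mem_W.mpr (sub_eq_zero.mp h), hy0⟩
    · exact ⟨_, sub_mem (U_invert hj2 hi hy) hy, U_le_W h2 hj2 (sub_mem_U j y), h⟩
  obtain ⟨k, k1, h1, h3, h4⟩ := c.exists_T hg hu hu0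
  have hk2 := c.sq k1
  have hz : j * k ∈ H := mul_mem hj k1.mem
  have h5 : j * k * g = g * (j * k) := by
    calc j * k * g = j * (k * g * k⁻¹) * j⁻¹ * (j * k) := by group
      _ = (j * g * j⁻¹)⁻¹ * (j * k) := by rw [conj_eq_inv hk2 h4]; group
      _ = _ := by rw [conj_eq_inv hj2 hi, inv_inv]
  have h6 : ∀ w ∈ W g, (j * k) w = j w := fun w hw => by rw [mul_app, mem_W.mp (h1 hw)]
  have h7 : j * k * (j * k) = 1 := c.bin.sq_eq_one h2 hz (c.sq_of_fix hg (mul_mem hz hz)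
    (fun w hw => by rw [mem_W, mul_app, h6 w hw, h6 _ (W_invert hj2 hi hw), app_app hj2])
    (fun h => hu0 (hg.rot.2 u h hu)) (mul_mem_W (mul_mem_W hu1 h3) (mul_mem_W hu1 h3)))
  have h8 := eight c.bin h2 hg.mem hg.rot.2 hz h5 h7
  by_cases h9 : j * k = 1
  · left; rwa [eq_inv_of_mul_eq_one_left h9, inv_eq hk2]
  right
  have h10 : U k ≤ U j ⊓ U g := fun y' hy' => by
    obtain ⟨y, hy, rfl⟩ := hg.rot.2.preimage h1 hy'
    have e1 := U_invert hk2 h4 hy
    refine ⟨?_, sub_mem e1 hy⟩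
    rw [← mem_W.mp (h8 e1), mul_app, app_app hk2]; exact sub_mem_U j y
  have h11 : U (j * k) ≤ U j ⊓ W g := fun y' hy' => by
    obtain ⟨v, rfl⟩ := mem_U.mp hy'
    clear hy'
    obtain ⟨w, hw, y, hy, rfl⟩ := hg.rot.2.decomp v
    rw [map_add, mem_W.mp (h8 hy), h6 w hw, add_sub_add_right_eq_sub]
    exact ⟨sub_mem_U j w, sub_mem (W_invert hj2 hi hw) hw⟩
  have h12 := Submodule.finrank_mono (sup_le (h10.trans inf_le_left) (h11.trans inf_le_left))
  rw [finrank_sup_of fun v hv hv' => hg.rot.2 v (h11 hv').2 (h10 hv).2] at h12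
  have := c.min _ hz h9; have := k1.rk
  unfold rk at *; omega

omit [Finite V] in
theorem eleven (hs : T H m s) (ht : T H m t) (hst : T H m (t * s)) : W s = W t := by
  obtain ⟨σ, h1, h3, h4, h5⟩ := c.bin.glue (W t) (W (t * s)) (W s) (a := 1) (b := 1) (c := t)
    ⟨1, one_mem H, fun _ _ => rfl, fun _ _ => rfl⟩
    ⟨t, ht.mem, fun _ hv => mem_W.mp hv, fun _ _ => rfl⟩
    ⟨t * s, hst.mem, fun _ hv => mem_W.mp hv, fun v hv => by rw [mul_app, mem_W.mp hv]⟩
  by_cases h : σ = 1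
  · exact W_eq_of_le (fun v hv => by rw [mem_W, ← h5 v hv, h]; rfl) (by rw [hs.rk, ht.rk])
  · have h6 := (c.maxW ht h1 h fun v hv => mem_W.mpr (h3 v hv)).1
    have h7 := W_eq_of_le (g := t * s) (h := t) (fun v hv => h6 ▸ mem_W.mpr (h4 v hv))
      (by rw [hst.rk, ht.rk])
    refine (W_eq_of_le (fun v hv => ?_) (by rw [hs.rk, ht.rk])).symm
    have := mem_W.mp (h7 ▸ hv : v ∈ W (t * s))
    rw [mem_W]
    apply t.injective
    rw [← mul_app, this, mem_W.mp hv]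

theorem eq_of_U (hs : T H m s) (ht : T H m t) (hr : T H m r) (hrt : r * t ≠ t * r) (hv : v ∈ U s)
    (hv' : v ∈ U t) (hv0 : v ≠ 0) : s = t := by
  by_cases h2 : (2 : F) = 0
  swap
  · exact c.eq_of_U_odd h2 hs ht hv hv' hv0
  obtain ⟨g, hg, -, -, h3⟩ := c.plane hr ht hrt
  have hW : W g ≤ W t := h3.le.trans inf_le_right
  have hc := c.comm_of hs ht hv (Or.inr hv') hv0
  have hm := mul_mem ht.mem hs.mem
  have h4 : t * s * (t * s) = 1 := by
    rw [mul_assoc, ← mul_assoc s, hc, mul_assoc, c.sq hs, mul_one, c.sq ht]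
  by_contra hne
  have h5 : t * s ≠ 1 := fun h => hne (by rw [eq_inv_of_mul_eq_one_right h, inv_eq (c.sq ht)])
  have h6 : T H m (t * s) := by
    obtain ⟨-, t2, -⟩ := c.of_invert hg ht.mem hW (c.sq ht) (c.inverts hg ht hW)
    by_cases h7 : t * s * (g * t) = g * t * (t * s)
    · have h8 : t * s * g = g * (t * s) := by
        calc t * s * g = t * s * (g * t) * t := by rw [mul_assoc (t * s), mul_assoc g, c.sq ht, mul_one]
          _ = g * (t * t) * (s * t) := by rw [h7]; group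
          _ = _ := by rw [c.sq ht, mul_one, hc]
      have h9 := eight c.bin h2 hg.mem hg.rot.2 hm h8 h4
      have h10 : U t ≤ U s := fun y' hy' => by
        obtain ⟨y, hy, rfl⟩ := hg.rot.2.preimage hW hy'
        have := congrArg t (mem_W.mp (h9 hy))
        rw [mul_app, app_app (c.sq ht)] at this
        rw [← this]
        exact sub_mem_U s y
      exact ⟨hm, le_antisymm (hs.rk ▸ Submodule.finrank_mono
        ((U_mul_le t s).trans (sup_le h10 le_rfl))) (c.min _ hm h5)⟩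
    · refine (c.ten h2 t2 hm h4 h7).resolve_right fun h8 => ?_
      have h9 := Submodule.finrank_mono (U_mul_le t s)
      have h10 := Submodule.finrank_sup_add_finrank_inf_eq (U t) (U s)
      have h11 : finrank F (U t ⊓ U s : Submodule F V) ≠ 0 := fun h => hv0
        ((Submodule.finrank_eq_zero.mp h).le ⟨hv', hv⟩)
      have := hs.rk; have := ht.rk
      unfold rk at *; omega
  have h7 := c.eleven hs ht h6
  obtain ⟨y, hy, hy'⟩ := c.exists_notMem hg ht hW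
  exact hne (c.eq_of_fix hg hs (h7 ▸ hW) ht hW hy' (h7 ▸ hy) hy)

end Ctx

end Cfsg.Agent.H2.Binary
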