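import Mathlib
import Cfsg.Agent.H2.Bin3

set_option autoImplicit false

/-! Binary affine groups, IV: an irreducible binary group is a plane group. -/

namespace Cfsg.Agent.H2.Binary

open Module

variable {F V : Type*} [Field F] [AddCommGroup V] [Module F V] [FiniteDimensional F V]
variable {g h k s t x j r : V ≃ₗ[F] V} {u v w : V} {H : Subgroup (V ≃ₗ[F] V)} {m : ℕ}

/-- irreducibility -/
def Irr (H : Subgroup (V ≃ₗ[F] V)) : Prop :=
  ∀ X : Submodule F V, (∀ g ∈ H, ∀ v ∈ X, g v ∈ X) → X = ⊥ ∨ X = ⊤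

theorem Bin.exists_move (hH : Bin H) (hirr : Irr H) {X : Submodule F V} (h0 : X ≠ ⊥) (h1 : X ≠ ⊤) :
    ∃ j ∈ H, j * j = 1 ∧ ∃ v ∈ X, j v ∉ X := by
  by_contra hno
  push Not at hno
  let K : Subgroup (V ≃ₗ[F] V) :=
    { carrier := {g | (∀ v ∈ X, g v ∈ X) ∧ ∀ v ∈ X, g⁻¹ v ∈ X}
      one_mem' := ⟨fun _ h => h, fun _ h => h⟩
      mul_mem' := fun ha hb => ⟨fun v hv => ha.1 _ (hb.1 v hv), fun v hv => by
        rw [mul_inv_rev]; exact hb.2 _ (ha.2 v hv)⟩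
      inv_mem' := fun ha => ⟨ha.2, by rw [inv_inv]; exact ha.1⟩ }
  rcases hirr X (fun g hg => (hH.le_of_inv K (fun j hj hj2 =>
    ⟨hno j hj hj2, by rw [inv_eq hj2]; exact hno j hj hj2⟩) hg).1) with h | h
  exacts [h0 h, h1 h]

omit [FiniteDimensional F V] in
theorem apply_mem_of_U {Y : Submodule F V} (hx : U x ≤ Y) (hv : v ∈ Y) : x v ∈ Y := by
  rw [← sub_add_cancel (x v) v]; exact add_mem (hx (sub_mem_U x v)) hv

namespace Ctx
variable (c : Ctx H m)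
include c

theorem exists_third (ht : T H m t) (hj : j ∈ H) (hj2 : j * j = 1) (hne : j * t * j⁻¹ ≠ t)
    (hc : j * t * j⁻¹ * t = t * (j * t * j⁻¹)) :
    ∃ τ, T H m τ ∧ τ * t ≠ t * τ ∧ ∀ x ∈ U t, x - j x ∈ U τ := by
  have ht' := ht.conj hj
  have ht2 := c.sq ht
  by_cases h2 : (2 : F) = 0
  · refine absurd ?_ hne
    have e : j * t * (j * t) = j * t * j⁻¹ * t := by rw [inv_eq hj2]; group
    have := c.bin.sq_eq_one h2 (mul_mem hj ht.mem) (by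
      rw [e, mul_assoc, ← mul_assoc t, ← hc, mul_assoc _ t t, ht2, mul_one, c.sq ht'])
    rw [e] at this
    rw [eq_inv_of_mul_eq_one_left this, inv_eq ht2]
  set t' := j * t * j⁻¹ with ht'def
  have l1 := c.U_le_W_odd h2 ht' ht hc hne
  have l2 := c.U_le_W_odd h2 ht ht' hc.symm hne.symm
  have hz := mul_mem ht.mem ht'.mem
  have hz2 : t * t' * (t * t') = 1 := by
    rw [mul_assoc, ← mul_assoc t', hc, mul_assoc, c.sq ht', mul_one, ht2]
  obtain ⟨σ, h1, h3, h4, h5⟩ := c.bin.glue (W j) (W (t * t')) (U j ⊓ U (t * t')) (a := 1) (b := 1)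
    (c := j) ⟨1, one_mem H, fun _ _ => rfl, fun _ _ => rfl⟩
    ⟨j, hj, fun _ hv => mem_W.mp hv, fun _ _ => rfl⟩
    ⟨_, hz, fun _ hv => mem_W.mp hv, fun v hv => by rw [neg_of_U hz2 hv.2, neg_of_U hj2 hv.1]⟩
  have h6 : ∀ x ∈ U t, σ (x - j x) = -(x - j x) := fun x hx => by
    have e : j (x - j x) = -(x - j x) := by rw [map_sub, app_app hj2, neg_sub]
    rw [h5 _ ⟨mem_U_of_neg h2 e, mem_U_of_neg h2 ?_⟩, e]
    rw [mul_app, map_sub, mem_W.mp (l1 hx), neg_of_U (c.sq ht') (U_conj j hx), map_sub, map_neg,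
      neg_of_U ht2 hx, mem_W.mp (l2 (U_conj j hx))]
    abel
  obtain ⟨x, hx, hx0⟩ := exists_mem_U (c.ne_one ht)
  have h7 : x - j x ≠ 0 := fun h => hne (c.eq_of_U_odd h2 ht' ht
    (by rw [sub_eq_zero.mp h]; exact U_conj j hx) hx hx0)
  have h8 : ∀ x, x + j x ∈ W σ := fun x => mem_W.mpr (h3 _ (by
    rw [mem_W, map_add, app_app hj2, add_comm]))
  refine ⟨σ, ⟨h1, le_antisymm ?_ (c.min σ h1 fun h => h7 (half h2 ?_))⟩, fun hcc => h7 ?_,
    fun x hx => mem_U_of_neg h2 (h6 x hx)⟩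
  · have h9 : W σ ⊔ U t = ⊤ := eq_top_iff.mpr fun v _ => by
      obtain ⟨w, hw, a, ha, rfl⟩ := (c.bin.dj_odd h2 ht.mem).decomp v
      obtain ⟨w', hw', b, hb, rfl⟩ := (c.bin.dj_odd h2 ht'.mem).decomp w
      have e1 : w' ∈ W σ := mem_W.mpr (h4 _ (mul_mem_W ((add_mem_cancel_right (l2 hb)).mp hw) hw'))
      have e2 := h8 (j⁻¹ b)
      rw [app_inv] at e2
      rw [show w' + b + a = (w' + (j⁻¹ b + b)) + (a - j⁻¹ b) by abel]
      exact Submodule.add_mem_sup (add_mem e1 e2) (sub_mem ha (U_conj' j hb))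
    have := Submodule.finrank_add_le_finrank_add_finrank (W σ) (U t)
    rw [h9, finrank_top] at this
    have := rk_add σ; have := ht.rk
    unfold rk at *; omega
  · have := h6 x hx
    rw [h] at this
    exact add_eq_zero_iff_eq_neg.mpr this
  · have e : t (x - j x) = -(x + j x) := by
      rw [map_sub, neg_of_U ht2 hx, mem_W.mp (l2 (U_conj j hx))]; abel
    have e2 : σ (t (x - j x)) = -t (x - j x) := by rw [← mul_app, hcc, mul_app, h6 x hx, map_neg]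
    rw [mem_W.mp (e ▸ neg_mem (h8 x))] at e2
    exact t.injective ((half h2 (add_eq_zero_iff_eq_neg.mpr e2)).trans (map_zero t).symm)

theorem move (hk : T H m k) {X : Submodule F V} (hX : U k ≤ X) (hj : j ∈ H) (hj2 : j * j = 1)
    (hv : v ∈ U k) (hv' : j v ∉ X) : ∃ r, T H m r ∧ r * k ≠ k * r ∧ ¬ U r ≤ X := by
  by_cases hc : j * k * j⁻¹ * k = k * (j * k * j⁻¹)
  · obtain ⟨τ, h1, h2, h3⟩ := c.exists_third hk hj hj2 (fun h => hv' (hX (h ▸ U_conj j hv))) hc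
    exact ⟨τ, h1, h2, fun h => hv' (by simpa using sub_mem (hX hv) (h (h3 v hv)))⟩
  · exact ⟨_, hk.conj hj, hc, fun h => hv' (h (U_conj j hv))⟩

theorem exists_partner (hirr : Irr H) (hm : m < finrank F V) (ht : T H m t) :
    ∃ r, T H m r ∧ r * t ≠ t * r := by
  obtain ⟨j, hj, hj2, v, hv, hv'⟩ := c.bin.exists_move hirr (X := U t) (fun h => by
    obtain ⟨v, hv, hv0⟩ := exists_mem_U (c.ne_one ht)
    exact hv0 (h.le hv)) (fun h => by
    have := ht.rk; rw [rk, h, finrank_top] at this; omega)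
  obtain ⟨r, h1, h2, -⟩ := c.move ht le_rfl hj hj2 hv hv'
  exact ⟨r, h1, h2⟩

variable [Finite V]

theorem exists_outside (hirr : Irr H) (hg : Pl H m g) (hm : 2 * m < finrank F V) :
    ∃ k r, T H m k ∧ W g ≤ W k ∧ T H m r ∧ r * k ≠ k * r ∧ ¬ U r ≤ U g := by
  obtain ⟨u, hu, hu0⟩ := exists_mem_U hg.rot.ne_one
  obtain ⟨j, hj, hj2, v, hv, hv'⟩ := c.bin.exists_move hirr (X := U g) (fun h => hu0 (h.le hu))
    (fun h => by have := hg.rk; rw [rk, h, finrank_top] at this; omega)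
  obtain ⟨k, k1, k2, k3⟩ := c.exists_U hg hv (fun h => hv' (by rw [h, map_zero]; exact zero_mem _))
  exact ⟨k, c.move k1 (c.U_le hg k1 k2) hj hj2 k3 hv' |>.choose, k1, k2,
    (c.move k1 (c.U_le hg k1 k2) hj hj2 k3 hv').choose_spec⟩

theorem orbit_T (hg : Pl H m g) (hh : h ∈ H) (hW : W g ≤ W h) (hu : u ∈ U g) :
    ∃ t, T H m t ∧ W g ≤ W t ∧ t u = h u := by
  by_cases hu0 : u = 0
  · obtain ⟨v, hv, hv0⟩ := exists_mem_U hg.rot.ne_one
    obtain ⟨t, h1, h2, -⟩ := c.exists_T hg hv hv0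
    exact ⟨t, h1, h2, by rw [hu0, map_zero, map_zero]⟩
  by_cases h1 : h u = u
  · obtain ⟨t, h2, h3, h4, -⟩ := c.exists_T hg hu hu0
    exact ⟨t, h2, h3, by rw [h1, mem_W.mp h4]⟩
  by_cases h2 : u + h u = 0
  · obtain ⟨t, h3, h4, h5⟩ := c.exists_U hg hu hu0
    exact ⟨t, h3, h4, by rw [neg_of_U (c.sq h3) h5, eq_neg_of_add_eq_zero_right h2]⟩
  obtain ⟨j, hj, h3, h4⟩ := (c.bin.fix (W g)).swap (h := h) ⟨hh, hW⟩ u
  have h5 : u + h u ∉ W g := fun h5 => h2 (hg.rot.2 _ h5 (add_mem hu (c.apply_mem hg hh hW hu)))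
  have h6 : u + h u ∈ W j := by rw [mem_W, map_add, h3, h4, add_comm]
  exact ⟨j, (c.T_of_fix hg hj.1 hj.2 (fun h => h1 (by rw [← h3, h]; rfl))
    (c.sq_of_fix hg hj.1 hj.2 h5 h6) (Or.inr fun h => h5 (h ▸ h6))).1, hj.2, h3⟩

end Ctx

/-- the configuration of a plane and a reflection outside it -/
structure Big (H : Subgroup (V ≃ₗ[F] V)) (m : ℕ) (g k r : V ≃ₗ[F] V) : Prop where
  c : Ctx H m
  pl : Pl H m g
  hk : T H m k
  hW : W g ≤ W k
  hr : T H m r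
  nc : r * k ≠ k * r
  out : ¬ U r ≤ U g
  hD : ∀ {s t v}, T H m s → T H m t → v ∈ U s → v ∈ U t → v ≠ 0 → s = t

/-- reflections of the three-dimensional space -/
structure TY (H : Subgroup (V ≃ₗ[F] V)) (m : ℕ) (g r ρ : V ≃ₗ[F] V) : Prop where
  t : T H m ρ
  w : W g ⊓ W r ≤ W ρ
  u : U ρ ≤ U g ⊔ U r

namespace Big
variable [Finite V] (b : Big H m g k r)
include b

theorem disj (hv : v ∈ U g) (hv' : v ∈ U r) : v = 0 := by
  by_contra h0
  obtain ⟨t, h1, h2, h3⟩ := b.c.exists_U b.pl hv h0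
  exact b.out (b.hD h1 b.hr h3 hv' h0 ▸ b.c.U_le b.pl h1 h2)

theorem finrank_Y : finrank F (U g ⊔ U r : Submodule F V) = 3 * m := by
  rw [finrank_sup_of fun v => b.disj]
  have := b.pl.rk; have := b.hr.rk
  unfold rk at *; omega

theorem ty_of (ht : T H m t) (hW : W g ≤ W t) : TY H m g r t :=
  ⟨ht, inf_le_left.trans hW, (b.c.U_le b.pl ht hW).trans le_sup_left⟩

omit [Finite V] in
theorem ty_r : TY H m g r r := ⟨b.hr, inf_le_right, le_sup_right⟩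

omit [Finite V] in
theorem refl_of {ρ : V ≃ₗ[F] V} (hx : TY H m g r x) (hρ : TY H m g r ρ) (hv : x v ∈ U ρ) :
    ∃ σ, TY H m g r σ ∧ v ∈ U σ := by
  refine ⟨x * ρ * x⁻¹, ⟨hρ.t.conj hx.t.mem, fun v hv => mul_mem_W (mul_mem_W (hx.w hv) (hρ.w hv))
    (by rw [W_inv]; exact hx.w hv), fun y hy => ?_⟩, ?_⟩
  · rw [← app_inv x y]; exact apply_mem_of_U hx.u (hρ.u (U_conj' x hy))
  · rw [← app_app (b.c.sq hx.t) v]; exact U_conj x hv

theorem nonrefl (hv : v ∈ U g ⊔ U r) (hno : ¬ ∃ σ, TY H m g r σ ∧ v ∈ U σ) :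
    ∃ k₀, T H m k₀ ∧ W g ≤ W k₀ ∧ r * k₀ = k₀ * r ∧ ∃ x ∈ U k₀, ∃ a ∈ U r, v = x + a := by
  obtain ⟨x, hx, a, ha, rfl⟩ := Submodule.mem_sup.mp hv
  have hx0 : x ≠ 0 := fun h => hno ⟨r, b.ty_r, by rwa [h, zero_add]⟩
  obtain ⟨t, h1, h2, h3⟩ := b.c.exists_U b.pl hx hx0
  refine ⟨t, h1, h2, ?_, x, h3, a, ha, rfl⟩
  by_contra hc
  obtain ⟨g', h4, -, h5, h6⟩ := b.c.plane b.hr h1 hc
  obtain ⟨ρ, h7, h8, h9⟩ := b.c.exists_U h4 (u := x + a)
    (h5 ▸ add_mem (Submodule.mem_sup_right h3) (Submodule.mem_sup_left ha))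
    (fun h => hno ⟨r, b.ty_r, h ▸ zero_mem _⟩)
  exact hno ⟨ρ, ⟨h7, fun v hv => h8 (h6 ▸ ⟨hv.2, h2 hv.1⟩), (b.c.U_le h4 h7 h8).trans
    (h5.le.trans (sup_le le_sup_right (b.ty_of h1 h2).u))⟩, h9⟩

theorem U_le_W_r (ht : T H m t) (hW : W g ≤ W t) (hc : r * t = t * r) : U t ≤ W r :=
  b.c.U_le_W_of b.hr ht hc fun h => b.out (h ▸ b.c.U_le b.pl ht hW)

theorem comm_unique (hs : T H m s) (hW : W g ≤ W s) (hc : r * s = s * r) (ht : T H m t)
    (hW' : W g ≤ W t) (hc' : r * t = t * r) : s = t := by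
  by_contra hne
  have h1 := b.c.U_eq_sup b.pl hs ht (b.c.U_le b.pl hs hW) (b.c.U_le b.pl ht hW') fun v h h' => by
    by_contra h0; exact hne (b.hD hs ht h h' h0)
  obtain ⟨v, hv, hv0⟩ := exists_mem_U (b.c.ne_one b.hk)
  exact b.nc (b.c.comm_of b.hk b.hr hv (Or.inl (sup_le (b.U_le_W_r hs hW hc) (b.U_le_W_r ht hW' hc')
    (h1.le (b.c.U_le b.pl b.hk b.hW hv)))) hv0).symm

theorem mem_W_g (hv : v ∈ U g ⊔ U r) (hno : ¬ ∃ σ, TY H m g r σ ∧ v ∈ U σ) : v ∈ W g := by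
  obtain ⟨k₀, h1, h2, h3, x, hx, a, ha, hv'⟩ := b.nonrefl hv hno
  have key : ∀ t, T H m t → W g ≤ W t → t ≠ k₀ → v ∈ W t := by
    intro t ht hW hne
    obtain ⟨k₁, h4, h5, h6, x', hx', a', ha', h7⟩ := b.nonrefl
      (apply_mem_of_U (b.ty_of ht hW).u hv) fun ⟨σ, h, h'⟩ => hno (b.refl_of (b.ty_of ht hW) h h')
    rw [b.comm_unique h4 h5 h6 h1 h2 h3] at hx'
    have h8 := sub_mem_U t v
    have e : t v - v = (x' - x) + (a' - a) := by rw [h7, hv']; abel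
    have h9 : a' - a = 0 := b.disj ((add_mem_cancel_left (b.c.U_le b.pl h1 h2 (sub_mem hx' hx))).mp
      (e ▸ b.c.U_le b.pl ht hW h8)) (sub_mem ha' ha)
    rw [h9, add_zero] at e
    by_contra h0
    exact hne (b.hD ht h1 h8 (e ▸ sub_mem hx' hx) fun h => h0 (mem_W.mpr (sub_eq_zero.mp h)))
  have hne : k ≠ k₀ := fun h => b.nc (h ▸ h3)
  obtain ⟨y, hy, hy0⟩ := exists_mem_U (b.c.ne_one b.hk)
  obtain ⟨z, hz, hz0⟩ := exists_mem_U (b.c.ne_one h1)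
  obtain ⟨t, h4, h5, h6⟩ := b.c.exists_U b.pl (add_mem (b.c.U_le b.pl b.hk b.hW hy)
    (b.c.U_le b.pl h1 h2 hz)) fun h => hne (b.hD b.hk h1 hy
      (by rw [eq_neg_of_add_eq_zero_left h]; exact neg_mem hz) hy0)
  by_contra h0
  have := b.c.eq_of_fix b.pl h4 h5 b.hk b.hW h0 (key t h4 h5 fun h => hne (b.hD b.hk h1 hy
    ((add_mem_cancel_right hz).mp (h ▸ h6)) hy0)) (key k b.hk b.hW hne)
  exact hne (b.hD b.hk h1 ((add_mem_cancel_left hy).mp (this ▸ h6)) hz hz0)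

theorem mem_W_r (hv : v ∈ U g ⊔ U r) (hno : ¬ ∃ σ, TY H m g r σ ∧ v ∈ U σ) : v ∈ W r := by
  have h1 := b.mem_W_g (apply_mem_of_U le_sup_right hv)
    fun ⟨σ, h, h'⟩ => hno (b.refl_of b.ty_r h h')
  by_contra h0
  exact b.nc (b.c.comm_of b.hr b.hk (sub_mem_U r v) (Or.inl (b.hW (sub_mem h1 (b.mem_W_g hv hno))))
    fun h => h0 (mem_W.mpr (sub_eq_zero.mp h)))

theorem two_le_q [Finite F] : 2 ≤ Nat.card F ^ m :=
  Nat.one_lt_pow b.c.pos.ne' Finite.one_lt_card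

theorem false_even [Finite F] (h2 : (2 : F) = 0) : False := by
  have : Finite (V ≃ₗ[F] V) := DFunLike.finite _
  have c := b.c
  obtain ⟨-, t1, hP, -⟩ := c.of_invert b.pl b.hk.mem b.hW (c.sq b.hk) (c.inverts b.pl b.hk b.hW)
  have w1 : W g ≤ W (g * k) := fun v hv => mul_mem_W hv (b.hW hv)
  have egk : g * k * k = g := by rw [mul_assoc, c.sq b.hk, mul_one]
  set R := W g ⊓ (U g ⊔ U r) with hR
  have hY : U g ⊔ U r = R ⊔ U g := le_antisymm (fun y hy => by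
    obtain ⟨w, hw, u, hu, rfl⟩ := b.pl.rot.2.decomp y
    exact Submodule.add_mem_sup ⟨hw, (add_mem_cancel_right (Submodule.mem_sup_left hu)).mp hy⟩ hu)
    (sup_le inf_le_right le_sup_left)
  have hRm : finrank F R = m := by
    have := b.finrank_Y
    rw [hY, finrank_sup_of (A := R) (B := U g) fun v hv hv' => b.pl.rot.2 v hv.1 hv'] at this
    have := b.pl.rk
    unfold rk at *; omega
  have hRr : R ≤ W r := fun y hy => by
    by_contra h0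
    obtain ⟨ρ, h1, h3⟩ : ∃ σ, TY H m g r σ ∧ y ∈ U σ := by
      by_contra hno; exact h0 (b.mem_W_r hy.2 hno)
    have hy0 : y ≠ 0 := fun h => h0 (h ▸ zero_mem _)
    have c1 := c.comm_of h1.t b.hk h3 (Or.inl (b.hW hy.1)) hy0
    have c2 := c.comm_of h1.t t1 h3 (Or.inl (w1 hy.1)) hy0
    have e1 : U ρ = R := Submodule.eq_of_le_of_finrank_le (le_inf (fun v hv => egk ▸ mul_mem_W
      (c.bin.quad h2 t1.mem h1.t.mem (c.sq h1.t) c2.symm hv)
      (c.bin.quad h2 b.hk.mem h1.t.mem (c.sq h1.t) c1.symm hv)) h1.u) (hRm.trans h1.t.rk.symm).le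
    have e2 : U r ≤ W ρ := le_sup_right.trans (hY.le.trans (sup_le (e1 ▸ U_le_W h2 (c.sq h1.t))
      (hP.le.trans (sup_le (c.bin.quad h2 h1.t.mem t1.mem (c.sq t1) c2)
        (c.bin.quad h2 h1.t.mem b.hk.mem (c.sq b.hk) c1)))))
    obtain ⟨v, hv, hv0⟩ := exists_mem_U (c.ne_one b.hr)
    exact h0 (c.bin.quad h2 b.hr.mem h1.t.mem (c.sq h1.t)
      (c.comm_of b.hr h1.t hv (Or.inl (e2 hv)) hv0) h3)
  obtain ⟨x, hx, hx0⟩ := exists_mem_U (c.ne_one b.hk)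
  set A := U k ⊔ R with hA
  have fin : ∀ σ ∈ H, A ≤ W σ → σ ((g * k) x) - (g * k) x ∈ R → σ ((g * k) x) - (g * k) x = 0 := by
    intro σ h1 h3 h4
    refine c.bin.nine h1 (h3 (Submodule.mem_sup_left hx)) (sub_mem_U _ _)
      ⟨g * k * σ * (g * k), mul_mem (mul_mem t1.mem h1) t1.mem, ?_⟩
    rw [← mem_W.mp (w1 h4.1), map_sub, app_app (c.sq t1), add_sub_cancel]; rfl
  set u := (g * k) x with hu
  let S := {ρ | T H m ρ ∧ A ≤ W ρ ∧ U ρ ≤ A ∧ ρ u ≠ u}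
  have h3 := ncard_le_of_cover S ((A : Set V) \ R) (fun ρ => (U ρ : Set V) \ {0})
    (Nat.card F ^ m - 1) (fun ρ hρ => by rw [ncard_nonzero, ← hρ.1.rk]; rfl) (by
    rintro y ⟨hy, hy'⟩
    have hAY : A ≤ U g ⊔ U r := sup_le (b.ty_of b.hk b.hW).u inf_le_right
    have h4 : y ∉ W g := fun h => hy' ⟨h, hAY hy⟩
    obtain ⟨ρ, h5, h6⟩ : ∃ σ, TY H m g r σ ∧ y ∈ U σ := by
      by_contra hno; exact h4 (b.mem_W_g (hAY hy) hno)
    obtain ⟨z, hz, a, ha, rfl⟩ := Submodule.mem_sup.mp hy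
    have h7 : R ≤ W ρ := (le_inf inf_le_left hRr).trans h5.w
    have c1 := c.comm_of b.hk h5.t hz (Or.inl ((add_mem_cancel_right (h7 ha)).mp
      (U_le_W h2 (c.sq h5.t) h6))) fun h => hy' (by rwa [h, zero_add])
    have h8 := c.bin.quad h2 b.hk.mem h5.t.mem (c.sq h5.t) c1
    refine ⟨ρ, ⟨h5.t, sup_le (c.bin.quad h2 h5.t.mem b.hk.mem (c.sq b.hk) c1.symm) h7,
      fun v hv => ?_, fun h => ?_⟩, h6, fun h => h4 (h ▸ zero_mem _)⟩
    · have h9 := h8 hv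
      rw [c.W_eq_sup h2 b.pl b.hk b.hW] at h9
      obtain ⟨w, hw, y, hy, rfl⟩ := Submodule.mem_sup.mp h9
      rw [add_comm]
      exact Submodule.add_mem_sup hy
        ⟨hw, (add_mem_cancel_right ((b.ty_of b.hk b.hW).u hy)).mp (h5.u hv)⟩
    · have t2 := b.hk.conj t1.mem
      have c2 := c.comm_of t2 h5.t (U_conj _ hx) (Or.inl (mem_W.mpr h))
        fun h => hx0 ((g * k).injective (h.trans (map_zero _).symm))
      have e := c.eq_of_fix b.pl t2 (fun v hv => mul_mem_W (mul_mem_W (w1 hv) (b.hW hv))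
        (by rw [W_inv]; exact w1 hv)) b.hk b.hW h4
        (c.bin.quad h2 t2.mem h5.t.mem (c.sq h5.t) c2 h6) (h8 h6)
      rw [egk, inv_eq (c.sq t1)] at e
      refine b.pl.rot.1 (mul_right_cancel (b := k) ?_)
      rw [mul_assoc, e, one_mul])
  have h4 : ∀ ρ ∈ S, ∃ z ∈ U k, ρ u - u - z ∈ R := fun ρ hρ => by
    obtain ⟨z, hz, a, ha, h⟩ := Submodule.mem_sup.mp (hρ.2.2.1 (sub_mem_U ρ u))
    exact ⟨z, hz, by rw [← h, add_sub_cancel_left]; exact ha⟩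
  choose! z z1 z2 using h4
  have h5 : S.ncard ≤ ((U k : Set V) \ {0}).ncard := by
    refine Set.ncard_le_ncard_of_injOn z (fun ρ hρ => ⟨z1 ρ hρ, fun h => hρ.2.2.2 ?_⟩) ?_
    · have := z2 ρ hρ
      rw [show z ρ = 0 from h, sub_zero] at this
      exact sub_eq_zero.mp (fin ρ hρ.1.mem hρ.2.1 this)
    · intro ρ hρ σ hσ e
      have e1 : (ρ * σ) u - u = (ρ u - u) - (σ u - u) := by
        rw [mul_app, ← sub_add_cancel (σ u) u, map_add,
          mem_W.mp (hρ.2.1 (hσ.2.2.1 (sub_mem_U σ u)))]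
        linear_combination (norm := abel) add_self h2 (σ u - u)
      have e2 := fin _ (mul_mem hρ.1.mem hσ.1.mem) (fun v hv => mul_mem_W (hρ.2.1 hv) (hσ.2.1 hv))
        (by rw [e1, ← sub_sub_sub_cancel_right _ _ (z ρ)]
            exact sub_mem (z2 ρ hρ) (e ▸ z2 σ hσ))
      rw [e1, sub_eq_zero] at e2
      exact b.hD hρ.1 hσ.1 (sub_mem_U ρ u) (e2 ▸ sub_mem_U σ u)
        fun h => hρ.2.2.2 (sub_eq_zero.mp h)
  have hAm : finrank F A = 2 * m := by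
    rw [hA, finrank_sup_of (A := U k) (B := R) fun v hv hv' => b.pl.rot.2 v hv'.1 (c.U_le b.pl b.hk b.hW hv), hRm]
    have := b.hk.rk
    unfold rk at *; omega
  rw [ncard_nonzero, show finrank F (U k) = m from b.hk.rk] at h5
  rw [Set.ncard_diff (show (R : Set V) ⊆ A from (le_sup_right : R ≤ A)),
    show (A : Set V).ncard = Nat.card F ^ (2 * m) by
      rw [← hAm, ← Module.natCard_eq_pow_finrank]; rfl,
    show (R : Set V).ncard = Nat.card F ^ m by rw [← hRm, ← Module.natCard_eq_pow_finrank]; rfl,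
    two_mul, pow_add] at h3
  have h6 := b.two_le_q
  have h7 := h3.trans (Nat.mul_le_mul_right _ h5)
  obtain ⟨n, hn⟩ : ∃ n, Nat.card F ^ m = n + 1 := ⟨_, (Nat.sub_add_cancel (by omega)).symm⟩
  rw [hn] at h6 h7
  have : (n + 1) * (n + 1) = n * n + n + (n + 1) := by ring
  simp only [Nat.add_sub_cancel] at h7
  omega

end Big

end Cfsg.Agent.H2.Binary
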