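import Mathlib
import Cfsg.Agent.H2.Bin4

set_option autoImplicit false

/-! Binary affine groups, V: odd characteristic, and the dichotomy. -/

namespace Cfsg.Agent.H2.Binary

open Module

variable {F V : Type*} [Field F] [AddCommGroup V] [Module F V] [FiniteDimensional F V]
variable {g h k s t x j r : V ≃ₗ[F] V} {u v w : V} {H : Subgroup (V ≃ₗ[F] V)} {m : ℕ}

theorem le_of_mul_pred {n q : ℕ} (hq : 2 ≤ q) (h : n * (q - 1) ≤ q ^ 2 - 1) : n ≤ q + 1 := by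
  rw [show q ^ 2 - 1 = (q + 1) * (q - 1) from Nat.sq_sub_sq q 1] at h
  exact Nat.le_of_mul_le_mul_right h (by omega)

theorem Ctx.five (c : Ctx H m) (h2 : (2 : F) ≠ 0) (ht : T H m t) (hv : v ∈ U t) (hv0 : v ≠ 0)
    (hh : h ∈ H) (hhv : h v = v) : U t ≤ W h := by
  have hs : ∀ {y : V ≃ₗ[F] V}, Submodule.span F {v} ≤ W y ↔ y v = v := by
    intro y; rw [Submodule.span_singleton_le_iff_mem, mem_W]
  refine ((c.bin.fix (Submodule.span F {v})).le_of_inv (fix ⊤ (U t)) (fun j hj hj2 => ⟨trivial, ?_⟩)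
    ⟨hh, hs.mpr hhv⟩).2
  have h1 := hs.mp hj.2
  have h3 := c.eq_of_U_odd h2 (ht.conj hj.1) ht (h1 ▸ U_conj j hv) hv hv0
  refine (c.four' h2 ht hj.1 hj2 (mul_inv_eq_iff_eq_mul.mp h3)).resolve_left fun h4 => hv0 ?_
  exact c.bin.dj_odd h2 hj.1 v (mem_W.mpr h1) (h4 hv)

theorem ncard_T_le [Finite V] [Finite F] (c : Ctx H m) (S : Set (V ≃ₗ[F] V)) (X : Submodule F V)
    (hX : finrank F X = 2 * m) (hS : ∀ t ∈ S, T H m t ∧ U t ≤ X)
    (hD : ∀ s ∈ S, ∀ t ∈ S, ∀ v ∈ U s, v ∈ U t → v ≠ 0 → s = t) :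
    S.ncard ≤ Nat.card F ^ m + 1 := by
  have : Finite (V ≃ₗ[F] V) := DFunLike.finite _
  apply le_of_mul_pred (Nat.one_lt_pow c.pos.ne' Finite.one_lt_card)
  have := le_ncard_of_disj S ((X : Set V) \ {0}) (fun t => (U t : Set V) \ {0}) (Nat.card F ^ m - 1)
    (fun t ht => by rw [ncard_nonzero, ← (hS t ht).1.rk]; rfl)
    (fun t ht v hv => ⟨(hS t ht).2 hv.1, hv.2⟩)
    (fun s hs t ht v h h' => hD s hs t ht v h.1 h'.1 h.2)
  rwa [ncard_nonzero, hX, mul_comm 2, pow_mul] at this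

namespace Big
variable [Finite V] (b : Big H m g k r)
include b

theorem refl_odd (h2 : (2 : F) ≠ 0) (hv : v ∈ U g ⊔ U r) : ∃ σ, TY H m g r σ ∧ v ∈ U σ := by
  by_contra hno
  obtain ⟨k₀, h1, h3, h4, x, hx, a, ha, rfl⟩ := b.nonrefl hv hno
  have h5 := b.c.bin.dj_odd h2 b.hr.mem a
    ((add_mem_cancel_left (b.U_le_W_r h1 h3 h4 hx)).mp (b.mem_W_r hv hno)) ha
  exact hno ⟨k₀, b.ty_of h1 h3, by rwa [h5, add_zero]⟩

theorem finrank_perp (h2 : (2 : F) ≠ 0) {ρ : V ≃ₗ[F] V} (hρ : TY H m g r ρ) :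
    finrank F (W ρ ⊓ (U g ⊔ U r) : Submodule F V) = 2 * m := by
  have d := b.c.bin.dj_odd h2 hρ.t.mem
  have hY : U g ⊔ U r = W ρ ⊓ (U g ⊔ U r) ⊔ U ρ := le_antisymm (fun y hy => by
    obtain ⟨w, hw, u, hu, rfl⟩ := d.decomp y
    exact Submodule.add_mem_sup ⟨hw, (add_mem_cancel_right (hρ.u hu)).mp hy⟩ hu)
    (sup_le inf_le_right hρ.u)
  have := b.finrank_Y
  rw [hY, finrank_sup_of (A := W ρ ⊓ (U g ⊔ U r)) (B := U ρ) fun v hv hv' => d v hv.1 hv'] at this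
  have := hρ.t.rk
  unfold rk at *; omega

omit [Finite V] in
theorem U_le_perp (h2 : (2 : F) ≠ 0) {ρ σ : V ≃ₗ[F] V} (hρ : TY H m g r ρ) (hσ : TY H m g r σ)
    (hv : v ∈ U σ) (hv' : v ∈ W ρ) (hv0 : v ≠ 0) : U σ ≤ W ρ ∧ U ρ ≤ W σ := by
  have hc := b.c.comm_of hσ.t hρ.t hv (Or.inl hv') hv0
  have hne : σ ≠ ρ := fun h => hv0 (b.c.bin.dj_odd h2 hρ.t.mem v hv' (h ▸ hv))
  exact ⟨b.c.U_le_W_odd h2 hρ.t hσ.t hc.symm hne.symm, b.c.U_le_W_odd h2 hσ.t hρ.t hc hne⟩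

theorem exists_perp_plane (h2 : (2 : F) ≠ 0) {ρ : V ≃ₗ[F] V} (hρ : TY H m g r ρ) :
    ∃ g', Pl H m g' ∧ W ρ ⊓ (U g ⊔ U r) ≤ U g' ∧ W g' ≤ (W g ⊓ W r) ⊔ U ρ := by
  have c := b.c
  have hd := b.finrank_perp h2 hρ
  obtain ⟨σ, τ, hσ, hτ, h1, h3, hc⟩ : ∃ σ τ, TY H m g r σ ∧ TY H m g r τ ∧
      (U σ ≤ W ρ ∧ U ρ ≤ W σ) ∧ (U τ ≤ W ρ ∧ U ρ ≤ W τ) ∧ σ * τ ≠ τ * σ := by
    obtain ⟨y, hy, hy0⟩ := (Submodule.ne_bot_iff (W ρ ⊓ (U g ⊔ U r))).mp fun h => by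
      rw [h, finrank_bot] at hd; have := c.pos; omega
    obtain ⟨σ, hσ, hyσ⟩ := b.refl_odd h2 hy.2
    obtain ⟨z, hz, hz'⟩ := SetLike.not_le_iff_exists.mp (show ¬ W ρ ⊓ (U g ⊔ U r) ≤ U σ from
      fun h => by
        have := Submodule.finrank_mono h
        have := hσ.t.rk; have := c.pos
        unfold rk at *; omega)
    obtain ⟨τ, hτ, hzτ⟩ := b.refl_odd h2 hz.2
    have hz0 : z ≠ 0 := fun h => hz' (h ▸ zero_mem _)
    have s1 := b.U_le_perp h2 hρ hσ hyσ hy.1 hy0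
    by_cases hc : σ * τ = τ * σ
    · obtain ⟨υ, hυ, h4⟩ := b.refl_odd h2 (add_mem hy.2 hz.2)
      have h5 : y + z ∉ U σ := fun h => hz' ((add_mem_cancel_left hyσ).mp h)
      refine ⟨σ, υ, hσ, hυ, s1, b.U_le_perp h2 hρ hυ h4 (add_mem hy.1 hz.1)
        fun h => h5 (h ▸ zero_mem _), fun hc' => hy0 ?_⟩
      exact c.bin.dj_odd h2 hσ.t.mem y ((add_mem_cancel_right (c.U_le_W_odd h2 hσ.t hτ.t hc
        (fun h => hz' (h ▸ hzτ)) hzτ)).mp (c.U_le_W_odd h2 hσ.t hυ.t hc' (fun h => h5 (h ▸ h4)) h4))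
        hyσ
    · exact ⟨σ, τ, hσ, hτ, s1, b.U_le_perp h2 hρ hτ hzτ hz.1 hz0, hc⟩
  obtain ⟨g', h4, -, h5, h6⟩ := c.plane hσ.t hτ.t hc
  refine ⟨g', h4, (Submodule.eq_of_le_of_finrank_le (h5.le.trans (sup_le (le_inf h1.1 hσ.u)
    (le_inf h3.1 hτ.u))) (hd.trans h4.rk.symm).le).ge, (Submodule.eq_of_le_of_finrank_le
      ((sup_le (le_inf hσ.w hτ.w) (le_inf h1.2 h3.2)).trans h6.ge) ?_).ge⟩
  rw [finrank_sup_of fun v hv hv' => c.bin.dj_odd h2 hρ.t.mem v (hρ.w hv) hv']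
  have := Submodule.finrank_sup_add_finrank_inf_eq (W g) (W r)
  have := Submodule.finrank_le (W g ⊔ W r)
  have := rk_add g; have := rk_add r; have := rk_add g'; have := h4.rk; have := b.pl.rk
  have := b.hr.rk; have := hρ.t.rk
  unfold rk at *; omega

theorem false_odd [Finite F] (h2 : (2 : F) ≠ 0) : False := by
  have : Finite (V ≃ₗ[F] V) := DFunLike.finite _
  have c := b.c
  have hq := b.two_le_q
  set q := Nat.card F ^ m with hqdef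
  set Y := U g ⊔ U r with hY
  let L := fix H (W g ⊓ W r)
  have hL : Bin L := c.bin.fix _
  let cls : V → Set V := fun y => {y' | ∃ h ∈ L, h y = y'}
  have cls_eq : ∀ {y y'}, y' ∈ cls y → cls y' = cls y := by
    rintro y _ ⟨h, hh, rfl⟩
    ext z
    exact ⟨fun ⟨h', hh', e⟩ => ⟨h' * h, mul_mem hh' hh, e⟩, fun ⟨h', hh', e⟩ =>
      ⟨h' * h⁻¹, mul_mem hh' (inv_mem hh), by rw [mul_app, inv_app, e]⟩⟩
  have self : ∀ y, y ∈ cls y := fun y => ⟨1, one_mem L, rfl⟩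
  have hY3 : ((Y : Set V) \ {0}).ncard = q ^ 3 - 1 := by
    rw [ncard_nonzero, b.finrank_Y, mul_comm, pow_mul]
  have hN := ncard_le_of_cover {ρ | TY H m g r ρ} ((Y : Set V) \ {0})
    (fun ρ => (U ρ : Set V) \ {0}) (q - 1) (fun ρ hρ => by rw [ncard_nonzero, hqdef, ← hρ.t.rk]; rfl)
    (fun y hy => by
      obtain ⟨σ, h1, h3⟩ := b.refl_odd h2 hy.1
      exact ⟨σ, h1, h3, hy.2⟩)
  have hN' : q ^ 2 + q + 1 ≤ {ρ | TY H m g r ρ}.ncard := by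
    rw [hY3] at hN
    refine Nat.le_of_mul_le_mul_right (le_trans (le_of_eq ?_) hN) (show 0 < q - 1 by omega)
    obtain ⟨n, hn⟩ : ∃ n, q = n + 1 := ⟨q - 1, by omega⟩
    rw [hn, Nat.add_sub_cancel]
    apply Nat.eq_sub_of_add_eq
    ring
  have hO : ∀ x ∈ Y, x ≠ 0 → q ^ 2 + 1 ≤ (cls x ∩ ((Y : Set V) \ {0})).ncard := by
    intro x hx hx0
    obtain ⟨ρ, hρ, hxρ⟩ := b.refl_odd h2 hx
    have h1 := ncard_T_le c {σ | TY H m g r σ ∧ σ x = x} _ (b.finrank_perp h2 hρ)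
      (fun σ hσ => ⟨hσ.1.t, le_inf (b.U_le_perp h2 hσ.1 hρ hxρ (mem_W.mpr hσ.2) hx0).2 hσ.1.u⟩)
      (fun s hs t ht v => b.hD hs.1.t ht.1.t)
    have h3 : ({ρ | TY H m g r ρ} \ {σ | TY H m g r σ ∧ σ x = x}).ncard ≤
        ((cls x ∩ ((Y : Set V) \ {0})) \ {x}).ncard := by
      refine Set.ncard_le_ncard_of_injOn (fun σ => σ x) (fun σ hσ => ⟨⟨⟨σ, ⟨hσ.1.t.mem, hσ.1.w⟩, rfl⟩,
        apply_mem_of_U hσ.1.u hx, fun h => hx0 (σ.injective (h.trans (map_zero σ).symm))⟩,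
        fun h => hσ.2 ⟨hσ.1, h⟩⟩) fun σ hσ τ hτ e => ?_
      exact b.hD hσ.1.t hτ.1.t (sub_mem_U σ x) (by rw [show σ x = τ x from e]; exact sub_mem_U τ x)
        fun h => hσ.2 ⟨hσ.1, sub_eq_zero.mp h⟩
    rw [Set.ncard_diff (fun σ hσ => hσ.1), Set.ncard_diff_singleton_of_mem
      (show x ∈ cls x ∩ ((Y : Set V) \ {0}) from ⟨self x, hx, hx0⟩)] at h3
    have : 0 < q ^ 2 := by positivity
    omega
  let C := cls '' ((Y : Set V) \ {0})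
  have hC := le_ncard_of_disj C ((Y : Set V) \ {0}) (fun s => s ∩ ((Y : Set V) \ {0})) (q ^ 2 + 1)
    (by rintro _ ⟨x, hx, rfl⟩; exact hO x hx.1 hx.2) (fun s _ => Set.inter_subset_right) (by
      rintro _ ⟨x, -, rfl⟩ _ ⟨y, -, rfl⟩ z h h'
      rw [← cls_eq h.1, ← cls_eq h'.1])
  obtain ⟨x, hxr, hx0⟩ := exists_mem_U (c.ne_one b.hr)
  have hx : x ∈ Y := Submodule.mem_sup_right hxr
  have hxx : x + x ≠ 0 := fun h => hx0 (half h2 h)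
  obtain ⟨g', h4, h5, h6⟩ := b.exists_perp_plane h2 b.ty_r
  have hT := ncard_T_le c {t | T H m t ∧ W g' ≤ W t} (U g') h4.rk
    (fun t ht => ⟨ht.1, c.U_le h4 ht.1 ht.2⟩) (fun s hs t ht v => b.hD hs.1 ht.1)
  have two : ∀ y ∈ cls x, ∀ y' ∈ cls x, cls (x - y) = cls (x - y') → ∃ h ∈ L, h x = x ∧ h y = y' :=
    fun y hy y' hy' e => hL.two (self x) (show y' ∈ cls y by rwa [cls_eq hy]) (show _ ∈ cls _ from
      e ▸ self _)
  have hZ := ncard_le_of_cover (C \ {cls (x + x)}) ((cls x ∩ ((Y : Set V) \ {0})) \ {x, -x})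
    (fun s => {y | y ∈ cls x ∧ y ∈ Y ∧ cls (x - y) = s}) (q + 1) (by
      intro s _
      rcases Set.eq_empty_or_nonempty {y | y ∈ cls x ∧ y ∈ Y ∧ cls (x - y) = s} with h | ⟨y, hy⟩
      · rw [h, Set.ncard_empty]; omega
      obtain ⟨w, hw, a, ha, rfl⟩ := (c.bin.dj_odd h2 b.hr.mem).decomp y
      have h7 := h5 ⟨hw, (add_mem_cancel_right (Submodule.mem_sup_right ha)).mp hy.2.1⟩
      refine le_trans (Set.ncard_le_ncard (t := (fun t => t w + a) '' {t | T H m t ∧ W g' ≤ W t})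
        fun y' hy' => ?_) ((Set.ncard_image_le (Set.toFinite _)).trans hT)
      obtain ⟨h, hh, h8, rfl⟩ := two _ hy.1 _ hy'.1 (hy.2.2.trans hy'.2.2.symm)
      have h9 := c.five h2 b.hr hxr hx0 hh.1 h8
      obtain ⟨t, t1, t2, t3⟩ := c.orbit_T h4 hh.1 (h6.trans (sup_le hh.2 h9)) h7
      exact ⟨t, ⟨t1, t2⟩, by rw [map_add, mem_W.mp (h9 ha), ← t3]⟩) (by
      rintro y ⟨⟨h7, h8, -⟩, h9⟩
      simp only [Set.mem_insert_iff, Set.mem_singleton_iff, not_or] at h9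
      refine ⟨cls (x - y), ⟨⟨x - y, ⟨sub_mem hx h8, fun h => h9.1 (sub_eq_zero.mp h).symm⟩, rfl⟩,
        fun h => h9.2 ?_⟩, h7, h8, rfl⟩
      obtain ⟨h, -, h10, h11⟩ := two _ h7 (-x) ⟨r, ⟨b.hr.mem, inf_le_right⟩, neg_of_U (c.sq b.hr) hxr⟩
        (by rw [sub_neg_eq_add]; exact h)
      exact h.injective (by rw [h11, map_neg, h10]))
  rw [Set.ncard_diff_singleton_of_mem
    (show cls (x + x) ∈ C from ⟨x + x, ⟨add_mem hx hx, hxx⟩, rfl⟩)] at hZ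
  have h7 := Set.ncard_le_ncard_diff_add_ncard (cls x ∩ ((Y : Set V) \ {0})) {x, -x}
  have h8 : ({x, -x} : Set V).ncard ≤ 2 := (Set.ncard_insert_le _ _).trans (by simp)
  have h9 := hO x hx hx0
  rw [hY3] at hC
  have h10 : C.ncard ≤ q - 1 := by
    by_contra h
    have : q * (q ^ 2 + 1) ≤ C.ncard * (q ^ 2 + 1) := Nat.mul_le_mul_right _ (by omega)
    have : q * (q ^ 2 + 1) = q ^ 3 + q := by ring
    omega
  have h11 := hZ.trans (Nat.mul_le_mul_right _ (show C.ncard - 1 ≤ q - 2 by omega))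
  obtain ⟨n, hn⟩ : ∃ n, q = n + 2 := ⟨q - 2, by omega⟩
  rw [hn] at h9 h11
  simp only [Nat.add_sub_cancel] at h11
  have : (n + 2) ^ 2 = n * (n + 2 + 1) + n + 4 := by ring
  omega

end Big

theorem dichotomy [Finite V] [Finite F] (hH : Bin H) (hirr : Irr H) :
    (∀ h ∈ H, h = 1 ∨ ∀ v, h v = -v) ∨ ∃ m g, Ctx H m ∧ Pl H m g ∧ finrank F V = 2 * m := by
  classical
  by_cases h0 : ∀ h ∈ H, h = 1
  · exact Or.inl fun h hh => Or.inl (h0 h hh)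
  have hex : ∃ n, ∃ t ∈ H, t ≠ 1 ∧ rk t = n := by
    push Not at h0
    obtain ⟨t, ht, ht1⟩ := h0
    exact ⟨_, t, ht, ht1, rfl⟩
  obtain ⟨t, ht, ht1, htm⟩ := Nat.find_spec hex
  have c : Ctx H (Nat.find hex) := ⟨hH, fun g hg hg1 => Nat.find_min' hex ⟨g, hg, hg1, rfl⟩, by
    rw [← htm]
    obtain ⟨v, hv, hv0⟩ := exists_mem_U ht1
    exact Nat.pos_of_ne_zero fun h => hv0 ((Submodule.finrank_eq_zero.mp h).le hv)⟩
  set m := Nat.find hex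
  by_cases hm : m < finrank F V
  swap
  · refine Or.inl fun h hh => or_iff_not_imp_left.mpr fun h1 v => ?_
    have h3 := c.min h hh h1
    have h4 := rk_add h
    have h5 : U h = ⊤ := Submodule.eq_top_of_finrank_eq (by unfold rk at *; omega)
    exact neg_of_U (c.sq ⟨hh, by omega⟩) (h5.ge trivial)
  obtain ⟨r, hr, hrt⟩ := c.exists_partner hirr hm ⟨ht, htm⟩
  obtain ⟨g, hg, -⟩ := c.plane hr ⟨ht, htm⟩ hrt
  refine Or.inr ⟨m, g, c, hg, le_antisymm ?_ (by have := rk_add g; have := hg.rk; omega)⟩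
  by_contra hlt
  obtain ⟨k, r, h1, h2, h3, h4, h5⟩ := c.exists_outside hirr hg (not_le.mp hlt)
  have b : Big H m g k r := ⟨c, hg, h1, h2, h3, h4, h5, fun hs ht hv hv' hv0 => by
    obtain ⟨r, h1, h2⟩ := c.exists_partner hirr hm ht
    exact c.eq_of_U hs ht h1 h2 hv hv' hv0⟩
  by_cases h2 : (2 : F) = 0
  exacts [b.false_even h2, b.false_odd h2]

end Cfsg.Agent.H2.Binary
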