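import Mathlib
import Cfsg.Agent.H2.Bin5
import Cfsg.Agent.H2.Regular

set_option autoImplicit false

/-! Binary affine groups, VI: identification of the plane group. -/

namespace Cfsg.Agent.H2.Binary

open Module Cfsg.Agent.H2.Regular Cfsg.Agent.H2.NormalField Cfsg.Agent.H2.Semireg

universe u

variable {F : Type*} {V : Type u} [Field F] [AddCommGroup V] [Module F V] [FiniteDimensional F V]
variable {g h k s t x : V ≃ₗ[F] V} {H : Subgroup (V ≃ₗ[F] V)} {m : ℕ}

theorem W_eq_bot (hg : Pl H m g) (hn : finrank F V = 2 * m) : W g = ⊥ :=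
  Submodule.finrank_eq_zero.mp (by have := rk_add g; have := hg.rk; omega)

theorem U_eq_top (hx : W x = ⊥) : U x = ⊤ := Submodule.eq_top_of_finrank_eq (by
  have := rk_add x
  rw [hx, finrank_bot] at this
  exact this)

namespace Ctx
variable [Finite V] (c : Ctx H m) (hg : Pl H m g) (hn : finrank F V = 2 * m)
include c hg hn

omit [Finite V] in
theorem not_T (hx : x ∈ H) (hT : ¬ T H m x) (hx1 : x ≠ 1) : W x = ⊥ := by
  have h0 := W_eq_bot hg hn
  by_contra h
  obtain ⟨v, hv, hv0⟩ := (Submodule.ne_bot_iff _).mp h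
  have h1 : W g ≤ W x := h0.le.trans bot_le
  exact hT (c.T_of_fix hg hx h1 hx1 (c.sq_of_fix hg hx h1 (fun h => hv0 (h0.le h)) hv)
    (Or.inr fun e => h (e ▸ h0))).1

theorem inv_T (ht : T H m t) : g * t * (g * t) = 1 :=
  c.inverts hg ht ((W_eq_bot hg hn).le.trans bot_le)

theorem inv_not_T (hx : x ∈ H) (hT : ¬ T H m x) (ht : T H m t) : x * t * (x * t) = 1 := by
  by_cases hx1 : x = 1
  · rw [hx1, one_mul, c.sq ht]
  have h1 := c.not_T hg hn hx hT hx1
  by_cases hx2 : x * x = 1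
  · ext v
    have e : ∀ v, x v = -v := fun v => neg_of_U hx2 ((U_eq_top h1).ge trivial)
    rw [mul_app, mul_app, mul_app, e, e, map_neg, neg_neg, app_app (c.sq ht)]; rfl
  · exact c.inv_T (c.pl_of hg hx ((W_eq_bot hg hn).le.trans bot_le)
      ⟨hx2, fun v hv _ => h1.le hv⟩).1 hn ht

theorem not_comm_T (ht : T H m t) : t * g ≠ g * t := fun h => hg.rot.1 (by
  have := c.inv_T hg hn ht
  rwa [mul_assoc, ← mul_assoc t, h, mul_assoc g t, c.sq ht, mul_one] at this)

theorem comm_of_not_T (hx : x ∈ H) (hT : ¬ T H m x) : x * g = g * x := by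
  obtain ⟨u, hu, hu0⟩ := exists_mem_U hg.rot.ne_one
  obtain ⟨t, ht, -⟩ := c.exists_T hg hu hu0
  by_cases h : T H m (x * g)
  · have h1 : x * x = 1 := by
      have h1 := conj_eq_inv (c.sq h) (c.inv_T hg hn h)
      calc x * x = (x * g * g * (x * g)⁻¹)⁻¹ * (x * g * (x * g)) * g⁻¹ := by group
        _ = 1 := by rw [h1, c.sq h]; group
    by_cases hx1 : x = 1
    · rw [hx1, one_mul, mul_one]
    ext v
    have e : ∀ v, x v = -v := fun v =>
      neg_of_U h1 ((U_eq_top (c.not_T hg hn hx hT hx1)).ge trivial)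
    rw [mul_app, mul_app, e, e, map_neg]
  · have h1 := conj_eq_inv (c.sq ht) (c.inv_not_T hg hn (mul_mem hx hg.mem) h ht)
    have h2 := conj_eq_inv (c.sq ht) (c.inv_not_T hg hn hx hT ht)
    have h3 := conj_eq_inv (c.sq ht) (c.inv_T hg hn ht)
    apply inv_injective
    rw [← h1, mul_inv_rev g x, ← h2, ← h3]; group

end Ctx

theorem identify [Finite V] [Finite F] (c : Ctx H m) (hg : Pl H m g) (hn : finrank F V = 2 * m)
    (hirr : Irr H) : ∃ (K E : Type u) (_ : Field K) (_ : Fintype K) (_ : Field E) (_ : Fintype E)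
      (_ : Algebra K E) (e : V ≃+ E), finrank K E = 2 ∧
      (∀ h ∈ H, ∃ (a : E) (φ : E ≃ₐ[K] E), Algebra.norm K a = 1 ∧ ∀ v, e (h v) = a * φ (e v)) ∧
      ∀ (a : E) (φ : E ≃ₐ[K] E), Algebra.norm K a = 1 → ∃ h ∈ H, ∀ v, e (h v) = a * φ (e v) := by
  classical
  have : Finite (V ≃ₗ[F] V) := DFunLike.finite _
  have : Finite (Module.End F V) := DFunLike.finite _
  have h0 := W_eq_bot hg hn
  have hW : ∀ x : V ≃ₗ[F] V, W g ≤ W x := fun x => h0.le.trans bot_le
  obtain ⟨u', hu', hu0'⟩ := exists_mem_U hg.rot.ne_one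
  have : Nontrivial V := ⟨⟨u', 0, hu0'⟩⟩
  obtain ⟨t, ht, -⟩ := c.exists_T hg hu' hu0'
  have ht2 := c.sq ht
  set q := Nat.card F ^ m with hq
  have hq2 : 2 ≤ q := Nat.one_lt_pow c.pos.ne' Finite.one_lt_card
  let A : Subgroup H := Subgroup.centralizer {⟨g, hg.mem⟩}
  have hA : ∀ x : H, x ∈ A ↔ ¬ T H m x := fun x => by
    rw [Subgroup.mem_centralizer_singleton_iff]
    exact ⟨fun h h' => c.not_comm_T hg hn h' (congrArg Subtype.val h),
      fun h => Subtype.ext (c.comm_of_not_T hg hn x.2 h)⟩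
  have hinv : ∀ s : H, T H m s → ∀ x ∈ A, s * x * s⁻¹ = x⁻¹ := fun s hs x hx =>
    Subtype.ext (conj_eq_inv (c.sq hs) (c.inv_not_T hg hn x.2 ((hA x).mp hx) hs))
  let t' : H := ⟨t, ht.mem⟩
  have ht' : t'⁻¹ = t' := Subtype.ext (inv_eq ht2)
  have hAn : A.Normal := ⟨fun x hx s => by
    by_cases hs : T H m s
    · rw [hinv s hs x hx]; exact inv_mem hx
    · exact mul_mem (mul_mem ((hA s).mpr hs) hx) (inv_mem ((hA s).mpr hs))⟩
  have hAc : IsMulCommutative A := SolvClass2.comm_iff.mpr fun x hx y hy => by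
    apply inv_injective
    rw [← hinv t' ht _ (mul_mem hx hy), mul_inv_rev y x, ← hinv t' ht x hx, ← hinv t' ht y hy]; group
  have hTA : ∀ s : H, T H m s → s * t' ∈ A := fun s hs => by
    rw [Subgroup.mem_centralizer_singleton_iff]
    have hgA : (⟨g, hg.mem⟩ : H) ∈ A := Subgroup.mem_centralizer_singleton_iff.mpr rfl
    rw [← mul_inv_eq_iff_eq_mul]
    calc _ = s * (t' * ⟨g, hg.mem⟩ * t'⁻¹) * s⁻¹ := by group
      _ = _ := by rw [hinv t' ht _ hgA, hinv s hs _ (inv_mem hgA), inv_inv]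
  have hcard : Nat.card A = q + 1 := by
    have e1 : Nat.card A = {s | T H m s}.ncard := by
      refine Nat.card_eq_of_bijective (fun x : A => (⟨(x : H) * t, ?_⟩ : {s | T H m s})) ⟨?_, ?_⟩
      · by_contra h
        exact (hA t').mp ((mul_mem_cancel_left x.2).mp ((hA ((x : H) * t')).mpr h)) ht
      · intro x y e
        exact Subtype.ext (Subtype.ext (mul_right_cancel (congrArg Subtype.val e)))
      · rintro ⟨s, hs⟩
        exact ⟨⟨_, hTA ⟨s, hs.mem⟩ hs⟩, Subtype.ext (by
          change s * t * t = s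
          rw [mul_assoc, ht2, mul_one])⟩
    rw [e1]
    refine le_antisymm (ncard_T_le c _ ⊤ (by rw [finrank_top, hn]) (fun s hs => ⟨hs, le_top⟩)
      fun s hs r hr v => c.eq_of_U hs hr
        (c.of_invert hg hr.mem (hW r) (c.sq hr) (c.inv_T hg hn hr)).2.1 fun h => ?_) ?_
    · rw [mul_assoc, c.sq hr, mul_one, ← mul_assoc, ← mul_inv_eq_iff_eq_mul, inv_eq (c.sq hr)] at h
      exact c.not_comm_T hg hn hr h.symm
    · have := ncard_le_of_cover {s | T H m s} (((⊤ : Submodule F V) : Set V) \ {0})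
        (fun s => (U s : Set V) \ {0}) (q - 1) (fun s hs => by rw [ncard_nonzero, hq, ← hs.rk]; rfl)
        (fun v hv => by
          obtain ⟨s, h1, -, h2⟩ := c.exists_U hg ((U_eq_top h0).ge trivial) hv.2
          exact ⟨s, h1, h2, hv.2⟩)
      rw [ncard_nonzero, finrank_top, hn, mul_comm 2, pow_mul, ← hq,
        show q ^ 2 - 1 = (q + 1) * (q - 1) from Nat.sq_sub_sq q 1] at this
      exact Nat.le_of_mul_le_mul_right this (by omega)
  have hSR : IsSR ((rho H).comp A.subtype) := isSR_of_fixed fun x hx v hv =>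
    (c.not_T hg hn x.1.2 ((hA x).mp x.2) fun h => hx (Subtype.ext (Subtype.ext h))).le
      (mem_W.mpr hv)
  have hAirr : ∀ X : Submodule F V, (∀ a ∈ A, ∀ v ∈ X, rho H a v ∈ X) → X = ⊥ ∨ X = ⊤ := by
    intro X hX
    refine or_iff_not_imp_left.mpr fun hX0 => ?_
    have h1 := card_dvd_card_sub_one hSR X fun a => hX a a.2
    have := Submodule.nontrivial_iff_ne_bot.mpr hX0
    have h2 : 1 < Nat.card X := Finite.one_lt_card
    have h3 := Nat.le_of_dvd (by omega) h1
    rw [hcard, Module.natCard_eq_pow_finrank (K := F)] at h3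
    have h4 : m < finrank F X := (Nat.pow_lt_pow_iff_right Finite.one_lt_card).mp
      (show Nat.card F ^ m < _ by omega)
    have h5 : ∀ a ∈ A, ∀ v ∈ X ⊓ X.map t.toLinearMap, rho H a v ∈ X ⊓ X.map t.toLinearMap := by
      rintro a ha _ ⟨hv, v, hv', rfl⟩
      refine ⟨hX a ha _ hv, _, hX _ (inv_mem ha) v hv', ?_⟩
      rw [← hinv t' ht a ha, ht']
      exact app_app ht2 _ |>.trans (by rfl)
    rcases hirr (X ⊓ X.map t.toLinearMap) (fun h hh v hv => by
      by_cases hT : T H m h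
      · have e : h v = rho H (⟨h, hh⟩ * t') (t v) := by
          change h v = h (t (t v)); rw [app_app ht2]
        rw [e]
        obtain ⟨hv1, w, hw, rfl⟩ := hv
        exact h5 _ (hTA ⟨h, hh⟩ hT) _ ⟨by
          change t (t w) ∈ X; rw [app_app ht2]; exact hw, _, hv1, rfl⟩
      · exact h5 ⟨h, hh⟩ ((hA ⟨h, hh⟩).mpr hT) v hv) with h | h
    · have h6 := Submodule.finrank_sup_add_finrank_inf_eq X (X.map t.toLinearMap)
      have h7 := Submodule.finrank_le (X ⊔ X.map t.toLinearMap)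
      rw [h, finrank_bot, LinearEquiv.finrank_map_eq] at h6
      omega
    · exact eq_top_iff.mpr (h.ge.trans inf_le_left)
  let E := alg (rho H) A
  have hinj : ∀ b ∈ E, ∀ v : V, b v = 0 → b = 0 ∨ v = 0 := fun b hb v hv => by
    rcases hAirr (LinearMap.ker b) (fun a ha w hw => by
      rw [LinearMap.mem_ker, ← Module.End.mul_apply, alg_comm _ hAc b hb _ (mem_alg _ ha),
        Module.End.mul_apply, LinearMap.mem_ker.mp hw, map_zero]) with h | h
    · exact Or.inr (h.le hv)
    · exact Or.inl (LinearMap.ker_eq_top.mp h)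
  have hE := isField_of_injective E (alg_comm _ hAc) hinj
  letI := hE.toField
  obtain ⟨u, hu, hu0⟩ := c.exists_notMem hg ht (hW t)
  replace hu0 : u ≠ 0 := fun h => hu0 (h ▸ zero_mem _)
  let ev : E →ₗ[F] V := (LinearMap.applyₗ u).comp E.val.toLinearMap
  have hev : Function.Bijective ev := by
    refine ⟨(injective_iff_map_eq_zero ev).mpr fun b hb =>
      Subtype.ext ((hinj b b.2 u hb).resolve_right hu0), LinearMap.range_eq_top.mp ?_⟩
    refine (hAirr _ ?_).resolve_left fun h => hu0 (h.le ⟨1, rfl⟩)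
    rintro a ha _ ⟨b, rfl⟩
    exact ⟨⟨rho H a, mem_alg _ ha⟩ * b, rfl⟩
  let e := (LinearEquiv.ofBijective ev hev).toAddEquiv
  have htt : rho H t' * rho H t' = 1 := by
    rw [← map_mul, show t' * t' = 1 from Subtype.ext ht2, map_one]
  let ψ : E →ₐ[F] E :=
    { toFun := fun b => ⟨rho H t' * b * rho H t', by
        have := alg_norm (rho H) hAn t' b b.2
        rwa [ht'] at this⟩
      map_one' := Subtype.ext (by simp [htt])
      map_mul' := fun x y => Subtype.ext (by
        change rho H t' * (x * y) * rho H t' = rho H t' * x * rho H t' * (rho H t' * y * rho H t')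
        simp only [mul_assoc]
        rw [← mul_assoc (rho H t') (rho H t'), htt, one_mul])
      map_zero' := Subtype.ext (by simp)
      map_add' := fun x y => Subtype.ext (by simp [mul_add, add_mul])
      commutes' := fun a => Subtype.ext (by
        change rho H t' * algebraMap F _ a * rho H t' = algebraMap F _ a
        rw [← Algebra.commutes, mul_assoc, htt, mul_one]) }
  have hψ : ψ.comp ψ = AlgHom.id F E := AlgHom.ext fun b => Subtype.ext (by
    change rho H t' * (rho H t' * b * rho H t') * rho H t' = b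
    simp only [← mul_assoc]
    rw [htt, one_mul, mul_assoc, htt, mul_one])
  let φ : E ≃ₐ[F] E := AlgEquiv.ofAlgHom ψ ψ hψ hψ
  have hφe : ∀ b : E, e (φ b) = t (e b) := fun b => by
    change t ((b : Module.End F V) (t u)) = t ((b : Module.End F V) u)
    rw [mem_W.mp hu]
  have hφ2 : orderOf φ = 2 := by
    refine orderOf_eq_prime (AlgEquiv.ext fun b => congrArg (fun f : E →ₐ[F] E => f b) hψ) fun h => ?_
    have hgA : (⟨g, hg.mem⟩ : H) ∈ A := Subgroup.mem_centralizer_singleton_iff.mpr rfl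
    have h1 := hφe ⟨_, mem_alg _ hgA⟩
    rw [h] at h1
    change g u = t (g u) at h1
    have h2 := congrArg (fun x : V ≃ₗ[F] V => x u) (c.inv_T hg hn ht)
    simp only [mul_app, mem_W.mp hu, ← h1] at h2
    exact hu0 (c.sq_fpf hg ((U_eq_top h0).ge trivial) h2)
  let K := IntermediateField.fixedField (Subgroup.zpowers φ)
  have hK : finrank K E = 2 := by
    rw [IntermediateField.finrank_fixedField_eq_card, Nat.card_zpowers, hφ2]
  have hEc : Nat.card E = q ^ 2 := by
    rw [Nat.card_congr e.toEquiv, Module.natCard_eq_pow_finrank (K := F), hn, mul_comm, pow_mul]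
  have hKc : Nat.card K = q := by
    apply Nat.pow_left_injective two_ne_zero
    change Nat.card K ^ 2 = q ^ 2
    rw [← hEc, Module.natCard_eq_pow_finrank (K := K) (V := E), hK]
  have hN : ∀ a : E, Algebra.norm K a = 1 ↔ a ^ (q + 1) = 1 := fun a => by
    rw [← (algebraMap K E).injective.eq_iff, FiniteField.algebraMap_norm_eq_pow, hEc, hKc, map_one,
      show q ^ 2 - 1 = (q + 1) * (q - 1) from Nat.sq_sub_sq q 1, Nat.mul_div_cancel _ (by omega)]
  let f : A →* E := ((rho H).comp A.subtype).codRestrict E fun a => mem_alg _ a.2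
  have hf : Set.range f = {a | a ^ (q + 1) = 1} := by
    refine Set.eq_of_subset_of_ncard_le ?_ ?_
    · rintro _ ⟨a, rfl⟩
      change f a ^ (q + 1) = 1
      rw [← map_pow, ← hcard, pow_card_eq_one', map_one]
    · rw [Set.ncard_range_of_injective (fun a b h => hSR.injective (congrArg Subtype.val h)), hcard,
        show {a : E | a ^ (q + 1) = 1} = (Polynomial.nthRoots (q + 1) (1 : E)).toFinset by
          ext a; simp, Set.ncard_coe_finset]
      exact (Multiset.toFinset_card_le _).trans (Polynomial.card_nthRoots _ _)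
  have hfix := IntermediateField.fixingSubgroup_fixedField (Subgroup.zpowers φ)
  let φ' : E ≃ₐ[K] E := K.fixingSubgroupEquiv ⟨φ, hfix.ge (Subgroup.mem_zpowers φ)⟩
  have h1 : ∀ a : A, ∀ v, e.symm ((a : H) • v) = f a * (1 : E ≃ₐ[K] E) (e.symm v) := fun a v => by
    obtain ⟨b, rfl⟩ := e.surjective v
    rw [AddEquiv.symm_apply_eq, AddEquiv.symm_apply_apply]; rfl
  have h2 : ∀ a : A, ∀ v, e.symm (((a : H) * t') • v) = f a * φ' (e.symm v) := fun a v => by
    obtain ⟨b, rfl⟩ := e.surjective v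
    rw [mul_smul, h1, AddEquiv.symm_apply_apply]
    congr 1
    exact e.symm_apply_eq.mpr (hφe b).symm
  refine ⟨K, E, inferInstance, Fintype.ofFinite K, inferInstance, Fintype.ofFinite E, inferInstance,
    e.symm, hK, fun h hh => ?_, fun a σ ha => ?_⟩
  · by_cases hT : T H m h
    · refine ⟨f ⟨_, hTA ⟨h, hh⟩ hT⟩, φ', (hN _).mpr (hf.le ⟨_, rfl⟩), fun v => ?_⟩
      rw [← h2]
      congr 1
      change h v = h (t (t v)); rw [app_app ht2]
    · exact ⟨f ⟨_, (hA ⟨h, hh⟩).mpr hT⟩, 1, (hN _).mpr (hf.le ⟨_, rfl⟩),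
        h1 ⟨⟨h, hh⟩, (hA ⟨h, hh⟩).mpr hT⟩⟩
  · obtain ⟨a, rfl⟩ := hf.ge ((hN a).mp ha)
    obtain ⟨⟨τ, hτ⟩, rfl⟩ := K.fixingSubgroupEquiv.surjective σ
    have hτ' := hfix.le hτ
    rw [mem_zpowers_iff_mem_range_orderOf, hφ2] at hτ'
    simp only [Finset.mem_image, Finset.mem_range] at hτ'
    obtain ⟨i, hi, rfl⟩ := hτ'
    interval_cases i
    · exact ⟨_, (a : H).2, h1 a⟩
    · exact ⟨_, ((a : H) * t').2, fun v => (h2 a v).trans (by simp only [pow_one]; rfl)⟩

end Cfsg.Agent.H2.Binary
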