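import Cfsg.Agent.H4.DGa

set_option autoImplicit false

/-! The distinguished orbit and the bound by the `p`-part of the degree. -/

namespace Cfsg.Agent.H2.DGo
open MulAction Cfsg.Agent.H9.DG Cfsg.Agent.H4.DG

universe u v

theorem half {L X : Type*} [Group L] [Finite L] [MulAction L X] {K : Subgroup L} (n : K.Normal)
    (e : ∀ g ∉ K, ∃! x : X, g • x = x) {a : X} {k : L} (hk : k ∉ K) (ha : k • a = a) :
    Nat.card L ≤ Set.ncard {g : L | g ∉ K ∧ ∃ x ∈ orbit L a, g • x = x} * 2 := by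
  classical
  obtain ⟨r, hr⟩ : ∃ r : X → L, ∀ h : L, r (h • a) • a = h • a :=
    ⟨fun x => if c : ∃ k : L, k • a = x then c.choose else 1, fun h => by
      have c : ∃ k : L, k • a = h • a := ⟨h, rfl⟩
      simp only [dif_pos c]; exact c.choose_spec⟩
  let m : L → L := fun h => if (r (h • a))⁻¹ * h ∈ K then k else 1
  have m1 : ∀ h, m h • a = a := fun h => by
    simp only [m]; split_ifs
    exacts [ha, one_smul _ _]
  have f1 : ∀ h : L, (h * m h * (r (h • a))⁻¹) • h • a = h • a := fun h => by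
    rw [mul_smul, mul_smul, inv_smul_eq_iff.2 (hr h).symm, m1]
  have f2 : ∀ h : L, h * m h * (r (h • a))⁻¹ ∉ K := fun h c => by
    have c' : (r (h • a))⁻¹ * h * m h ∈ K := by simpa [mul_assoc] using n.mem_comm c
    simp only [m] at c'
    split_ifs at c' with d
    · exact hk ((K.mul_mem_cancel_left d).1 c')
    · exact d (by simpa using c')
  have := Nat.card_le_card_of_injective
    (fun h : L => ((⟨h * m h * (r (h • a))⁻¹, f2 h, h • a, mem_orbit _ _, f1 h⟩, decide ((r (h • a))⁻¹ * h ∈ K)) :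
      {g : L | g ∉ K ∧ ∃ x ∈ orbit L a, g • x = x} × Bool)) fun h h' c => by
    obtain ⟨c1, c2⟩ := Prod.mk.inj c
    have c3 : h * m h * (r (h • a))⁻¹ = h' * m h' * (r (h' • a))⁻¹ := congrArg Subtype.val c1
    have c4 : h • a = h' • a := (e _ (f2 h)).unique (f1 h) (c3 ▸ f1 h')
    have c5 : m h = m h' := by simp only [m, decide_eq_decide.1 c2]
    rw [c5, c4] at c3
    exact mul_right_cancel (mul_right_cancel c3)
  rwa [Nat.card_prod, Nat.card_coe_set_eq, Nat.card_eq_fintype_card (α := Bool), Fintype.card_bool] at this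

theorem one {L X : Type*} [Group L] [Finite L] [MulAction L X] {K : Subgroup L} (n : K.Normal)
    (e : ∀ g ∉ K, ∃! x : X, g • x = x) {a c : X} {k l : L} (hk : k ∉ K) (ha : k • a = a) (hl : l ∉ K) (hc : l • c = c) :
    c ∈ orbit L a := by
  by_contra h
  have h1 := half n e hk ha
  have h2 := half n e hl hc
  have d : Disjoint {g : L | g ∉ K ∧ ∃ x ∈ orbit L a, g • x = x} {g : L | g ∉ K ∧ ∃ x ∈ orbit L c, g • x = x} := by
    rw [Set.disjoint_left]
    rintro g ⟨g1, x, x1, x2⟩ ⟨-, y, y1, y2⟩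
    obtain rfl := (e g g1).unique x2 y2
    exact h (orbit_eq_iff.2 x1 ▸ (orbit_eq_iff.2 y1).symm ▸ mem_orbit_self c)
  have h3 := Set.ncard_union_eq d
  have h4 : ({g : L | g ∉ K ∧ ∃ x ∈ orbit L a, g • x = x} ∪ {g : L | g ∉ K ∧ ∃ x ∈ orbit L c, g • x = x}).ncard <
      (Set.univ : Set L).ncard := Set.ncard_lt_ncard (Set.ssubset_univ_iff.2 fun c => by
        have : (1 : L) ∈ _ := c.symm ▸ Set.mem_univ (1 : L)
        rcases this with c | c <;> exact c.1 (one_mem _))
  rw [Set.ncard_univ] at h4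
  omega

theorem po : PO.{u, v} := fun G Ω _ _ _ _ D M e hD hM => by
  have n := e.1
  have n' : (D.subgroupOf M).Normal := inferInstance
  have e' : ∀ g ∉ D.subgroupOf M, ∃! x : Ω, g • x = x := fun g hg => e.2 g hg
  have ex : ∀ H : Subgroup G, H ⊔ D = ⊤ → ∃ g ∈ H, g ∉ D := fun H h => by
    by_contra! c
    exact hD ((sup_eq_right.2 c).symm.trans h)
  obtain ⟨k, kM, kD⟩ := ex M hM
  obtain ⟨a, ha⟩ := (e.2 k kD).exists
  have t : IsPretransitive M (orbit M a) := inferInstance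
  have fx : ∀ g ∉ D.subgroupOf M, ∃ x : orbit M a, g • x = x := fun g hg =>
    (e' g hg).exists.elim fun x hx => ⟨⟨x, one n' e' (k := ⟨k, kM⟩) kD ha hg hx⟩, Subtype.ext hx⟩
  refine ⟨⟨a, ?_⟩, fun b c hb hc => ?_⟩
  · rw [eq_top_iff, ← hM]
    refine sup_le (fun g hg => ?_) le_sup_right
    have : (⟨g, hg⟩ : M) ∈ ((D.subgroupOf M ⊔ stabilizer M (⟨a, mem_orbit_self a⟩ : orbit M a) : Subgroup M) : Set M) := by
      rw [sup_top n' t fx]; trivial
    rw [Subgroup.normal_mul] at this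
    obtain ⟨d, hd, s, hs, h⟩ := this
    rw [show g = d * s from (congrArg Subtype.val h).symm]
    exact mul_mem (Subgroup.mem_sup_right hd) (Subgroup.mem_sup_left ⟨s.2, congrArg Subtype.val hs⟩)
  · obtain ⟨x, x1, x2⟩ := ex _ hb
    obtain ⟨y, y1, y2⟩ := ex _ hc
    obtain ⟨g, hg⟩ := (trans_of n' t fx).exists_smul_eq ⟨b, one n' e' (k := ⟨k, kM⟩) (l := ⟨x, x1.1⟩) kD ha x2 x1.2⟩
      ⟨c, one n' e' (k := ⟨k, kM⟩) (l := ⟨y, y1.1⟩) kD ha y2 y1.2⟩
    exact ⟨g.1.1, ⟨g.1.2, g.2⟩, congrArg Subtype.val hg⟩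

variable {G : Type*} [Group G] [Finite G]

theorem frat (H D : Subgroup G) [D.Normal] (p : ℕ) [Fact p.Prime] : ∃ Q : Subgroup G, Q ≤ H ⊓ D ∧
    Nat.card Q = p ^ (Nat.card (H ⊓ D : Subgroup G)).factorization p ∧ H ≤ (Subgroup.normalizer (Q : Set G) ⊓ H) ⊔ D := by
  obtain ⟨P⟩ : Nonempty (Sylow p (D.subgroupOf H)) := inferInstance
  refine ⟨((P : Subgroup (D.subgroupOf H)).map (D.subgroupOf H).subtype).map H.subtype, ?_, ?_, fun g hg => ?_⟩
  · rintro _ ⟨_, ⟨x, -, rfl⟩, rfl⟩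
    exact ⟨x.1.2, x.2⟩
  · rw [Subgroup.card_map_of_injective H.subtype_injective, Subgroup.card_map_of_injective (Subgroup.subtype_injective _),
      P.card_eq_multiplicity, ← Subgroup.inf_subgroupOf_left, Nat.card_congr (Subgroup.subgroupOfEquivOfLe inf_le_left).toEquiv]
  · have : (⟨g, hg⟩ : H) ∈ ((Subgroup.normalizer (((P : Subgroup (D.subgroupOf H)).map (D.subgroupOf H).subtype : Subgroup H) : Set H) ⊔
        D.subgroupOf H : Subgroup H) : Set H) := by
      rw [P.normalizer_sup_eq_top]; trivial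
    rw [Subgroup.mul_normal] at this
    obtain ⟨s, hs, d, hd, h⟩ := this
    rw [show g = s * d from (congrArg Subtype.val h).symm]
    exact mul_mem (Subgroup.mem_sup_left ⟨Subgroup.le_normalizer_map _ ⟨s, hs, rfl⟩, s.2⟩) (Subgroup.mem_sup_right hd)

theorem le_card' {X : Type*} [MulAction G X] [Finite X] {D L : Subgroup G} (e : Ex G X D) (hL : L ⊔ D = ⊤) {a : X} {Y : Set X}
    (ha : a ∈ Y) (h1 : 1 < Y.ncard) (h0 : ∀ g ∈ L, g • a = a) (hY : ∀ g ∈ L, ∀ y ∈ Y, g • y ∈ Y) : D.index + 1 ≤ Y.ncard := by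
  have n := e.1
  let S : SubMulAction L X := ⟨Y \ {a}, fun g y hy => ⟨hY g g.2 y hy.1, fun c => hy.2
    ((smul_left_cancel_iff g).1 ((show g • y = a from c).trans (show g • a = a from h0 g g.2).symm))⟩⟩
  have h2 := dvd_card (Y := S) (D.subgroupOf L) fun y g hg => by_contra fun c =>
    y.2.2 ((e.2 g c).unique (congrArg Subtype.val hg) (h0 g g.2))
  have h3 : (D.subgroupOf L).index = D.index := by
    rw [← Subgroup.relIndex, ← Subgroup.relIndex_sup_right, hL, Subgroup.relIndex_top_right]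
  have h4 : Nat.card S = Y.ncard - 1 := (Nat.card_coe_set_eq (Y \ {a})).trans (Set.ncard_sdiff_singleton_of_mem ha)
  rw [h3, h4] at h2
  have := Nat.le_of_dvd (by omega) h2
  omega

theorem pn : PN.{u, v} := fun G Ω _ _ _ _ D p t ⟨a⟩ e hp hn => by
  have : Fact p.Prime := ⟨hp⟩
  have n := e.1
  have : Nonempty Ω := ⟨a⟩
  have n0 : Nat.card Ω ≠ 0 := Nat.card_pos.ne'
  have v1 : 1 ≤ (Nat.card Ω).factorization p := (hp.dvd_iff_one_le_factorization n0).1 hn
  by_cases hD : D = ⊤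
  · rw [hD, Subgroup.index_top]
    exact hp.two_le.trans (Nat.le_self_pow (by omega) _)
  have tD := tr G Ω D t e
  have cs : ∀ x : Ω, Nat.card (stabilizer G x ⊓ D : Subgroup G) * Nat.card Ω = Nat.card D := fun x => by
    rw [← index_stabilizer_of_transitive D x, ← Subgroup.card_mul_index (stabilizer D x),
      ← Nat.card_congr (Subgroup.subgroupOfEquivOfLe (inf_le_right : stabilizer G x ⊓ D ≤ D)).toEquiv, Subgroup.inf_subgroupOf_right]
    rfl
  have fs : ∀ x : Ω, (Nat.card D).factorization p =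
      (Nat.card (stabilizer G x ⊓ D : Subgroup G)).factorization p + (Nat.card Ω).factorization p := fun x => by
    rw [← cs x, Nat.factorization_mul Nat.card_pos.ne' n0]; rfl
  obtain ⟨Q, q1, q2, q3⟩ := frat (stabilizer G a) D p
  obtain ⟨P, p1, p2, p3⟩ := frat (Subgroup.normalizer (Q : Set G)) D p
  set α := (Nat.card (stabilizer G a ⊓ D : Subgroup G)).factorization p with hα
  set β := (Nat.card (Subgroup.normalizer (Q : Set G) ⊓ D : Subgroup G)).factorization p with hβ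
  have s1 : (Subgroup.normalizer (Q : Set G) ⊓ stabilizer G a) ⊔ D = ⊤ := by
    rw [eq_top_iff, ← sup_top n t (fun g hg => (e.2 g hg).exists) a]
    exact sup_le le_sup_right q3
  have s2 : (Subgroup.normalizer (P : Set G) ⊓ Subgroup.normalizer (Q : Set G)) ⊔ D = ⊤ := by
    rw [eq_top_iff, ← s1]
    exact sup_le (inf_le_left.trans p3) le_sup_right
  obtain ⟨c, hc⟩ := (po G Ω D _ e hD s2).1
  obtain ⟨g, hg, rfl⟩ := (po G Ω D (Subgroup.normalizer (Q : Set G)) e hD (top_unique (s1 ▸ sup_le_sup_right inf_le_left _))).2 a c s1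
    (top_unique (hc ▸ sup_le_sup_right (inf_le_inf_right _ inf_le_right) _))
  have b1 : α + 1 ≤ β := by
    have h1 : p ^ (α + 1) ∣ Nat.card D := (hp.pow_dvd_iff_le_factorization Nat.card_pos.ne').2 (by rw [fs a]; omega)
    have h2 := Sylow.prime_pow_dvd_card_normalizer h1 (H := Q.subgroupOf D)
      ((Nat.card_congr (Subgroup.subgroupOfEquivOfLe (q1.trans inf_le_right)).toEquiv).trans q2)
    rw [← Subgroup.subgroupOf_normalizer_eq (q1.trans inf_le_right), ← Subgroup.inf_subgroupOf_right,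
      Nat.card_congr (Subgroup.subgroupOfEquivOfLe inf_le_right).toEquiv] at h2
    exact (hp.pow_dvd_iff_le_factorization Nat.card_pos.ne').1 h2
  have b2 : β ≤ α + (Nat.card Ω).factorization p := by
    rw [← fs a]
    exact (hp.pow_dvd_iff_le_factorization Nat.card_pos.ne').1 (p2 ▸ Subgroup.card_dvd_of_le (p1.trans inf_le_right))
  have qp : Q ≤ P := by
    obtain ⟨γ, hγ⟩ := IsPGroup.iff_card.1
      (IsPGroup.to_sup_of_normal_right' (IsPGroup.of_card p2) (IsPGroup.of_card q2) (p1.trans inf_le_left))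
    have h1 : γ ≤ β := (hp.pow_dvd_iff_le_factorization Nat.card_pos.ne').1 (hγ ▸ Subgroup.card_dvd_of_le
      (sup_le p1 (le_inf Subgroup.le_normalizer (q1.trans inf_le_right))))
    exact le_sup_right.trans (Subgroup.eq_of_le_of_card_ge le_sup_left (by
      rw [hγ, p2]; exact Nat.pow_le_pow_right hp.pos h1)).ge
  have o1 : Nat.card (stabilizer P (g • a)) * (orbit P (g • a)).ncard = p ^ β := by
    rw [← index_stabilizer, Subgroup.card_mul_index, p2]
  have o2 : p ^ α ≤ Nat.card (stabilizer P (g • a)) := by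
    rw [← q2, ← Nat.card_congr (Subgroup.subgroupOfEquivOfLe qp).toEquiv]
    refine Subgroup.card_le_of_le fun x hx => ?_
    have : (g⁻¹ * x * g) • a = a := (q1 ((Subgroup.mem_normalizer_iff''.1 hg.1 x).1 hx)).1
    change (x : G) • g • a = g • a
    rw [← mul_smul, ← inv_smul_eq_iff, ← mul_smul, ← mul_assoc, this]
  have o3 : 1 < (orbit P (g • a)).ncard := by
    by_contra c
    have h0 : 0 < (orbit P (g • a)).ncard := (Set.ncard_pos (Set.toFinite _)).2 ⟨_, mem_orbit_self _⟩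
    have h1 : stabilizer P (g • a) = ⊤ := Subgroup.index_eq_one.1 (by rw [index_stabilizer]; omega)
    have h2 : P ≤ stabilizer G (g • a) ⊓ D := fun x hx =>
      ⟨show (⟨x, hx⟩ : P) ∈ stabilizer P (g • a) from h1 ▸ Subgroup.mem_top _, (p1 hx).2⟩
    have h3 := (hp.pow_dvd_iff_le_factorization Nat.card_pos.ne').1 (p2 ▸ Subgroup.card_dvd_of_le h2)
    have h4 := fs (g • a)
    have h5 := fs a
    omega
  refine (le_card' e hc (mem_orbit_self _) o3 (fun l hl => hl.2) ?_).trans ?_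
  · rintro l hl _ ⟨x, rfl⟩
    refine ⟨⟨l * x * l⁻¹, (Subgroup.mem_normalizer_iff.1 hl.1.1 x).1 x.2⟩, ?_⟩
    change (l * x * l⁻¹) • g • a = l • (x : G) • g • a
    rw [mul_smul, mul_smul, inv_smul_eq_iff.2 (show l • g • a = g • a from hl.2).symm]
  · refine Nat.le_of_mul_le_mul_left ?_ (pow_pos hp.pos α)
    rw [← pow_add]
    exact (Nat.mul_le_mul_right _ o2).trans (o1.le.trans (Nat.pow_le_pow_right hp.pos b2))

end Cfsg.Agent.H2.DGo
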