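import Cfsg.Agent.H3.DR0

set_option autoImplicit false

/-! Basic counts for the proportion of derangements. -/

namespace Cfsg.Agent.H2.DRb
open MulAction Finset Cfsg.Agent.H3.DR
open Classical

universe u v

variable {G : Type*} {Ω : Type*} [Group G] [Fintype G] [MulAction G Ω] [Fintype Ω]

omit [Fintype Ω] in
theorem key (x : Ω) (h : G → ℝ) (h0 : ∀ g, 0 ≤ h g) (hc : ∀ t g, h (t * g * t⁻¹) = h g) (S : G → Finset Ω)
    (hS : ∀ g t : G, g • t • x = t • x → t • x ∈ S g) :
    (Fintype.card G : ℝ) * ∑ g : G with g • x = x, h g ≤ (#{g : G | g • x = x} : ℝ) * ∑ g : G, h g * #(S g) := by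
  have e : ∀ t : G, ∑ g : G with g • x = x, h g = ∑ g : G, if g • t • x = t • x then h g else 0 := fun t => by
    rw [sum_filter]
    refine Fintype.sum_equiv (MulAut.conj t).toEquiv _ _ fun g => ?_
    have : (t * g * t⁻¹) • t • x = t • x ↔ g • x = x := by
      rw [mul_smul, inv_smul_smul, mul_smul, smul_left_cancel_iff]
    change _ = if (t * g * t⁻¹) • t • x = t • x then h (t * g * t⁻¹) else 0
    rw [hc]
    exact if_congr this.symm rfl rfl
  calc _ = ∑ t : G, ∑ g : G, if g • t • x = t • x then h g else 0 := by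
        rw [← sum_congr rfl fun t _ => e t, sum_const, card_univ, nsmul_eq_mul]
    _ = ∑ g : G, h g * #{t : G | g • t • x = t • x} := by
        rw [sum_comm]
        refine sum_congr rfl fun g _ => ?_
        rw [← sum_filter, sum_const, nsmul_eq_mul, mul_comm]
    _ ≤ _ := by
        rw [mul_sum]
        refine sum_le_sum fun g _ => ?_
        rw [mul_left_comm]
        refine mul_le_mul_of_nonneg_left ?_ (h0 g)
        have := card_le_mul_card_image_of_maps_to (s := {t : G | g • t • x = t • x}) (t := S g) (f := fun t => t • x)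
          (fun t ht => hS g t (mem_filter.1 ht).2) #{g : G | g • x = x} fun y _ => by
            by_cases c : ∃ k : G, k • x = y
            · obtain ⟨k, rfl⟩ := c
              refine card_le_card_of_injOn (fun t => k⁻¹ * t) (fun t ht => ?_) fun a _ b _ e => mul_left_cancel e
              have : t • x = k • x := (mem_filter.1 ht).2
              simp [mul_smul, this]
            · rw [filter_eq_empty_iff.2 fun t _ e => c ⟨t, e⟩]; simp
        exact_mod_cast this

omit [Fintype G] in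
theorem fx_conj (t g : G) : fx Ω (t * g * t⁻¹) = fx Ω g := by
  unfold fx
  refine (card_bij (fun c _ => t • c) (fun c hc => ?_) (fun a _ b _ e => (smul_left_cancel_iff t).1 e)
    fun c hc => ⟨t⁻¹ • c, ?_, smul_inv_smul _ _⟩).symm
  · simp [mul_smul, (mem_filter.1 hc).2]
  · have := (mem_filter.1 hc).2
    rw [mul_smul, mul_smul, ← eq_inv_smul_iff] at this
    simp [this]

omit [Fintype G] in
theorem off (g : G) : (#(({c : Ω | g • c = c} : Finset Ω).offDiag) : ℝ) = (fx Ω g : ℝ) * (fx Ω g - 1) := by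
  rw [offDiag_card, Nat.cast_sub (Nat.le_mul_self _)]
  unfold fx
  push_cast; ring

omit [Fintype Ω] in
theorem st1 (c : Ω) : Nat.card (stabilizer G c) = #{g : G | g • c = c} := by
  rw [← Fintype.card_subtype, ← Nat.card_eq_fintype_card]; rfl

omit [Fintype Ω] in
theorem st2 (c d : Ω) : Nat.card (stabilizer (stabilizer G c) d) = #{g : G | g • (c, d) = (c, d)} := by
  rw [← Fintype.card_subtype, ← Nat.card_eq_fintype_card]
  exact Nat.card_congr ⟨fun g => ⟨g.1.1, Prod.ext g.1.2 g.2⟩, fun g => ⟨⟨g.1, congrArg Prod.fst g.2⟩, congrArg Prod.snd g.2⟩,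
    fun _ => rfl, fun _ => rfl⟩

theorem c1 (t : IsPretransitive G Ω) (c : Ω) : #{g : G | g • c = c} * Fintype.card Ω = Fintype.card G := by
  rw [← st1, ← Nat.card_eq_fintype_card, ← index_stabilizer_of_transitive G c, Subgroup.card_mul_index, Nat.card_eq_fintype_card]

omit [Fintype Ω] in
theorem c2 (c d : Ω) : #{g : G | g • (c, d) = (c, d)} * Nat.card (orbit (stabilizer G c) d) = #{g : G | g • c = c} := by
  rw [← st1, ← st2, Nat.card_coe_set_eq, ← index_stabilizer, Subgroup.card_mul_index]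

theorem b1 [Nonempty Ω] (t : IsPretransitive G Ω) : ∑ g : G, (fx Ω g : ℝ) = Fintype.card G := by
  have h : ∑ g : G, fx Ω g = ∑ c : Ω, #{g : G | g • c = c} := by
    simp only [fx, card_filter]; exact sum_comm
  have h2 : (∑ g : G, fx Ω g) * Fintype.card Ω = Fintype.card G * Fintype.card Ω := by
    rw [h, sum_mul, sum_congr rfl fun c _ => c1 t c, sum_const, card_univ, smul_eq_mul, mul_comm]
  exact_mod_cast Nat.eq_of_mul_eq_mul_right Fintype.card_pos h2

theorem b2 [Nonempty Ω] (t : IsPretransitive G Ω) : dl G Ω * Fintype.card G = ∑ g : G, max ((fx Ω g : ℝ) - 1) 0 := by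
  have e : ∀ g : G, max ((fx Ω g : ℝ) - 1) 0 = fx Ω g - 1 + if fx Ω g = 0 then 1 else 0 := fun g => by
    split_ifs with h
    · simp [h]
    · have : (1 : ℝ) ≤ fx Ω g := by exact_mod_cast Nat.one_le_iff_ne_zero.2 h
      rw [max_eq_left (by linarith), add_zero]
  rw [sum_congr rfl fun g _ => e g, sum_add_distrib, sum_sub_distrib, b1 t, dl,
    div_mul_cancel₀ _ (by exact_mod_cast Fintype.card_ne_zero)]
  simp

omit [Fintype G] in
theorem tm (g : G) {F : ℝ} (h : (fx Ω g : ℝ) ≤ F) : (fx Ω g : ℝ) * (fx Ω g - 1) ≤ F * max ((fx Ω g : ℝ) - 1) 0 :=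
  (mul_le_mul_of_nonneg_left (le_max_left _ _) (Nat.cast_nonneg _)).trans
    (mul_le_mul_of_nonneg_right h (le_max_right _ _))

theorem key2 {a b : Ω} (hab : a ≠ b) (h : G → ℝ) (h0 : ∀ g, 0 ≤ h g) (hc : ∀ t g, h (t * g * t⁻¹) = h g) :
    (Fintype.card G : ℝ) * ∑ g : G with g • (a, b) = (a, b), h g ≤
      (#{g : G | g • (a, b) = (a, b)} : ℝ) * ∑ g : G, h g * ((fx Ω g : ℝ) * (fx Ω g - 1)) := by
  have := key (a, b) h h0 hc (fun g => ({c : Ω | g • c = c} : Finset Ω).offDiag) fun g t e => by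
    have e1 : g • t • a = t • a := congrArg Prod.fst e
    have e2 : g • t • b = t • b := congrArg Prod.snd e
    simp [e1, e2, hab]
  simp only [off] at this
  convert this

theorem pb : PB.{u, v} := fun G Ω _ _ _ _ _ t => by
  have N0 : (0 : ℝ) < Fintype.card G := by exact_mod_cast Fintype.card_pos
  have n0 : (0 : ℝ) < Fintype.card Ω := by exact_mod_cast Fintype.card_pos
  have mx : ∀ g : G, 0 ≤ max ((fx Ω g : ℝ) - 1) 0 := fun g => le_max_right _ _
  refine ⟨b1 t, b2 t, fun m hm => ?_, ?_, fun F hF => ?_, fun a b hab h3 => ?_⟩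
  · have h : ∑ g : G, #(({c : Ω | g • c = c} : Finset Ω).offDiag) = ∑ p ∈ (univ : Finset Ω).offDiag, #{g : G | g • p = p} := by
      simp only [card_filter]
      rw [sum_comm]
      refine sum_congr rfl fun g _ => ?_
      rw [← card_filter]
      congr 1
      ext ⟨c, d⟩
      simp [Prod.ext_iff, and_comm, and_assoc, and_left_comm]
    have h2 : (∑ p ∈ (univ : Finset Ω).offDiag, #{g : G | g • p = p}) * (m * Fintype.card Ω) ≤
        Fintype.card Ω * Fintype.card Ω * Fintype.card G := by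
      rw [sum_mul]
      refine (sum_le_card_nsmul _ _ (Fintype.card G) fun p hp => ?_).trans ?_
      · rw [← c1 t p.1, ← c2 p.1 p.2, ← mul_assoc]
        exact Nat.mul_le_mul_right _ (Nat.mul_le_mul (le_of_eq (by congr)) (hm _ _ (mem_offDiag.1 hp).2.2))
      · rw [offDiag_card, card_univ, smul_eq_mul]
        exact Nat.mul_le_mul_right _ (Nat.sub_le _ _)
    rw [← h] at h2
    have h3 : (∑ g : G, (fx Ω g : ℝ) * (fx Ω g - 1)) * (m * Fintype.card Ω) ≤
        Fintype.card Ω * Fintype.card Ω * Fintype.card G := by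
      rw [← sum_congr rfl fun g _ => off g]
      exact_mod_cast h2
    rw [rk, mul_div_assoc', div_le_iff₀ N0]
    exact le_of_mul_le_mul_right (by linarith) n0
  · rw [sub_le_iff_le_add, jj, MM, div_le_iff₀ N0, add_mul, div_mul_cancel₀ _ N0.ne', mul_assoc, b2 t, sum_filter, mul_sum,
      ← sum_add_distrib, ← sum_erase_add _ _ (mem_univ (1 : G))]
    refine (sum_le_sum fun g hg => ?_).trans (le_add_of_nonneg_right ?_)
    · split_ifs with c
      · have : (0 : ℝ) ≤ fx Ω g := Nat.cast_nonneg _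
        have := mul_nonneg (show (0 : ℝ) ≤ 1.1 * √(Fintype.card Ω) by positivity) (mx g)
        nlinarith
      · rw [zero_add]
        exact tm g (not_le.1 fun d => c ⟨(mem_erase.1 hg).1, d⟩).le
    · have := mx 1
      split_ifs <;> positivity
  · rw [jj, div_le_iff₀ N0, mul_assoc]
    rcases le_or_gt 0 F with h | h
    · rw [b2 t, mul_sum, ← sum_erase_add _ _ (mem_univ (1 : G))]
      exact (sum_le_sum fun g hg => tm g (hF g (mem_erase.1 hg).1)).trans (le_add_of_nonneg_right (mul_nonneg h (mx 1)))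
    · have e : ∀ g : G, g = 1 := fun g => by_contra fun c => (hF g c).not_gt (h.trans_le (Nat.cast_nonneg _))
      have d : dl G Ω = 0 := by
        rw [dl, filter_eq_empty_iff.2 fun g _ c => ?_]
        · simp
        · rw [e g] at c
          simp [fx] at c
      rw [d, sum_eq_zero fun g hg => absurd (e g) (mem_erase.1 hg).1]
      simp
  · have h := key2 hab (fun g : G => if g = 1 then 0 else 1) (fun g => by split_ifs <;> norm_num) fun t g => by
      simp [mul_inv_eq_one]
    have e1 : ∑ g : G with g • (a, b) = (a, b), (if g = 1 then (0 : ℝ) else 1) = #{g : G | g • (a, b) = (a, b)} - 1 := by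
      rw [← sum_erase_add _ _ (show (1 : G) ∈ _ from by simp), sum_congr rfl fun g hg => if_neg (mem_erase.1 hg).1,
        sum_const, card_erase_of_mem (by simp), nsmul_eq_mul, Nat.cast_pred (card_pos.2 ⟨1, by simp⟩), if_pos rfl]
      simp
    have e2 : ∑ g : G, (if g = 1 then (0 : ℝ) else 1) * ((fx Ω g : ℝ) * (fx Ω g - 1)) = jj G Ω * Fintype.card G := by
      rw [jj, div_mul_cancel₀ _ N0.ne', ← sum_erase_add _ _ (mem_univ (1 : G)), if_pos rfl, zero_mul, add_zero]
      exact sum_congr rfl fun g hg => by rw [if_neg (mem_erase.1 hg).1, one_mul]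
    rw [e1, e2] at h
    rw [st2] at h3
    have h4 : (3 : ℝ) ≤ #{g : G | g • (a, b) = (a, b)} := by exact_mod_cast h3
    generalize (#{g : G | g • (a, b) = (a, b)} : ℝ) = l at h h4
    have h5 : l - 1 ≤ l * jj G Ω := le_of_mul_le_mul_left (by linarith) N0
    nlinarith

theorem pa : PA.{u, v} := fun G Ω _ _ _ _ a b t hab => by
  have : Nonempty Ω := ⟨a⟩
  have N0 : (0 : ℝ) < Fintype.card G := by exact_mod_cast Fintype.card_pos
  have e : ∀ g : G, (fx Ω g : ℝ)⁻¹ * ((fx Ω g : ℝ) * (fx Ω g - 1)) = max ((fx Ω g : ℝ) - 1) 0 := fun g => by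
    by_cases h : fx Ω g = 0
    · simp [h]
    · have : (1 : ℝ) ≤ fx Ω g := by exact_mod_cast Nat.one_le_iff_ne_zero.2 h
      rw [max_eq_left (by linarith), inv_mul_cancel_left₀ (by linarith)]
  have p0 : ∀ g : G, 0 ≤ (fx Ω g : ℝ)⁻¹ * max ((fx Ω g : ℝ) - 1) 0 := fun g => mul_nonneg (by positivity) (le_max_right _ _)
  have h1 := key2 hab (fun g : G => (fx Ω g : ℝ)⁻¹) (fun g => by positivity) fun t g => by rw [fx_conj]
  have h2 := key a (fun g : G => (fx Ω g : ℝ)⁻¹ * max ((fx Ω g : ℝ) - 1) 0) p0 (fun t g => by rw [fx_conj])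
    (fun g => {c : Ω | g • c = c}) fun g t e => by simpa using e
  have e2 : ∀ g : G, (fx Ω g : ℝ)⁻¹ * max ((fx Ω g : ℝ) - 1) 0 * #{c : Ω | g • c = c} = max ((fx Ω g : ℝ) - 1) 0 := fun g => by
    change _ * (fx Ω g : ℝ) = _
    by_cases h : fx Ω g = 0
    · simp [h]
    · rw [mul_right_comm, inv_mul_cancel₀ (by exact_mod_cast h), one_mul]
  rw [sum_congr rfl fun g _ => e g, ← b2 t] at h1
  rw [sum_congr rfl fun g _ => e2 g, ← b2 t, ← c2 a b] at h2
  have h3 : (#{g : G | g • (a, b) = (a, b)} : ℝ) - ∑ g : G with g • (a, b) = (a, b), (fx Ω g : ℝ)⁻¹ ≤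
      ∑ g : G with g • a = a, (fx Ω g : ℝ)⁻¹ * max ((fx Ω g : ℝ) - 1) 0 := by
    rw [cast_card, ← sum_sub_distrib]
    refine (sum_le_sum fun g hg => ?_).trans (sum_le_sum_of_subset_of_nonneg
      (fun g hg => mem_filter.2 ⟨mem_univ _, congrArg Prod.fst (mem_filter.1 hg).2⟩) fun g _ _ => p0 g)
    have : 0 < fx Ω g := card_pos.2 ⟨a, mem_filter.2 ⟨mem_univ _, congrArg Prod.fst (mem_filter.1 hg).2⟩⟩
    have : (1 : ℝ) ≤ fx Ω g := by exact_mod_cast this
    rw [max_eq_left (by linarith), mul_sub, inv_mul_cancel₀ (by linarith), mul_one]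
  have h4 : (0 : ℝ) < #{g : G | g • (a, b) = (a, b)} := by exact_mod_cast card_pos.2 ⟨1, by simp⟩
  push_cast at h2
  generalize (#{g : G | g • (a, b) = (a, b)} : ℝ) = l at h1 h2 h3 h4
  refine le_of_mul_le_mul_left (le_of_mul_le_mul_left ?_ N0) h4
  nlinarith

end Cfsg.Agent.H2.DRb
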