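import Mathlib
import Cfsg.Agent.H2.Semireg

set_option autoImplicit false

/-! Perfect groups with dihedral or generalised quaternion Sylow `2`-subgroups have order
divisible by three. -/

namespace Cfsg.Agent.H2.Dihed3

open Subgroup Cfsg.Agent.H2.Semireg Cfsg.Agent.H2.PGroup

variable {G : Type*} [Group G]

theorem map_eq_one [Group.IsPerfect G] {A : Type*} [CommGroup A] (f : G →* A) (g : G) : f g = 1 :=
  Abelianization.commutator_subset_ker f Group.IsPerfect.mem_commutator

/-- Thompson's transfer lemma for a perfect group -/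
theorem thompson [Finite G] [Group.IsPerfect G] (T : Subgroup G) {m : ℕ} (hm : Odd m)
    (hT : T.index = 2 * m) {y : G} (hy : y ^ 2 = 1) : ∃ g : G, g⁻¹ * y * g ∈ T := by
  classical
  by_contra hno
  push Not at hno
  have := Fintype.ofFinite (G ⧸ T)
  let σ := MulAction.toPermHom G (G ⧸ T)
  have h1 := map_eq_one (Equiv.Perm.sign.comp σ) y
  have h2 := Equiv.Perm.sign_of_pow_two_eq_one (σ := σ y) (by rw [← map_pow, hy, map_one])
  have h3 : Fintype.card (Function.fixedPoints (σ y)) = 0 := by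
    rw [Fintype.card_eq_zero_iff]
    refine ⟨fun ⟨q, hq⟩ => ?_⟩
    obtain ⟨g, rfl⟩ := QuotientGroup.mk_surjective q
    have h4 : ((y * g : G) : G ⧸ T) = (g : G ⧸ T) := hq
    rw [eq_comm, QuotientGroup.eq, ← mul_assoc] at h4
    exact hno g h4
  have h5 : Fintype.card (G ⧸ T) = 2 * m := by rw [← hT, ← Nat.card_eq_fintype_card]; rfl
  rw [h3, h5, Nat.sub_zero, Nat.mul_div_cancel_left _ two_pos, hm.neg_one_pow] at h2
  rw [MonoidHom.comp_apply, h2] at h1
  exact absurd h1 (by decide)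

theorem exists_conj [Finite G] {p : ℕ} [Fact p.Prime] (S : Sylow p G) {t y g s : G}
    (ht : ∀ x ∈ S, x * t = t * x) (hy : g * t * g⁻¹ = y) (hs : s * y = y * s) (hsp : s ^ p = 1) :
    ∃ g' : G, g' * t * g'⁻¹ = y ∧ g'⁻¹ * s * g' ∈ S := by
  classical
  have h2 : ↑(g • S) ≤ centralizer ({y} : Set G) := by
    rintro - ⟨z, hz, rfl⟩
    rw [mem_centralizer_singleton_iff, ← hy]
    have := ht z hz
    simp only [MulDistribMulAction.toMonoidEnd_apply, MulDistribMulAction.toMonoidHom_apply,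
      MulAut.smul_def, MulAut.conj_apply]
    calc g * z * g⁻¹ * (g * t * g⁻¹) = g * (z * t) * g⁻¹ := by group
      _ = _ := by rw [this]; group
  let s' : centralizer ({y} : Set G) := ⟨s, mem_centralizer_singleton_iff.mpr hs⟩
  have hP : IsPGroup p (zpowers s') := by
    apply IsPGroup.of_card (n := if s' = 1 then 0 else 1)
    rw [Nat.card_zpowers]
    split_ifs with h
    · simp [h]
    · rw [pow_one]; exact orderOf_eq_prime (Subtype.ext hsp) h
  obtain ⟨Q, hQ⟩ := hP.exists_le_sylow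
  obtain ⟨h, hh⟩ := MulAction.exists_smul_eq (centralizer ({y} : Set G)) ((g • S).subtype h2) Q
  have h3 := hQ (mem_zpowers s')
  rw [← hh, Sylow.smul_subtype] at h3
  have h4 : s ∈ ((h : G) * g) • S := by
    rw [mul_smul]; exact h3
  refine ⟨h * g, ?_, ?_⟩
  · have := mem_centralizer_singleton_iff.mp h.2
    calc (h : G) * g * t * (h * g)⁻¹ = h * (g * t * g⁻¹) * (h : G)⁻¹ := by group
      _ = y := by rw [hy, this]; group
  · obtain ⟨z, hz, hz2⟩ := h4
    simp only [MulDistribMulAction.toMonoidEnd_apply, MulDistribMulAction.toMonoidHom_apply,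
      MulAut.smul_def, MulAut.conj_apply] at hz2
    rw [← hz2]
    have : ((h : G) * g)⁻¹ * (h * g * z * (h * g)⁻¹) * (h * g) = z := by group
    rw [this]; exact hz

theorem three_dvd_of_cycle [Finite G] {w t y : G} (h1 : w * t * w⁻¹ = y) (h2 : w * y * w⁻¹ = t * y)
    (hy : y * y = 1) (hc : y * t = t * y) (hne : y ≠ t) : 3 ∣ Nat.card G := by
  by_contra h3
  have h4 : w ∈ zpowers (w ^ 3) := by
    rw [mem_zpowers_pow_iff]
    exact (Nat.Coprime.coprime_dvd_right (orderOf_dvd_natCard w)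
      ((Nat.Prime.coprime_iff_not_dvd Nat.prime_three).mpr h3))
  have h5 : w ^ 3 ∈ centralizer ({t} : Set G) := by
    rw [mem_centralizer_singleton_iff, ← mul_inv_eq_iff_eq_mul]
    calc w ^ 3 * t * (w ^ 3)⁻¹ = w * (w * (w * t * w⁻¹) * w⁻¹) * w⁻¹ := by
          simp only [pow_succ, pow_zero]; group
      _ = w * (t * y) * w⁻¹ := by rw [h1, h2]
      _ = (w * t * w⁻¹) * (w * y * w⁻¹) := by group
      _ = t := by rw [h1, h2, ← mul_assoc, hc, mul_assoc, hy, mul_one]
  have h6 := mem_centralizer_singleton_iff.mp (zpowers_le.mpr h5 h4)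
  rw [h6, mul_inv_cancel_right] at h1
  exact hne h1.symm

/-- A perfect group with a dihedral Sylow `2`-subgroup has order divisible by three. -/
theorem three_dvd_of_dihedral [Finite G] [Group.IsPerfect G] (S : Sylow 2 G) {x : G} (hx : x ∈ S)
    (h2 : 2 ∣ orderOf x) (hi : (zpowers x).index = 2 * S.index)
    (hS : ∀ y ∈ S, y ∉ zpowers x → y * x * y⁻¹ = x⁻¹ ∧ y ^ 2 = 1)
    (hm : ∀ a ∈ S, ∀ b ∈ S, a ∉ zpowers x → b ∉ zpowers x → a * b ∈ zpowers x) :
    3 ∣ Nat.card G := by
  have hodd : Odd S.index := Nat.odd_iff.mpr (Nat.two_dvd_ne_zero.mp S.not_dvd_index)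
  have hle : zpowers x ≤ S := zpowers_le.mpr hx
  have hinv : ∀ y ∈ S, y ∉ zpowers x → ∀ u ∈ zpowers x, y * u * y⁻¹ = u⁻¹ := by
    rintro y hy hy' _ ⟨j, rfl⟩
    simp only
    rw [← conj_zpow, (hS y hy hy').1, inv_zpow]
  obtain ⟨n, hn⟩ := h2
  have hn0 : 0 < n := by have := orderOf_pos x; omega
  set t := x ^ n with htdef
  have ht2 : t ^ 2 = 1 := by rw [htdef, ← pow_mul, mul_comm, ← hn, pow_orderOf_eq_one]
  have ht1 : t ≠ 1 := pow_ne_one_of_lt_orderOf hn0.ne' (by omega)
  have htT : t ∈ zpowers x := pow_mem (mem_zpowers x) n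
  have htt : t * t = 1 := by rw [← pow_two, ht2]
  have hti : t⁻¹ = t := inv_eq_of_mul_eq_one_right htt
  have huniq : ∀ s ∈ zpowers x, s ^ 2 = 1 → s = 1 ∨ s = t := by
    intro s hs hs2
    obtain ⟨j, rfl⟩ := mem_zpowers_of_pow_eq_one htT hs ht1 ht2 hs2
    simp only
    rcases Int.even_or_odd' j with ⟨k, rfl | rfl⟩
    · left; rw [zpow_mul, zpow_ofNat, ht2, one_zpow]
    · right; rw [zpow_add, zpow_mul, zpow_ofNat, ht2, one_zpow, one_mul, zpow_one]
  have htc : ∀ s ∈ S, s * t = t * s := by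
    intro s hs
    by_cases hsT : s ∈ zpowers x
    · obtain ⟨j, rfl⟩ := hsT
      exact ((Commute.refl x).zpow_left j).pow_right n
    · have := hinv s hs hsT t htT
      rw [hti, mul_inv_eq_iff_eq_mul] at this
      exact this
  have hg : ∀ y ∈ S, y ∉ zpowers x → ∃ g : G, g * t * g⁻¹ = y ∧ g⁻¹ * t * g ∈ S ∧
      g⁻¹ * t * g ∉ zpowers x := by
    intro y hy hy'
    obtain ⟨g, hg⟩ := thompson (zpowers x) hodd hi (hS y hy hy').2
    have h3 : g⁻¹ * y * g = t := by
      refine (huniq _ hg ?_).resolve_left fun h => hy' ?_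
      · calc (g⁻¹ * y * g) ^ 2 = g⁻¹ * y ^ 2 * g := by simp only [pow_two]; group
          _ = 1 := by rw [(hS y hy hy').2]; group
      · have : y = 1 := by calc y = g * (g⁻¹ * y * g) * g⁻¹ := by group
          _ = 1 := by rw [h]; group
        rw [this]; exact one_mem _
    obtain ⟨g', h4, h5⟩ := exists_conj S (g := g) (y := y) (s := t) htc (by rw [← h3]; group)
      (htc y hy).symm ht2
    refine ⟨g', h4, h5, fun h6 => ?_⟩
    rcases huniq _ h6 (by
      calc (g'⁻¹ * t * g') ^ 2 = g'⁻¹ * t ^ 2 * g' := by simp only [pow_two]; group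
        _ = 1 := by rw [ht2]; group) with h7 | h7
    · apply ht1
      calc t = g' * (g'⁻¹ * t * g') * g'⁻¹ := by group
        _ = 1 := by rw [h7]; group
    · apply hy'
      rw [← h4]
      have : g' * t * g'⁻¹ = t := by
        calc g' * t * g'⁻¹ = g' * (g'⁻¹ * t * g') * g'⁻¹ := by rw [h7]
          _ = t := by group
      rw [this]; exact htT
  obtain ⟨y, hy, hy'⟩ : ∃ y ∈ S, y ∉ zpowers x := by
    by_contra hno
    push Not at hno
    have : (S : Subgroup G) = zpowers x := le_antisymm hno hle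
    rw [← this] at hi
    have := hodd.pos
    omega
  have hyy : ∀ y ∈ S, y ∉ zpowers x → y * y = 1 := fun y hy hy' => by
    rw [← pow_two, (hS y hy hy').2]
  rcases Nat.even_or_odd' n with ⟨k, rfl | rfl⟩
  · obtain ⟨g, h1, h3, h4⟩ := hg y hy hy'
    set u := x ^ k with hu
    have huT : u ∈ zpowers x := pow_mem (mem_zpowers x) k
    have huu : u * u = t := by rw [htdef, hu, ← pow_add, two_mul]
    have key : ∀ y ∈ S, y ∉ zpowers x → u * y * u⁻¹ = t * y := by
      intro y hy hy'
      have := hinv y hy hy' u⁻¹ (inv_mem huT)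
      rw [inv_inv, mul_inv_eq_iff_eq_mul] at this
      rw [mul_assoc, this, ← mul_assoc, huu]
    have e1 : u * t * u⁻¹ = t := by rw [htc u (hle huT), mul_inv_cancel_right]
    have e2 : g * u * g⁻¹ * y * (g * u * g⁻¹)⁻¹ = y := by
      calc g * u * g⁻¹ * y * (g * u * g⁻¹)⁻¹ = g * (u * (g⁻¹ * y * g) * u⁻¹) * g⁻¹ := by group
        _ = y := by rw [← h1, show g⁻¹ * (g * t * g⁻¹) * g = t by group, e1]
    have e3 : g * u * g⁻¹ * t * (g * u * g⁻¹)⁻¹ = y * t := by
      calc g * u * g⁻¹ * t * (g * u * g⁻¹)⁻¹ = g * (u * (g⁻¹ * t * g) * u⁻¹) * g⁻¹ := by group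
        _ = y * t := by rw [key _ h3 h4, ← h1]; group
    refine three_dvd_of_cycle (w := u * (g * u * g⁻¹)) (t := t) (y := y) ?_ ?_ (hyy y hy hy')
      (htc y hy) (fun h => hy' (h ▸ htT))
    · calc _ = u * (g * u * g⁻¹ * t * (g * u * g⁻¹)⁻¹) * u⁻¹ := by group
        _ = (u * y * u⁻¹) * (u * t * u⁻¹) := by rw [e3]; group
        _ = y := by rw [key y hy hy', e1, mul_assoc, htc y hy, ← mul_assoc, htt, one_mul]
    · calc _ = u * (g * u * g⁻¹ * y * (g * u * g⁻¹)⁻¹) * u⁻¹ := by group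
        _ = _ := by rw [e2, key y hy hy']
  · have hk : k = 0 := by
      obtain ⟨j, hj⟩ := IsPGroup.iff_orderOf.mp S.2 ⟨x, hx⟩
      rw [← orderOf_coe, hn] at hj
      rcases j with _ | j
      · omega
      · rw [pow_succ, mul_comm _ 2] at hj
        have h5 : 2 * k + 1 = 2 ^ j := by omega
        rcases j with _ | j
        · omega
        · rw [pow_succ] at h5; omega
    subst hk
    have hT : ∀ s ∈ zpowers x, s = 1 ∨ s = t := by
      rintro _ ⟨j, rfl⟩
      refine huniq _ ⟨j, rfl⟩ ?_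
      simp only
      rw [← zpow_natCast, ← zpow_mul, mul_comm, zpow_mul, zpow_natCast,
        show 2 = orderOf x from hn.symm, pow_orderOf_eq_one, one_zpow]
    have hall : ∀ y ∈ S, y ∉ zpowers x → ∀ s ∈ S, s ∉ zpowers x → s = y ∨ s = t * y := by
      intro y hy hy' s hs hs'
      rcases hT _ (hm s hs y hy hs' hy') with h | h
      · left; rw [eq_inv_of_mul_eq_one_left h, inv_eq_of_mul_eq_one_right (hyy y hy hy')]
      · right; rw [← h, mul_assoc, hyy y hy hy', mul_one]
    have hty : t * y ∈ S := mul_mem (hle htT) hy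
    have hty' : t * y ∉ zpowers x := fun h => hy' ((mul_mem_cancel_left htT).mp h)
    have step : ∀ y ∈ S, y ∉ zpowers x → 3 ∣ Nat.card G ∨
        ∃ g : G, g * t * g⁻¹ = y ∧ g * y * g⁻¹ = t := by
      intro y hy hy'
      obtain ⟨g, h1, h3, h4⟩ := hg y hy hy'
      rcases hall y hy hy' _ h3 h4 with h | h
      · exact Or.inr ⟨g, h1, by rw [← h]; group⟩
      · left
        refine three_dvd_of_cycle h1 ?_ (hyy y hy hy') (htc y hy) (fun h => hy' (h ▸ htT))
        calc g * y * g⁻¹ = g * t * g⁻¹ * (g * (t * y) * g⁻¹) := by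
              rw [show g * t * g⁻¹ * (g * (t * y) * g⁻¹) = g * (t * t) * y * g⁻¹ by group, htt,
                mul_one]
          _ = y * (g * (g⁻¹ * t * g) * g⁻¹) := by rw [h, h1]
          _ = t * y := by rw [← htc y hy]; group
    rcases step y hy hy' with h | ⟨g, h1, h3⟩
    · exact h
    rcases step _ hty hty' with h | ⟨g', h4, h5⟩
    · exact h
    have h6 : g * (t * y) * g⁻¹ = t * y := by
      calc _ = (g * t * g⁻¹) * (g * y * g⁻¹) := by group
        _ = _ := by rw [h1, h3, htc y hy]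
    refine three_dvd_of_cycle (w := g * g') (t := t) (y := t * y) ?_ ?_ (hyy _ hty hty')
      (htc _ hty) (fun h => hty' (by rw [h]; exact htT))
    · calc _ = g * (g' * t * g'⁻¹) * g⁻¹ := by group
        _ = _ := by rw [h4, h6]
    · calc _ = g * (g' * (t * y) * g'⁻¹) * g⁻¹ := by group
        _ = _ := by rw [h5, h1, ← mul_assoc, htt, one_mul]

variable {R : Type*} [Ring R] [Nontrivial R] {ι : G →* R}

theorem not_isCyclic_sylow_two [Finite G] [Group.IsPerfect G] [Nontrivial G] (h : IsSR ι)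
    (S : Sylow 2 G) : ¬ IsCyclic S := by
  intro hS
  have : IsZGroup G := ⟨fun p hp P => by
    have := Fact.mk hp
    by_cases hp2 : p = 2
    · subst hp2
      exact (Sylow.equiv S P).isCyclic.mp hS
    · exact h.isCyclic_odd hp2 P.2⟩
  exact Group.IsPerfect.not_isSolvable G inferInstance

theorem exists_involution [Finite G] [Group.IsPerfect G] [Nontrivial G] (h : IsSR ι) :
    ∃ z : G, z ^ 2 = 1 ∧ z ≠ 1 := by
  obtain ⟨S⟩ := (inferInstance : Nonempty (Sylow 2 G))
  obtain ⟨x, h4, -, -⟩ := (h.cyclic_or_quaternion S.2).resolve_left (not_isCyclic_sylow_two h S)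
  obtain ⟨z, hz⟩ := exists_prime_orderOf_dvd_card' (G := G) 2
    ((((Dvd.intro 2 rfl).trans h4).trans (orderOf_dvd_natCard x)).trans
      (Subgroup.card_subgroup_dvd_card _))
  exact ⟨z, by rw [← hz, pow_orderOf_eq_one], fun h => by simp [h] at hz⟩

theorem three_dvd_card [Finite G] [Group.IsPerfect G] [Nontrivial G] (h : IsSR ι) :
    3 ∣ Nat.card G := by
  obtain ⟨S⟩ := (inferInstance : Nonempty (Sylow 2 G))
  obtain ⟨x, h4, hi, hS⟩ := (h.cyclic_or_quaternion S.2).resolve_left (not_isCyclic_sylow_two h S)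
  obtain ⟨n, hn⟩ := h4
  have hn0 : 0 < n := by have := orderOf_pos x; omega
  set z : G := (x : G) ^ (2 * n) with hz
  have hz2 : z ^ 2 = 1 := by
    rw [hz, ← pow_mul, show 2 * n * 2 = 4 * n by ring, ← hn, ← orderOf_coe, pow_orderOf_eq_one]
  have hz1 : z ≠ 1 := pow_ne_one_of_lt_orderOf (by omega) (by rw [orderOf_coe]; omega)
  let Z := zpowers z
  have hZn : Z.Normal := ⟨fun a ha g => by
    obtain ⟨j, rfl⟩ := ha
    have : Commute g z := h.involution_central hz2 g
    simp only
    rw [(this.zpow_right j).eq, mul_inv_cancel_right]; exact ⟨j, rfl⟩⟩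
  have hZT : Z ≤ zpowers (x : G) := zpowers_le.mpr (pow_mem (mem_zpowers _) _)
  let π := QuotientGroup.mk' Z
  have hπ : Function.Surjective π := QuotientGroup.mk'_surjective Z
  have hker : π.ker = Z := QuotientGroup.ker_mk' Z
  have hmem : ∀ y : S, π y ∈ zpowers (π x) ↔ y ∈ zpowers x := by
    intro y
    rw [← MonoidHom.map_zpowers, ← mem_comap, comap_map_eq, hker, sup_eq_left.mpr hZT,
      ← mem_map_iff_mem (S : Subgroup G).subtype_injective, MonoidHom.map_zpowers]
    rfl
  refine (three_dvd_of_dihedral (S.mapSurjective hπ) (x := π x) ⟨x, x.2, rfl⟩ ?_ ?_ ?_ ?_).trans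
    (Subgroup.card_quotient_dvd_card Z)
  · by_contra h2
    have hodd : Odd (orderOf (π x)) := Nat.odd_iff.mpr (Nat.two_dvd_ne_zero.mp h2)
    have h5 : (x : G) ^ orderOf (π x) ∈ Z := by
      apply hker.le
      rw [MonoidHom.mem_ker, map_pow, pow_orderOf_eq_one]
    obtain ⟨j, hj⟩ := h5
    have h6 : ((x : G) ^ orderOf (π x)) ^ 2 = 1 := by
      rw [← hj]; simp only
      rw [← zpow_natCast, ← zpow_mul, mul_comm, zpow_mul, zpow_natCast, hz2, one_zpow]
    rw [← pow_mul, ← orderOf_dvd_iff_pow_eq_one, orderOf_coe, hn] at h6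
    obtain ⟨m, hm⟩ := hodd
    obtain ⟨c, hc⟩ := h6
    have : orderOf (π x) * 2 = 4 * (n * c) := by rw [hc]; ring
    omega
  · rw [← MonoidHom.map_zpowers, Sylow.coe_mapSurjective, index_map_eq _ hπ (hker.le.trans hZT),
      index_map_eq _ hπ (hker.le.trans (hZT.trans (zpowers_le.mpr x.2)))]
    have := index_map_subtype (H := (S : Subgroup G)) (zpowers x)
    rwa [MonoidHom.map_zpowers, hi] at this
  · rintro _ ⟨y, hy, rfl⟩ hy'
    obtain ⟨h5, h6⟩ := hS ⟨y, hy⟩ (fun h => hy' ((hmem ⟨y, hy⟩).mpr h))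
    refine ⟨by simpa using congrArg (fun a : S => π a) h5, ?_⟩
    rw [← map_pow, ← MonoidHom.mem_ker, hker]
    replace h6 : orderOf y = 4 := by rw [← h6, ← orderOf_coe]
    have h7 : y ^ 2 = z := h.involution_unique _ _
      (by rw [← pow_mul, show 2 * 2 = orderOf y from h6.symm, pow_orderOf_eq_one])
      hz2 (pow_ne_one_of_lt_orderOf two_ne_zero (by rw [h6]; norm_num)) hz1
    rw [h7]; exact mem_zpowers z
  · rintro _ ⟨a, ha, rfl⟩ _ ⟨b, hb, rfl⟩ ha' hb'
    rw [← map_mul]
    apply (hmem (⟨a, ha⟩ * ⟨b, hb⟩)).mpr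
    rw [mul_mem_iff_of_index_two hi]
    exact iff_of_false (fun h => ha' ((hmem ⟨a, ha⟩).mpr h)) (fun h => hb' ((hmem ⟨b, hb⟩).mpr h))

/-- a perfect group with abelian Sylow `p`-subgroups has no central element of order `p` -/
theorem central_eq_one [Finite G] [Group.IsPerfect G] {p : ℕ} [hp : Fact p.Prime]
    (hc : ∀ P : Sylow p G, IsMulCommutative P) {a : G} (ha : a ^ p = 1)
    (hac : ∀ g, g * a = a * g) : a = 1 := by
  by_contra ha1
  have hP : IsPGroup p (zpowers a) := by
    apply IsPGroup.of_card (n := 1)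
    rw [Nat.card_zpowers, pow_one]; exact orderOf_eq_prime ha ha1
  obtain ⟨P, hP⟩ := hP.exists_le_sylow
  have := hc P
  open scoped IsMulCommutative in
  have h1 := map_eq_one (MonoidHom.transfer (MonoidHom.id P)) a
  rw [MonoidHom.transfer_eq_pow _ a (fun k g _ => by
    have : Commute g a := hac g
    rw [mul_assoc, ← (this.pow_right k).eq, inv_mul_cancel_left])] at h1
  have h2 : a ^ (P : Subgroup G).index = 1 := congrArg Subtype.val h1
  rw [← orderOf_dvd_iff_pow_eq_one, orderOf_eq_prime ha ha1] at h2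
  exact P.not_dvd_index h2

theorem exists_perfect [Finite G] (h : ¬ Group.IsSolvable G) :
    ∃ n, derivedSeries G n ≠ ⊥ ∧ ⁅derivedSeries G n, derivedSeries G n⁆ = derivedSeries G n := by
  obtain ⟨_, ⟨n, rfl⟩, hmin⟩ := Set.Finite.exists_minimal (s := Set.range (derivedSeries G))
    (Set.toFinite _) ⟨_, 0, rfl⟩
  refine ⟨n, fun h0 => h ⟨n, h0⟩, le_antisymm (commutator_le_left _ _) ?_⟩
  exact hmin ⟨n + 1, rfl⟩ (commutator_le_left _ _)

/-- the normaliser of a subgroup of order three of a Frobenius complement is solvable -/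
theorem isSolvable_normalizer [Finite G] (h : IsSR ι) {a : G} (ha : a ^ 3 = 1) (ha1 : a ≠ 1) :
    Group.IsSolvable (normalizer (zpowers a : Set G)) := by
  by_contra hns
  set M := normalizer (zpowers a : Set G) with hM
  obtain ⟨n, h0, h1⟩ := exists_perfect hns
  set D := derivedSeries M n
  have hD : Group.IsPerfect D := isPerfect_iff.mpr h1
  have hD' : Nontrivial D := (nontrivial_iff_ne_bot D).mpr h0
  have hι := (h.subgroup M).subgroup D
  have : Fact (Nat.Prime 3) := ⟨Nat.prime_three⟩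
  obtain ⟨b, hb⟩ := exists_prime_orderOf_dvd_card' (G := D) 3 (three_dvd_card hι)
  have hb3 : b ^ 3 = 1 := by rw [← hb, pow_orderOf_eq_one]
  have hb1 : b ≠ 1 := fun h => by simp [h] at hb
  have hca : ∀ d : D, ((d : M) : G) * a = a * ((d : M) : G) := by
    intro d
    have : IsCyclic (zpowers a) := inferInstance
    let f := (normalizerMonoidHom (zpowers a)).comp D.subtype
    have h2 : f d = 1 := by
      apply (IsCyclic.mulAutMulEquiv (zpowers a)).injective
      rw [map_one]
      exact map_eq_one ((IsCyclic.mulAutMulEquiv (zpowers a)).toMonoidHom.comp f) d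
    have h3 : (d : M) ∈ (normalizerMonoidHom (zpowers a)).ker := h2
    rw [normalizerMonoidHom_ker] at h3
    exact (h3 a (mem_zpowers a)).symm
  refine hb1 (central_eq_one (p := 3) (fun P => ?_) hb3 fun g => ?_)
  · have := hι.isCyclic_odd (by norm_num) P.2
    infer_instance
  · obtain ⟨j, hj⟩ := h.mem_zpowers Nat.prime_three a ((b : M) : G) ha
      (by exact_mod_cast congrArg (fun x : D => ((x : M) : G)) hb3) (hca b).symm ha1
    apply Subtype.ext; apply Subtype.ext
    have : Commute ((g : M) : G) a := hca g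
    have := (this.zpow_right j).eq
    simp only at hj
    rw [hj] at this
    exact this

end Cfsg.Agent.H2.Dihed3
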