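import Cfsg.Agent.H2.E8M
import Cfsg.Agent.H3.TW1
import Cfsg.Prelude.Def_Local

/-!
Groups whose generalized Fitting subgroup is `PSL₂(7)`.
-/

set_option autoImplicit false
set_option linter.unusedSectionVars false
set_option maxRecDepth 100000

namespace Cfsg.Agent.H2.E8H

open Matrix Cfsg.Agent.H4.BP Cfsg.Agent.H2.E8M Cfsg.Agent.H3.TW

section general

variable {H : Type*} [Group H]

theorem qs_equiv {K K' : Type*} [Group K] [Group K'] (e : K ≃* K') (h : IsQuasisimple K) : IsQuasisimple K' := by
  refine ⟨?_, ?_⟩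
  · have := h.1
    exact Group.IsPerfect.ofSurjective (f := e.toMonoidHom) e.surjective
  · have := h.2
    have h1 : (Subgroup.center K).map (e : K →* K') = Subgroup.center K' := by
      ext x
      constructor
      · rintro ⟨y, hy, rfl⟩
        refine Subgroup.mem_center_iff.2 fun g => ?_
        obtain ⟨g, rfl⟩ := e.surjective g
        simpa using congrArg e (Subgroup.mem_center_iff.1 hy g)
      · intro hx
        refine ⟨e.symm x, Subgroup.mem_center_iff.2 fun g => e.injective ?_, by simp⟩
        simpa using Subgroup.mem_center_iff.1 hx (e g)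
    exact (QuotientGroup.congr _ _ e h1).symm.isSimpleGroup

theorem layer_normal : (layer H).Normal := by
  refine ⟨fun x hx g => ?_⟩
  have h : layer H ≤ (layer H).comap (MulAut.conj g).toMonoidHom := sSup_le fun K hK => by
    rw [← Subgroup.map_le_iff_le_comap]
    exact le_sSup ⟨hK.1.map (MulAut.conj g).surjective,
      qs_equiv (K.equivMapOfInjective _ (MulAut.conj g).injective) hK.2⟩
  exact h hx

theorem gfit_normal : (generalizedFittingSubgroup H).Normal := by
  have := layer_normal (H := H)
  have : (fittingSubgroup H).Normal := Subgroup.sSup_normal _ fun _ h => h.1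
  exact Subgroup.sup_normal _ _

theorem sn_top {K : Subgroup H} (h : K.IsSubnormal) : SN K ⊤ := by
  induction h with
  | top => exact SN.refl _
  | step S K h1 _ h3 ih =>
    exact SN.step ih h1 fun a ha b hb => h3.conj_mem ⟨b, h1 hb⟩ hb ⟨a, ha⟩

/-- every nontrivial normal subgroup meets the generalized Fitting subgroup -/
theorem eq_bot_of_inf [Finite H] {C : Subgroup H} (hC : C.Normal) (h : C ⊓ generalizedFittingSubgroup H = ⊥) :
    C = ⊥ := by
  by_contra h0
  obtain ⟨K, hK, hm⟩ := exists_minimal_of_wellFoundedLT (fun K : Subgroup H => K.IsSubnormal ∧ K ≠ ⊥ ∧ K ≤ C)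
    ⟨C, hC.isSubnormal, h0, le_rfl⟩
  have hn : Nontrivial K := (Subgroup.nontrivial_iff_ne_bot K).2 hK.2.1
  have hs : IsSimpleGroup K := ⟨fun N hN => by
    by_cases h1 : N = ⊥
    · exact Or.inl h1
    · have h2 := hm ⟨hN.isSubnormal.trans' hK.1, by
        rwa [Ne, Subgroup.map_eq_bot_iff_of_injective _ K.subtype_injective], (Subgroup.map_subtype_le _).trans hK.2.2⟩
        (Subgroup.map_subtype_le N)
      refine Or.inr (eq_top_iff.2 fun x _ => ?_)
      obtain ⟨y, hy, e⟩ := h2 x.2
      exact (Subtype.ext e : y = x) ▸ hy⟩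
  refine hK.2.1 (le_bot_iff.1 (h ▸ le_inf hK.2.2 ?_))
  rcases (Subgroup.center K).normal_of_characteristic.eq_bot_or_eq_top with h1 | h1
  · refine le_trans (le_sSup (show IsComponent K from ⟨hK.1, ?_, ?_⟩)) (le_sup_left : layer H ≤ _)
    · refine ⟨(commutator K).normal_of_characteristic.eq_bot_or_eq_top.resolve_left fun h2 => ?_⟩
      rw [commutator_eq_bot_iff_center_eq_top, h1] at h2
      exact bot_ne_top h2
    · exact (QuotientGroup.quotientMulEquivOfEq h1).trans QuotientGroup.quotientBot |>.isSimpleGroup
  · have : IsMulCommutative K := ⟨⟨fun a b => (Subgroup.mem_center_iff.1 (h1 ▸ Subgroup.mem_top b) a)⟩⟩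
    have hp : (Nat.card K).Prime := Group.is_simple_iff_prime_card.1 hs
    have := Fact.mk hp
    have h2 := (sn_top hK.1).le_Op (IsPGroup.of_card (n := 1) (pow_one _).symm)
    exact h2.trans (le_trans (le_sSup (show (Op _ ⊤).Normal ∧ Group.IsNilpotent (Op _ ⊤) from
      ⟨⟨fun x hx g => nm_Op _ ⊤ g trivial x hx⟩, (isPGroup_Op _ _).isNilpotent⟩)) (le_sup_right : fittingSubgroup H ≤ _))

end general

/-- elements of order seven -/
def L7 : List ℕ := [987, 2016, 847, 1876, 805, 1834, 393, 442, 491, 540, 589, 638, 351, 1527, 358, 1632, 365, 1443, 372,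
  1695, 379, 1506, 386, 1611, 1283, 303, 163, 1339, 121, 1248, 1206, 275, 1115, 233, 93, 1171, 2215, 941, 2320, 997, 2131,
  906, 864, 2383, 773, 2194, 829, 2299]

/-- elements of order at most two -/
def L2 : List ℕ := [301, 161, 119, 344, 2311, 2367, 2276, 2234, 2143, 2199, 1822, 1780, 1885, 1941, 2046, 2004, 1578,
  1487, 1690, 1452, 1655, 1564]

/-- all elements -/
def LG : List ℕ := [301, 644, 987, 1330, 1673, 2016, 2359, 161, 504, 847, 1190, 1533, 1876, 2219, 119, 462, 805, 1148, 1491,
  1834, 2177, 344, 393, 442, 491, 540, 589, 638, 351, 743, 1135, 1527, 1919, 2311, 302, 358, 1093, 1828, 162, 897, 1632,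
  2367, 365, 1443, 120, 1198, 2276, 953, 2031, 372, 1793, 813, 2234, 1254, 274, 1695, 379, 2143, 1506, 869, 232, 1996,
  1359, 386, 92, 2199, 1905, 1611, 1317, 1023, 1374, 1423, 1472, 1521, 1570, 1619, 1668, 1381, 401, 1822, 842, 2263, 1283,
  303, 1388, 1780, 2172, 163, 555, 947, 1339, 1395, 758, 121, 1885, 1248, 611, 2375, 1402, 2137, 471, 1206, 1941, 275,
  1010, 1409, 1115, 821, 527, 233, 2340, 2046, 1416, 93, 1171, 2249, 926, 2004, 681, 1718, 1767, 1816, 1865, 1914, 1963,
  2012, 1725, 1088, 451, 2215, 1578, 941, 304, 1732, 409, 1487, 164, 1242, 2320, 997, 1739, 2131, 122, 514, 906, 1298,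
  1690, 1746, 1452, 1158, 864, 570, 276, 2383, 1753, 773, 2194, 1214, 234, 1655, 675, 1760, 94, 829, 1564, 2299, 633, 1368]

/-- generating pairs -/
noncomputable def LP : List (ℕ × ℕ) := (L7 ×ˢ L2).filter fun p => chk [p.1, p.2, p.1, p.2, p.1, p.2] []

theorem c_LP : LP.length = 336 := by decide +kernel

theorem c_L7 : allLt (fun x => !vb x || !chk [x, x, x, x, x, x, x] [] || chk [x] [] || L7.any fun y => chk [x] [y]) 2401 =
    true := by decide +kernel

theorem c_L2 : allLt (fun x => !vb x || !chk [x, x] [] || L2.any fun y => chk [x] [y]) 2401 = true := by decide +kernel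

theorem c_Z : allLt (fun x => !vb x || !chk [351, x] [x, 351] || !chk [301, x] [x, 301] || chk [x] []) 2401 = true := by
  decide +kernel

theorem c_LG : LG.all (fun x => vb x && Nat.blt x 2401 && force (mu 2064 x) fun z => LG.all fun y => !Nat.beq y z) = true ∧
    LG.Nodup := by decide +kernel

variable {F : Type*} [Field F] [Fintype F] [CharP F 7] (hF : Fintype.card F = 7)

include hF

theorem center_eq {z : ProjectiveSpecialLinearGroup (Fin 2) F} (h : ∀ g, g * z = z * g) : z = 1 := by
  obtain ⟨x, hx, hv, rfl⟩ := surj hF z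
  have h1 := allLt_spec c_Z x hx
  rw [(chk_iff (F := F) (l := [351, x]) (l' := [x, 351]) (by simp [hv]; decide) (by simp [hv]; decide)).2 (by simpa using h _),
    (chk_iff (F := F) (l := [301, x]) (l' := [x, 301]) (by simp [hv]; decide) (by simp [hv]; decide)).2 (by simpa using h _),
    hv] at h1
  simpa using rel (F := F) (l := [x]) (l' := []) (by simpa using h1)

omit hF in
theorem card_ge : 168 ≤ Nat.card (ProjectiveSpecialLinearGroup (Fin 2) F) := by
  classical
  have h1 := c_LG.1
  simp only [List.all_eq_true, Bool.and_eq_true, Nat.blt_eq, force_eq, Bool.not_eq_true'] at h1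
  have h2 : (LG.map (φ F)).Nodup := c_LG.2.map_on fun x hx y hy e => by
    have := (eqv_iff (h1 x hx).1.1 (h1 y hy).1.1 (h1 x hx).1.2 (h1 y hy).1.2).2 e
    simpa [eqv, (h1 y hy).2 x hx] using this
  have := Fintype.ofFinite (ProjectiveSpecialLinearGroup (Fin 2) F)
  rw [Nat.card_eq_fintype_card]
  exact h2.length_le_card

theorem card_aut : Nat.card (MulAut (ProjectiveSpecialLinearGroup (Fin 2) F)) ≤ 336 := by
  classical
  let f : MulAut (ProjectiveSpecialLinearGroup (Fin 2) F) → (LP.map fun p => (φ F p.1, φ F p.2)).toFinset := fun α =>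
    ⟨(α (φ F 351), α (φ F 301)), by
      obtain ⟨x, hx, hv, ex⟩ := surj hF (α (φ F 351))
      obtain ⟨y, hy, hw, ey⟩ := surj hF (α (φ F 301))
      have h1 := allLt_spec c_L7 x hx
      have h2 := allLt_spec c_L2 y hy
      rw [(chk_iff (F := F) (l := [x, x, x, x, x, x, x]) (l' := []) (by simp [hv]) rfl).2 (by
        have := congrArg α (rel (F := F) (l := [351, 351, 351, 351, 351, 351, 351]) (l' := []) (by decide +kernel))
        simpa [ex] using this), hv, Bool.eq_false_iff.2 (fun e : chk [x] [] = true => nrel (F := F) (l := [351]) (l' := []) (by decide +kernel)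
          (by simpa [ex] using rel (F := F) e))] at h1
      rw [(chk_iff (F := F) (l := [y, y]) (l' := []) (by simp [hw]) rfl).2 (by
        have := congrArg α (rel (F := F) (l := [301, 301]) (l' := []) (by decide +kernel))
        simpa only [List.map_cons, List.map_nil, List.prod_cons, List.prod_nil, map_mul, map_one, ey] using this), hw] at h2
      simp only [Bool.not_true, Bool.false_or, List.any_eq_true] at h1 h2
      obtain ⟨x', hx', e1⟩ := h1
      obtain ⟨y', hy', e2⟩ := h2
      have v1 : vb x' = true := (show ∀ x ∈ L7, vb x = true by decide +kernel) _ hx'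
      have v2 : vb y' = true := (show ∀ x ∈ L2, vb x = true by decide +kernel) _ hy'
      replace e1 : φ F x' = α (φ F 351) := by simpa [ex, eq_comm] using rel (F := F) e1
      replace e2 : φ F y' = α (φ F 301) := by simpa [ey, eq_comm] using rel (F := F) e2
      refine List.mem_toFinset.2 (List.mem_map.2 ⟨(x', y'), List.mem_filter.2 ⟨List.pair_mem_product.2 ⟨hx', hy'⟩, ?_⟩,
        by rw [e1, e2]⟩)
      refine (chk_iff (F := F) (by simp [v1, v2]) rfl).2 ?_
      have := congrArg α (rel (F := F) (l := [351, 301, 351, 301, 351, 301]) (l' := []) (by decide +kernel))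
      simpa only [List.map_cons, List.map_nil, List.prod_cons, List.prod_nil, map_mul, map_one, e1, e2] using this⟩
  have hf : Function.Injective f := fun α β e => by
    have h1 : α (φ F 351) = β (φ F 351) ∧ α (φ F 301) = β (φ F 301) := Prod.mk.inj (congrArg Subtype.val e)
    ext g
    induction g using gen hF with
    | h1 => simp
    | hs g ih => rw [map_mul, map_mul, ih, h1.1]
    | ha g ih => rw [map_mul, map_mul, ih, h1.2]
  refine (Nat.card_le_card_of_injective f hf).trans ?_
  rw [Nat.card_eq_fintype_card, Fintype.card_coe, ← c_LP]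
  exact (List.toFinset_card_le _).trans (List.length_map _).le

omit [CharP F 7] in
theorem main {H : Type*} [Group H] [Finite H]
    (e : Nonempty (generalizedFittingSubgroup H ≃* ProjectiveSpecialLinearGroup (Fin 2) F)) :
    (generalizedFittingSubgroup H).Normal ∧ (generalizedFittingSubgroup H).index ≤ 2 ∧
      ∀ A : Subgroup H, IsMulCommutative A → Nat.card A < 120 := by
  have : Fact (Nat.Prime 7) := ⟨by decide⟩
  have : CharP F 7 := charP_of_card_eq_prime hF
  obtain ⟨e⟩ := e
  have hN := gfit_normal (H := H)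
  set N := generalizedFittingSubgroup H with hNd
  have h1 : Function.Injective (MulAut.conjNormal (H := N)) := by
    rw [← MonoidHom.ker_eq_bot_iff]
    refine eq_bot_of_inf inferInstance (eq_bot_iff.2 fun x hx => ?_)
    have h2 := center_eq hF (z := e ⟨x, hx.2⟩) fun g => by
      obtain ⟨g, rfl⟩ := e.surjective g
      have h3 := congrArg Subtype.val (DFunLike.congr_fun (MonoidHom.mem_ker.1 hx.1) g)
      rw [← map_mul, ← map_mul]
      refine congrArg e (Subtype.ext ?_)
      exact (mul_inv_eq_iff_eq_mul.1 h3).symm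
    simpa using h2
  have h2 : Nat.card H ≤ 336 := by
    refine (Nat.card_le_card_of_injective _ h1).trans ?_
    rw [Nat.card_congr (MulAut.congr e).toEquiv]
    exact card_aut hF
  have h3 : 168 ≤ Nat.card N := by
    rw [Nat.card_congr e.toEquiv]
    exact card_ge
  refine ⟨hN, ?_, fun A hA => ?_⟩
  · have := N.card_mul_index
    nlinarith
  · by_contra h4
    have h5 := A.card_mul_index
    have h6 : A.index ≤ 2 := by nlinarith
    have h7 : ∀ x : H, x * x ∈ A := fun x => by
      have := A.index_ne_zero_of_finite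
      rcases (by omega : A.index = 1 ∨ A.index = 2) with h | h
      · rw [Subgroup.index_eq_one.1 h]; trivial
      · exact A.mul_self_mem_of_index_two h x
    have h8 := rel (F := F) (l := [372, 372]) (l' := [351]) (by decide +kernel)
    have h9 := rel (F := F) (l := [540, 540]) (l' := [393]) (by decide +kernel)
    refine nrel (F := F) (l := [351, 393]) (l' := [393, 351]) (by decide +kernel) ?_
    simp only [List.map_cons, List.map_nil, List.prod_cons, List.prod_nil, mul_one] at h8 h9 ⊢
    have h10 := congrArg Subtype.val (hA.1.1 ⟨_, h7 (e.symm (φ F 372))⟩ ⟨_, h7 (e.symm (φ F 540))⟩)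
    rw [← h8, ← h9]
    refine e.symm.injective (Subtype.ext ?_)
    simpa using h10

end Cfsg.Agent.H2.E8H
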