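import Cfsg.Agent.H2.E8M
import Cfsg.Agent.H4.T8G

/-!
`PSL₂(7)` fixes a vector of the adjoint module of `E₈(3)`.
-/

set_option autoImplicit false
set_option linter.unusedSectionVars false
set_option maxRecDepth 100000

namespace Cfsg.Agent.H2.E8L

open Module Matrix Cfsg.Agent.H4.BP Cfsg.Agent.H4.T8 Cfsg.Agent.H2.E8M

theorem orth_le {k V : Type*} [Field k] [AddCommGroup V] [Module k V] [FiniteDimensional k V]
    (β : LinearMap.BilinForm k V) (Y W₀ W₁ : Submodule k V) (h1 : W₁ ≤ Y)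
    (hn : ∀ w ∈ W₀, (∀ y ∈ Y, β w y = 0) → w = 0) (ho : ∀ w ∈ W₀, ∀ y ∈ W₁, β w y = 0) :
    finrank k W₀ + finrank k W₁ ≤ finrank k Y := by
  have h2 := finrank_le_add W₀ ⊥ (W₁.comap Y.subtype).dualAnnihilator (β.domRestrict₂ Y)
    (fun w hw => (Submodule.mem_dualAnnihilator _).2 fun y hy => ho w hw y hy)
    fun w hw e => hn w hw fun y hy => LinearMap.congr_fun e ⟨y, hy⟩
  have h3 := Subspace.finrank_add_finrank_dualAnnihilator_eq (W₁.comap Y.subtype)
  rw [(Submodule.comapSubtypeEquivOfLe h1).finrank_eq] at h3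
  rw [finrank_bot] at h2
  omega

variable {V : Type*} [AddCommGroup V] [Module (ZMod 3) V] [FiniteDimensional (ZMod 3) V]

theorem card_mod7 (f : End (ZMod 3) V) (h7 : f ^ 7 = 1) : 3 ^ finrank (ZMod 3) V ≡ 3 ^ dm ⊤ f 1 [MOD 7] := by
  classical
  have := Module.finite_of_finite (ZMod 3) (M := V)
  have := Fintype.ofFinite V
  have : Fact (Nat.Prime 7) := ⟨by decide⟩
  have h1 := Equiv.Perm.card_fixedPoints_modEq (α := V) (f := fun v => f v) (p := 7) (n := 1)
    (funext fun v => LinearMap.congr_fun h7 v)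
  rw [Fintype.card_congr (α := Function.fixedPoints _) (β := ↥(⊤ ⊓ f.eigenspace 1)) ⟨fun v => ⟨v.1, mem_eig.2 v.2⟩,
    fun v => ⟨v.1, mem_eig.1 v.2⟩, fun _ => rfl, fun _ => rfl⟩,
    Module.card_eq_pow_finrank (K := ZMod 3) (V := V), Module.card_eq_pow_finrank (K := ZMod 3) (V := ↥(⊤ ⊓ f.eigenspace 1)),
    ZMod.card] at h1
  exact h1

theorem partI {A B T U : End (ZMod 3) V} (β : LinearMap.BilinForm (ZMod 3) V) (hn : ∀ v, (∀ w, β v w = 0) → v = 0)
    (hAA : ∀ v, A (A v) = v) (hBB : ∀ v, B (B v) = v) (hTT : ∀ v, T (T v) = v) (hU3 : ∀ v, U (U (U v)) = v)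
    (hBA : ∀ v, B (A v) = A (B v)) (hAT : ∀ v, A (T v) = T (A v)) (hBT : ∀ v, B (T v) = T (A (B v)))
    (hAU : ∀ v, A (U v) = U (A (B v))) (hBU : ∀ v, B (U v) = U (A v)) (hTU : ∀ v, T (U v) = U (U (T v)))
    (iA : ∀ v w, β (A v) (A w) = β v w) (iB : ∀ v w, β (B v) (B w) = β v w) (iT : ∀ v w, β (T v) (T w) = β v w)
    (iU : ∀ v w, β (U v) (U w) = β v w) :
    2 * finrank (ZMod 3) (fx [A, B, T]) ≤ finrank (ZMod 3) (fx [A, B, -T]) + 3 * finrank (ZMod 3) (fx [A, B, T, U]) := by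
  have mD : ∀ v, v ∈ fx [A, B, T] ↔ A v = v ∧ B v = v ∧ T v = v := fun v => by simp [mem_fx]
  have mY : ∀ v, v ∈ fx [A, B, -T] ↔ A v = v ∧ B v = v ∧ T v = -v := fun v => by simp [mem_fx, neg_eq_iff_eq_neg]
  have mP : ∀ v, v ∈ fx [A, B, T, U] ↔ A v = v ∧ B v = v ∧ T v = v ∧ U v = v := fun v => by simp [mem_fx]
  have h0 : ∀ v ∈ fx [A, B, T], (U - U * U) v = 0 → v ∈ fx [A, B, T, U] := fun v hv e => by
    obtain ⟨h1, h2, h3⟩ := (mD v).1 hv
    have := congrArg (fun x => U (U x)) (sub_eq_zero.1 e)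
    simp only [End.mul_apply, hU3] at this
    exact (mP v).2 ⟨h1, h2, h3, this.symm⟩
  have hY : (fx [A, B, T]).map (U - U * U) ≤ fx [A, B, -T] := by
    rintro _ ⟨v, hv, rfl⟩
    obtain ⟨h1, h2, h3⟩ := (mD v).1 hv
    simp [mY, hAU, hBU, hTU, h1, h2, h3, hU3]
  have h1 := finrank_le_add (fx [A, B, T]) (fx [A, B, T] ⊓ LinearMap.ker (1 + U + U * U)) (fx [A, B, T, U]) (1 + U + U * U)
    (fun v hv => by
      obtain ⟨h1, h2, h3⟩ := (mD v).1 hv
      simp only [mP, LinearMap.add_apply, End.one_apply, End.mul_apply, map_add, hAU, hBU, hTU, h1, h2, h3, hU3, true_and]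
      constructor <;> abel) fun v hv e => ⟨hv, e⟩
  have h2 := finrank_le_add (fx [A, B, T] ⊓ LinearMap.ker (1 + U + U * U)) _ _ (U - U * U)
    (fun v hv => Submodule.mem_map_of_mem hv) fun v hv => h0 v hv.1
  have h3 := finrank_le_add (fx [A, B, T]) _ _ (U - U * U) (fun v hv => Submodule.mem_map_of_mem hv) h0
  have h4 := orth_le β _ ((fx [A, B, T] ⊓ LinearMap.ker (1 + U + U * U)).map (U - U * U)) _ hY (fun w hw e => by
    obtain ⟨h1, h2, h3⟩ := (mY w).1 (hY (Submodule.map_mono inf_le_left hw))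
    refine hn w fun z => ?_
    have e1 : ∀ z, β w (A z) = β w z := fun z => by rw [← iA, h1, hAA]
    have e2 : ∀ z, β w (B z) = β w z := fun z => by rw [← iB, h2, hBB]
    have e3 : ∀ z, β w (T z) = -β w z := fun z => by rw [← iT, h3, hTT]; simp
    have := e (z + B z + A (z + B z) - T (z + B z + A (z + B z))) ((mY _).2 (by
      simp only [map_add, map_sub, hAA, hBB, hTT, hBA, hAT, hBT]
      refine ⟨?_, ?_, ?_⟩ <;> abel))
    simp only [map_add, map_sub, e1, e2, e3] at this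
    have h3 : (3 : ZMod 3) = 0 := rfl
    linear_combination 3 * β w z * h3 - this) (by
      rintro _ ⟨x, hx, rfl⟩ _ ⟨y, -, rfl⟩
      have e1 : ∀ v w, β v (U w) = β (U (U v)) w := fun v w => by rw [← iU, ← iU, hU3]
      have e2 : U (U ((U - U * U) x)) - U ((U - U * U) x) = 0 := by
        have : x + U x + U (U x) = 0 := hx.2
        simp only [LinearMap.sub_apply, End.mul_apply, map_sub, hU3]
        linear_combination (norm := abel) three x - this
      have e3 := congrArg (fun v => β v y) e2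
      rw [LinearMap.sub_apply U _ y, map_sub, End.mul_apply, e1, e1, e1, hU3]
      simpa only [map_sub, LinearMap.sub_apply, map_zero, LinearMap.zero_apply] using e3)
  omega

variable {F : Type*} [Field F] [Fintype F] [CharP F 7] (ρ : ProjectiveSpecialLinearGroup (Fin 2) F →* End (ZMod 3) V)

/-- action of a word -/
noncomputable def ap (l : List ℕ) (v : V) : V := l.foldr (fun x w => ρ (φ F x) w) v

theorem ap_eq (l : List ℕ) (v : V) : ap ρ l v = ρ (l.map (φ F)).prod v := by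
  induction l with
  | nil => simp [ap]
  | cons a l ih => rw [List.map_cons, List.prod_cons, map_mul, End.mul_apply, ← ih]; rfl

theorem W {l l' : List ℕ} (h : chk l l' = true) (v : V) : ap ρ l v = ap ρ l' v := by
  rw [ap_eq, ap_eq, rel h]

/-- the norm of the element of order seven -/
noncomputable def NS (v : V) : V := (ρ (φ F 351) ^ 0) v + (ρ (φ F 351) ^ 1) v + (ρ (φ F 351) ^ 2) v + (ρ (φ F 351) ^ 3) v +
  (ρ (φ F 351) ^ 4) v + (ρ (φ F 351) ^ 5) v + (ρ (φ F 351) ^ 6) v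

theorem S7 : ρ (φ F 351) ^ 7 = 1 := by rw [← map_pow, s_seven, map_one]

theorem S_NS (v : V) : ρ (φ F 351) (NS ρ v) = NS ρ v := by
  have h : ∀ n, ρ (φ F 351) ((ρ (φ F 351) ^ n) v) = (ρ (φ F 351) ^ (n + 1)) v := fun n => by rw [pow_succ']; rfl
  simp only [NS, map_add, h, Nat.reduceAdd, S7]
  rw [pow_zero]
  abel

theorem NS_S (i : ℕ) (v : V) : NS ρ ((ρ (φ F 351) ^ i) v) = NS ρ v := by
  induction i with
  | zero => rfl
  | succ i ih =>
    have h : ∀ n x, (ρ (φ F 351) ^ n) (ρ (φ F 351) x) = ρ (φ F 351) ((ρ (φ F 351) ^ n) x) := fun n x => by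
      rw [← End.mul_apply, ← pow_succ, pow_succ', End.mul_apply]
    rw [pow_succ', End.mul_apply, ← ih, ← S_NS ρ ((ρ (φ F 351) ^ i) v)]
    simp only [NS, map_add, h]

theorem NS_add (v w : V) : NS ρ (v + w) = NS ρ v + NS ρ w := by
  simp only [NS, map_add]
  abel

/-- vectors generating a submodule killed by the norm -/
def Xs : Submodule (ZMod 3) V where
  carrier := {v | ∀ g, NS ρ (ρ g v) = 0}
  add_mem' := fun ha hb g => by rw [map_add, NS_add, ha, hb, add_zero]
  zero_mem' := fun g => by simp [NS]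
  smul_mem' := fun c v hv g => by
    have := congrArg (c • ·) (hv g)
    simpa [NS] using this

theorem Xs_act {v : V} (hv : v ∈ Xs ρ) (g : ProjectiveSpecialLinearGroup (Fin 2) F) : ρ g v ∈ Xs ρ := fun g' => by
  rw [← End.mul_apply, ← map_mul]
  exact hv _

theorem crt {w : V} (hw : ρ (φ F 351) w = w)
    (h : w + ρ (φ F 301) w + ρ (φ F 1885) w + ρ (φ F 301) (ρ (φ F 1885) w) ∈ Xs ρ) : w = 0 := by
  have dc : ∀ l i d j, chk l [E8M.sq i, d, E8M.sq j] = true → NS ρ (ap ρ l w) = NS ρ (ρ (φ F d) w) := fun l i d j e => by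
    rw [W ρ e]
    change NS ρ (ρ (φ F (E8M.sq i)) (ρ (φ F d) (ρ (φ F (E8M.sq j)) w))) = _
    rw [φ_sq, φ_sq, map_pow, map_pow, NS_S, pow_fix hw]
  have hh : ∀ x, NS ρ (ap ρ [x] w) + NS ρ (ap ρ [x, 301] w) + NS ρ (ap ρ [x, 1885] w) + NS ρ (ap ρ [x, 301, 1885] w) = 0 :=
    fun x => by
      have := h (φ F x)
      rwa [map_add, map_add, map_add, NS_add, NS_add, NS_add] at this
  have h1 := hh 344
  have h2 := hh 393
  have h3 := hh 540
  have h4 := hh 1472
  rw [dc _ 0 344 0 (by decide +kernel), dc _ 0 301 0 (by decide +kernel), dc _ 3 161 4 (by decide +kernel),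
    dc _ 2 119 5 (by decide +kernel)] at h1
  rw [dc _ 1 301 1 (by decide +kernel), dc _ 0 301 6 (by decide +kernel), dc _ 6 119 3 (by decide +kernel),
    dc _ 3 301 2 (by decide +kernel)] at h2
  rw [dc _ 2 161 2 (by decide +kernel), dc _ 0 301 3 (by decide +kernel), dc _ 4 161 6 (by decide +kernel),
    dc _ 1 161 1 (by decide +kernel)] at h3
  rw [dc _ 1 119 2 (by decide +kernel), dc _ 0 161 3 (by decide +kernel), dc _ 2 119 6 (by decide +kernel),
    dc _ 4 119 1 (by decide +kernel)] at h4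
  have h5 : NS ρ (ρ (φ F 344) w) = w + w + w + w + w + w + w := by simp [NS, φ_one, pow_fix hw, hw]
  rw [h5] at h1
  linear_combination (norm := abel) h1 - h2 - h3 - h4 - three w - three w + three (NS ρ (ρ (φ F 301) w)) +
    three (NS ρ (ρ (φ F 161) w)) + three (NS ρ (ρ (φ F 119) w))

theorem pt {v : V} (hv : v ∈ fx [ρ (φ F 301), ρ (φ F 1885), ρ (φ F 1487), ρ (φ F 504)]) (g j i : ℕ) (l : List ℕ)
    (h : (l.all (fun x => decide (x ∈ [301, 1885, 1487, 504])) && chk [g, E8M.sq j] (E8M.sq i :: l)) = true) :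
    ρ (φ F g) ((ρ (φ F 351) ^ j) v) = (ρ (φ F 351) ^ i) v := by
  rw [Bool.and_eq_true] at h
  have h1 := W ρ h.2 v
  have h2 : ap ρ l v = v := by
    have := h.1
    clear h h1
    induction l with
    | nil => rfl
    | cons a l ih =>
      rw [List.all_cons, Bool.and_eq_true, decide_eq_true_eq] at this
      change ρ (φ F a) (ap ρ l v) = v
      rw [ih this.2]
      exact mem_fx.1 hv _ (List.mem_map_of_mem (f := fun x => ρ (φ F x)) this.1)
  change ρ (φ F g) (ρ (φ F (E8M.sq j)) v) = ρ (φ F (E8M.sq i)) (ap ρ l v) at h1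
  rwa [h2, φ_sq, φ_sq, map_pow, map_pow] at h1

variable (hF : Fintype.card F = 7) (h0 : ∀ v, (∀ g, ρ g v = v) → v = 0)
include hF h0

theorem NS_eq {v : V} (hv : v ∈ fx [ρ (φ F 301), ρ (φ F 1885), ρ (φ F 1487), ρ (φ F 504)]) : NS ρ v = 0 ∧ v ∈ Xs ρ := by
  have a0 := pt ρ hv 301 0 0 [301] (by decide +kernel)
  have a1 := pt ρ hv 301 1 1 [1885, 504, 504, 1487] (by decide +kernel)
  have a2 := pt ρ hv 301 2 6 [301, 1885, 504, 504, 1487] (by decide +kernel)
  have a3 := pt ρ hv 301 3 3 [301, 1885, 504, 1487] (by decide +kernel)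
  have a4 := pt ρ hv 301 4 5 [1885, 504] (by decide +kernel)
  have a5 := pt ρ hv 301 5 4 [301, 504, 504] (by decide +kernel)
  have a6 := pt ρ hv 301 6 2 [301, 504, 504, 1487] (by decide +kernel)
  have h1 : NS ρ v = 0 := h0 _ fun g => by
    induction g using gen hF with
    | h1 => simp
    | hs g ih => rw [map_mul, End.mul_apply, ih, S_NS]
    | ha g ih =>
      rw [map_mul, End.mul_apply, ih]
      simp only [NS, map_add, a0, a1, a2, a3, a4, a5, a6]
      abel
  have h2 : ∀ g, ∃ i, ρ g v = (ρ (φ F 351) ^ i) v := fun g => by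
    induction g using gen hF with
    | h1 => exact ⟨0, by simp⟩
    | hs g ih =>
      obtain ⟨i, e⟩ := ih
      exact ⟨i + 1, by rw [map_mul, End.mul_apply, e, pow_succ', End.mul_apply]⟩
    | ha g ih =>
      obtain ⟨i, e⟩ := ih
      rw [map_mul, End.mul_apply, e, pow_eq_pow_mod i (S7 ρ)]
      have := Nat.mod_lt i (show 0 < 7 by decide)
      generalize i % 7 = j at this
      interval_cases j
      exacts [⟨_, a0⟩, ⟨_, a1⟩, ⟨_, a2⟩, ⟨_, a3⟩, ⟨_, a4⟩, ⟨_, a5⟩, ⟨_, a6⟩]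
  exact ⟨h1, fun g => by
    obtain ⟨i, e⟩ := h2 g
    rw [e, NS_S, h1]⟩

theorem partII : dm ⊤ (ρ (φ F 351)) 1 + 3 * finrank (ZMod 3) (fx [ρ (φ F 301), ρ (φ F 1885), ρ (φ F 1487), ρ (φ F 504)]) ≤
    finrank (ZMod 3) (fx [ρ (φ F 301), ρ (φ F 1885)]) := by
  have hAA : ∀ v, ρ (φ F 301) (ρ (φ F 301) v) = v := W ρ (l := [301, 301]) (l' := []) (by decide +kernel)
  have hBB : ∀ v, ρ (φ F 1885) (ρ (φ F 1885) v) = v := W ρ (l := [1885, 1885]) (l' := []) (by decide +kernel)
  have hBA : ∀ v, ρ (φ F 1885) (ρ (φ F 301) v) = ρ (φ F 301) (ρ (φ F 1885) v) :=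
    W ρ (l := [1885, 301]) (l' := [301, 1885]) (by decide +kernel)
  have hAU : ∀ v, ρ (φ F 301) (ρ (φ F 504) v) = ρ (φ F 504) (ρ (φ F 301) (ρ (φ F 1885) v)) :=
    W ρ (l := [301, 504]) (l' := [504, 301, 1885]) (by decide +kernel)
  have hBU : ∀ v, ρ (φ F 1885) (ρ (φ F 504) v) = ρ (φ F 504) (ρ (φ F 301) v) :=
    W ρ (l := [1885, 504]) (l' := [504, 301]) (by decide +kernel)
  have hU3 : ∀ v, ρ (φ F 504) (ρ (φ F 504) (ρ (φ F 504) v)) = v := W ρ (l := [504, 504, 504]) (l' := []) (by decide +kernel)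
  have hx := fun v hv => (NS_eq ρ hF h0 (v := v) hv).2
  have hc := fun w => crt ρ (w := w)
  have hxa := fun v hv => Xs_act ρ (v := v) hv (φ F 504)
  have hz : ∀ v ∈ fx [ρ (φ F 301), ρ (φ F 1885), ρ (φ F 1487), ρ (φ F 504)], ∀ z,
      z = (-(ρ (φ F 351) ^ 1 + ρ (φ F 351) ^ 3)) v → ρ (φ F 301) z = z ∧ ρ (φ F 1885) z = z ∧
        z + ρ (φ F 504) z + ρ (φ F 504) (ρ (φ F 504) z) = v ∧ z ∈ Xs ρ := by
    rintro v hv _ rfl
    have a1 := pt ρ hv 301 1 1 [1885, 504, 504, 1487] (by decide +kernel)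
    have a3 := pt ρ hv 301 3 3 [301, 1885, 504, 1487] (by decide +kernel)
    have b1 := pt ρ hv 1885 1 3 [504] (by decide +kernel)
    have b3 := pt ρ hv 1885 3 1 [504, 504] (by decide +kernel)
    have u1 := pt ρ hv 504 1 6 [504, 1487] (by decide +kernel)
    have u2 := pt ρ hv 504 2 5 [504, 504] (by decide +kernel)
    have u3 := pt ρ hv 504 3 2 [1885, 504, 1487] (by decide +kernel)
    have u6 := pt ρ hv 504 6 4 [1885] (by decide +kernel)
    have h1 := (NS_eq ρ hF h0 hv).1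
    simp only [LinearMap.neg_apply, LinearMap.add_apply, map_neg, map_add, a1, a3, b1, b3, u1, u2, u3, u6, true_and]
    refine ⟨by rw [add_comm], ?_, neg_mem (add_mem ?_ ?_)⟩
    · rw [NS, pow_zero, End.one_apply] at h1
      linear_combination (norm := abel) -h1
    · exact map_pow ρ _ 1 ▸ Xs_act ρ (hx v hv) _
    · exact map_pow ρ _ 3 ▸ Xs_act ρ (hx v hv) _
  have hP : ∀ v ∈ fx [ρ (φ F 301), ρ (φ F 1885), ρ (φ F 1487), ρ (φ F 504)],
      ρ (φ F 301) v = v ∧ ρ (φ F 1885) v = v ∧ ρ (φ F 1487) v = v ∧ ρ (φ F 504) v = v := fun v hv => by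
    simpa [mem_fx] using hv
  rw [dm]
  revert hAA hBB hBA hAU hBU hU3 hx hc hxa hz hP
  generalize fx [ρ (φ F 301), ρ (φ F 1885), ρ (φ F 1487), ρ (φ F 504)] = P
  generalize -(ρ (φ F 351) ^ 1 + ρ (φ F 351) ^ 3) = Z
  generalize ρ (φ F 301) = A, ρ (φ F 1885) = B, ρ (φ F 1487) = T, ρ (φ F 504) = U, ρ (φ F 351) = S, Xs ρ = X
  intro hAA hBB hBA hAU hBU hU3 hx hc hxa hz hP
  have h := finrank_le_add (V := ↥(⊤ ⊓ S.eigenspace 1) × P × P × P) ⊤ ⊥ (fx [A, B])
    (((1 + A + B + A * B) ∘ₗ Submodule.subtype _).coprod ((Z ∘ₗ P.subtype).coprod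
      ((((U - 1) * Z) ∘ₗ P.subtype).coprod P.subtype))) ?_ ?_
  · simp only [finrank_top, finrank_prod, finrank_bot] at h
    omega
  · rintro ⟨w, x, y, z⟩ -
    have h1 := hz _ x.2 _ rfl
    have h2 := hz _ y.2 _ rfl
    have h3 := hP _ z.2
    simp only [mem_fx, List.forall_mem_cons, List.not_mem_nil, false_imp_iff, implies_true, and_true,
      LinearMap.coprod_apply, LinearMap.comp_apply, Submodule.subtype_apply, LinearMap.add_apply, LinearMap.sub_apply,
      End.mul_apply, End.one_apply, map_add, map_sub, hAA, hBB, hBA, hAU, hBU, h1.1, h1.2.1, h2.1, h2.2.1, h3.1, h3.2.1]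
    constructor <;> abel
  · rintro ⟨⟨w, hw⟩, ⟨x, hx'⟩, ⟨y, hy⟩, ⟨z, hz'⟩⟩ - e
    have h1 := hz _ hx' _ rfl
    have h2 := hz _ hy _ rfl
    have h3 := hP _ hz'
    simp only [LinearMap.coprod_apply, LinearMap.comp_apply, Submodule.subtype_apply, LinearMap.add_apply,
      LinearMap.sub_apply, End.mul_apply, End.one_apply] at e
    obtain rfl : w = 0 := hc w (mem_eig.1 hw) (by
      rw [eq_neg_of_add_eq_zero_left e]
      exact neg_mem (add_mem h1.2.2.2 (add_mem (sub_mem (hxa _ h2.2.2.2) h2.2.2.2) (hx _ hz'))))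
    simp only [map_zero, zero_add] at e
    have e1 := congrArg U e
    have e2 := congrArg U e1
    simp only [map_add, map_sub, map_zero, hU3, h3.2.2.2] at e1 e2
    obtain rfl : x = 0 := by linear_combination (norm := abel) e + e1 + e2 - h1.2.2.1 - three z
    simp only [map_zero, zero_add] at e e1
    obtain rfl : y = 0 := by linear_combination (norm := abel) e1 - e - h2.2.2.1 + three (U (Z y))
    simp only [map_zero, zero_add, sub_zero] at e
    subst e
    rfl

omit h0 [CharP F 7] in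
theorem main (h : Fac ρ) (h7 : ∀ x, x ^ 7 = 1 → 33 ≤ dm ⊤ (ρ x) 1) (β : LinearMap.BilinForm (ZMod 3) V)
    (hn : ∀ v, (∀ w, β v w = 0) → v = 0) (hi : ∀ g v w, β (ρ g v) (ρ g w) = β v w) : ∃ v ≠ 0, ∀ g, ρ g v = v := by
  have : Fact (Nat.Prime 7) := ⟨by decide⟩
  have : CharP F 7 := charP_of_card_eq_prime hF
  by_contra hc
  have h1 := partII ρ hF fun v hv => by_contra fun h => hc ⟨v, h, hv⟩
  have h2 := partI (A := ρ (φ F 301)) (B := ρ (φ F 1885)) (T := ρ (φ F 1487)) (U := ρ (φ F 504)) β hn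
    (W ρ (l := [301, 301]) (l' := []) (by decide +kernel)) (W ρ (l := [1885, 1885]) (l' := []) (by decide +kernel))
    (W ρ (l := [1487, 1487]) (l' := []) (by decide +kernel)) (W ρ (l := [504, 504, 504]) (l' := []) (by decide +kernel))
    (W ρ (l := [1885, 301]) (l' := [301, 1885]) (by decide +kernel))
    (W ρ (l := [301, 1487]) (l' := [1487, 301]) (by decide +kernel))
    (W ρ (l := [1885, 1487]) (l' := [1487, 301, 1885]) (by decide +kernel))
    (W ρ (l := [301, 504]) (l' := [504, 301, 1885]) (by decide +kernel))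
    (W ρ (l := [1885, 504]) (l' := [504, 301]) (by decide +kernel))
    (W ρ (l := [1487, 504]) (l' := [504, 504, 1487]) (by decide +kernel)) (hi _) (hi _) (hi _) (hi _)
  have h3 := h7 _ s_seven
  have h4 := card_mod7 _ (S7 ρ)
  have R : ∀ l l', chk l l' = true → (l.map fun x => ρ (φ F x)).prod = (l'.map fun x => ρ (φ F x)).prod := fun l l' e => by
    simpa [map_list_prod, List.map_map, Function.comp_def] using congrArg ρ (rel (F := F) e)
  have C : ∀ l l' g, chk (l ++ [g]) (g :: l') = true →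
      tau ⊤ (l.map fun x => ρ (φ F x)).prod = tau ⊤ (l'.map fun x => ρ (φ F x)).prod := fun l l' g e => by
    have := dm_conj ρ (a := (l.map (φ F)).prod) (g := φ F g) (b := (l'.map (φ F)).prod) (by simpa using rel (F := F) e)
    simp only [map_list_prod, List.map_map] at this
    rw [tau, tau]
    exact congrArg₂ _ (congrArg _ (this 1)) (congrArg _ (this (-1)))
  have r1 := R [301, 301] [] (by decide +kernel)
  have r2 := R [1885, 1885] [] (by decide +kernel)
  have r3 := R [1487, 1487] [] (by decide +kernel)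
  have r4 := R [1885, 301] [301, 1885] (by decide +kernel)
  have r5 := R [1487, 301] [301, 1487] (by decide +kernel)
  have r6 := R [1487, 1885] [1885, 1487, 301] (by decide +kernel)
  have c1 := C [1487] [301] 2177 (by decide +kernel)
  have c2 := C [1885] [301] 504 (by decide +kernel)
  have c3 := C [301, 1487] [301] 2219 (by decide +kernel)
  have c4 := C [301, 1885] [301] 462 (by decide +kernel)
  have c5 := C [301, 1885, 1487] [1885, 1487] 1885 (by decide +kernel)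
  have e1 := rel (F := F) (l := [1885, 1487, 1885, 1487]) (l' := [301]) (by decide +kernel)
  have e2 := rel (F := F) (l := [301, 301]) (l' := []) (by decide +kernel)
  have e3 := nrel (F := F) (l := [301]) (l' := []) (by decide +kernel)
  simp only [List.map_cons, List.map_nil, List.prod_cons, List.prod_nil, mul_one] at r1 r2 r3 r4 r5 r6 c1 c2 c3 c4 c5 e1 e2 e3
  have e4 : (φ F 1885 * φ F 1487) ^ 2 = φ F 301 := by rw [← e1, pow_two, mul_assoc]
  have e5 : (φ F 1885 * φ F 1487) ^ 4 = 1 := by rw [show 4 = 2 * 2 from rfl, pow_mul, e4, pow_two, e2]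
  have h5 := h.e2 (φ F 1885 * φ F 1487) (by rw [show 8 = 4 * 2 from rfl, pow_mul, e5, one_pow])
  have h6 := h.tau_ne e3
  have h8 := h.tau_one
  rw [e4, e5, h8, map_mul] at h5
  rw [map_one] at h8
  have k1 := chain_sum (k := ZMod 3) (by decide) [ρ (φ F 301), ρ (φ F 1885)] [1] ⊤ (by simp) (by simp)
    (by simp [Chain, r1, r2, r4])
  have k2 := chain_sum (k := ZMod 3) (by decide) [ρ (φ F 301), ρ (φ F 1885), ρ (φ F 1487)] [1] ⊤ (by simp) (by simp)
    (by simp [Chain, r1, r2, r3, r4, r5, r6, mul_assoc])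
  have k3 := chain_sum (k := ZMod 3) (by decide) [ρ (φ F 301), ρ (φ F 1885), -ρ (φ F 1487)] [1] ⊤ (by simp) (by simp)
    (by simp [Chain, r1, r2, r3, r4, r5, r6, mul_assoc])
  rw [top_inf_eq] at k1 k2 k3
  simp only [els, List.map_cons, List.map_nil, List.cons_append, List.nil_append, List.sum_cons, List.sum_nil, mul_one,
    mul_neg, tau_neg, c1, c2, c3, c4, c5, h8, List.length_cons, List.length_nil] at k1 k2 k3
  rw [h.dim] at h4
  have h9 : 38 ≤ dm ⊤ (ρ (φ F 351)) 1 := by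
    by_contra h9
    generalize dm ⊤ (ρ (φ F 351)) 1 = m at h3 h4 h9
    have : m < 38 := by omega
    interval_cases m <;> revert h4 <;> decide
  simp only [L8, List.mem_cons, Prod.mk.injEq, List.not_mem_nil, or_false] at h5
  omega

end Cfsg.Agent.H2.E8L

theorem Cfsg.Agent.H2.E8L.main' {F : Type*} [Field F] [Fintype F] (hF : Fintype.card F = 7) {V : Type*} [AddCommGroup V]
    [Module (ZMod 3) V] [FiniteDimensional (ZMod 3) V]
    (ρ : Matrix.ProjectiveSpecialLinearGroup (Fin 2) F →* Module.End (ZMod 3) V) (h : Cfsg.Agent.H4.T8.Fac ρ)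
    (h7 : ∀ x, x ^ 7 = 1 → 33 ≤ Cfsg.Agent.H4.T8.dm ⊤ (ρ x) 1) (β : LinearMap.BilinForm (ZMod 3) V)
    (_hs : ∀ v w, β v w = β w v) (hn : ∀ v, (∀ w, β v w = 0) → v = 0) (hi : ∀ g v w, β (ρ g v) (ρ g w) = β v w) :
    ∃ v ≠ 0, ∀ g, ρ g v = v :=
  Cfsg.Agent.H2.E8L.main ρ hF h h7 β hn hi
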