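import Cfsg.Agent.H4.BP

/-!
A coded model of `PSL₂(13)`.
-/

set_option autoImplicit false
set_option maxRecDepth 100000
set_option linter.unusedSectionVars false

namespace Cfsg.Agent.H2.LM

open Matrix Cfsg.Agent.H4.BP

/-- product of codes -/
noncomputable def mu (x y : ℕ) : ℕ := force x fun x => force y fun y =>
  (x % 13 * (y % 13) + x / 13 % 13 * (y / 169 % 13)) % 13 + 13 * ((x % 13 * (y / 13 % 13) + x / 13 % 13 * (y / 2197 % 13)) % 13) +
    169 * ((x / 169 % 13 * (y % 13) + x / 2197 % 13 * (y / 169 % 13)) % 13) +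
    2197 * ((x / 169 % 13 * (y / 13 % 13) + x / 2197 % 13 * (y / 2197 % 13)) % 13)

/-- determinant one -/
def vb (x : ℕ) : Bool := Nat.beq (x % 13 * (x / 2197 % 13) % 13) ((1 + x / 13 % 13 * (x / 169 % 13)) % 13)

/-- equality up to sign -/
noncomputable def eqv (x y : ℕ) : Bool := force x fun x => force y fun y => Nat.beq x y || Nat.beq x (mu 26376 y)

/-- product of a word -/
noncomputable def prd (l : List ℕ) : ℕ := l.foldr mu 2198

/-- check of a relation -/
noncomputable def chk (l l' : List ℕ) : Bool := l.all vb && l'.all vb && eqv (prd l) (prd l')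

/-- upper unitriangular matrices -/
def sq (i : ℕ) : ℕ := 2198 + 13 * (i % 13)

variable (F : Type*) [Field F]

/-- the matrix of a code -/
def T (x : ℕ) : Matrix (Fin 2) (Fin 2) F :=
  !![((x % 13 : ℕ) : F), ((x / 13 % 13 : ℕ) : F); ((x / 169 % 13 : ℕ) : F), ((x / 2197 % 13 : ℕ) : F)]

/-- the unimodular matrix of a code -/
def sl (x : ℕ) (h : (T F x).det = 1) : SpecialLinearGroup (Fin 2) F := ⟨T F x, h⟩

open Classical in
/-- the element of a code -/
noncomputable def φ (x : ℕ) : ProjectiveSpecialLinearGroup (Fin 2) F :=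
  if h : (T F x).det = 1 then QuotientGroup.mk (sl F x h) else 1

theorem mu_lt (x y : ℕ) : mu x y < 28561 := by
  simp only [mu, force_eq]
  omega

theorem prd_lt (l : List ℕ) : prd l < 28561 := by
  cases l with
  | nil => decide
  | cons a l => exact mu_lt _ _

variable {F} [CharP F 13]

theorem T_mu (x y : ℕ) : T F (mu x y) = T F x * T F y := by
  simp only [mu, force_eq, T]
  generalize x % 13 = a, x / 13 % 13 = b, x / 169 % 13 = c, x / 2197 % 13 = d, y % 13 = a', y / 13 % 13 = b', y / 169 % 13 = c',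
    y / 2197 % 13 = d'
  have h : ∀ A B C D : ℕ, (A % 13 + 13 * (B % 13) + 169 * (C % 13) + 2197 * (D % 13)) % 13 = A % 13 ∧
      (A % 13 + 13 * (B % 13) + 169 * (C % 13) + 2197 * (D % 13)) / 13 % 13 = B % 13 ∧
      (A % 13 + 13 * (B % 13) + 169 * (C % 13) + 2197 * (D % 13)) / 169 % 13 = C % 13 ∧
      (A % 13 + 13 * (B % 13) + 169 * (C % 13) + 2197 * (D % 13)) / 2197 % 13 = D % 13 := fun A B C D => by omega
  rw [(h ..).1, (h ..).2.1, (h ..).2.2.1, (h ..).2.2.2]
  simp only [← CharP.cast_eq_mod F 13]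
  simp [Matrix.mul_fin_two]

theorem vb_iff {x : ℕ} : vb x = true ↔ (T F x).det = 1 := by
  rw [vb, Nat.beq_eq, T, det_fin_two_of, sub_eq_iff_eq_add]
  refine (CharP.natCast_eq_natCast F 13 (a := x % 13 * (x / 2197 % 13)) (b := 1 + x / 13 % 13 * (x / 169 % 13))).symm.trans ?_
  push_cast
  rfl

theorem T_inj {x y : ℕ} (hx : x < 28561) (hy : y < 28561) (h : T F x = T F y) : x = y := by
  have h1 := (CharP.natCast_eq_natCast F 13).1 (congrFun (congrFun h 0) 0)
  have h2 := (CharP.natCast_eq_natCast F 13).1 (congrFun (congrFun h 0) 1)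
  have h3 := (CharP.natCast_eq_natCast F 13).1 (congrFun (congrFun h 1) 0)
  have h4 := (CharP.natCast_eq_natCast F 13).1 (congrFun (congrFun h 1) 1)
  simp only [Nat.ModEq] at h1 h2 h3 h4
  omega

theorem T_one : T F 2198 = 1 := by
  ext i j
  fin_cases i <;> fin_cases j <;> simp [T]

theorem T_neg : T F 26376 = -1 := by
  have h : (12 : F) = -1 := by
    have : (13 : F) = 0 := by simpa using CharP.cast_eq_zero F 13
    linear_combination this
  ext i j
  fin_cases i <;> fin_cases j <;> simp [T, h]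

theorem vb_mu {x y : ℕ} (hx : vb x = true) (hy : vb y = true) : vb (mu x y) = true := by
  have : Fact (Nat.Prime 13) := ⟨by decide⟩
  rw [vb_iff (F := ZMod 13)] at *
  rw [T_mu, det_mul, hx, hy, one_mul]

theorem φ_mu {x y : ℕ} (hx : vb x = true) (hy : vb y = true) : φ F (mu x y) = φ F x * φ F y := by
  have h := vb_mu hx hy
  rw [vb_iff (F := F)] at *
  rw [φ, φ, φ, dif_pos hx, dif_pos hy, dif_pos h, ← QuotientGroup.mk_mul]
  exact congrArg _ (Subtype.ext (T_mu x y))

theorem mk_eq_iff {X Y : SpecialLinearGroup (Fin 2) F} :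
    (QuotientGroup.mk X : ProjectiveSpecialLinearGroup (Fin 2) F) = QuotientGroup.mk Y ↔ X.1 = Y.1 ∨ X.1 = -Y.1 := by
  rw [eq_comm, QuotientGroup.eq, Matrix.SpecialLinearGroup.mem_center_iff]
  constructor
  · rintro ⟨r, h1, h2⟩
    have h3 : X.1 = Y.1 * scalar (Fin 2) r := by
      rw [h2, ← Matrix.SpecialLinearGroup.coe_mul, mul_inv_cancel_left]
    rw [Fintype.card_fin, sq_eq_one_iff] at h1
    rcases h1 with rfl | rfl
    · exact Or.inl (by simpa using h3)
    · exact Or.inr (by rwa [map_neg, map_one, mul_neg, mul_one] at h3)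
  · rintro (h | h)
    · exact ⟨1, by simp, by rw [Subtype.ext h]; simp⟩
    · refine ⟨-1, by simp, ?_⟩
      rw [Matrix.SpecialLinearGroup.coe_mul, h, mul_neg, ← Matrix.SpecialLinearGroup.coe_mul, map_neg, map_one]
      simp

theorem φ_eq_iff {x y : ℕ} (hx : vb x = true) (hy : vb y = true) :
    φ F x = φ F y ↔ T F x = T F y ∨ T F x = -T F y := by
  rw [vb_iff (F := F)] at *
  rw [φ, φ, dif_pos hx, dif_pos hy]
  exact mk_eq_iff

theorem φ_one : φ F 2198 = 1 := by
  rw [φ, dif_pos (by rw [T_one, det_one]), ← QuotientGroup.mk_one]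
  exact congrArg _ (Subtype.ext T_one)

theorem φ_prd {l : List ℕ} (h : l.all vb = true) : vb (prd l) = true ∧ φ F (prd l) = (l.map (φ F)).prod := by
  induction l with
  | nil => exact ⟨by decide, φ_one⟩
  | cons a l ih =>
    rw [List.all_cons, Bool.and_eq_true] at h
    exact ⟨vb_mu h.1 (ih h.2).1, by
      rw [List.map_cons, List.prod_cons, ← (ih h.2).2, ← φ_mu h.1 (ih h.2).1]; rfl⟩

theorem eqv_iff {x y : ℕ} (hx : vb x = true) (hy : vb y = true) (hx' : x < 28561) (hy' : y < 28561) :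
    eqv x y = true ↔ φ F x = φ F y := by
  rw [φ_eq_iff hx hy, eqv, force_eq, force_eq, Bool.or_eq_true, Nat.beq_eq, Nat.beq_eq]
  refine or_congr ⟨fun h => by rw [h], T_inj hx' hy'⟩ ⟨fun h => by rw [h, T_mu, T_neg, neg_one_mul], fun h => ?_⟩
  exact T_inj (F := F) hx' (mu_lt ..) (by rw [h, T_mu, T_neg, neg_one_mul])

theorem chk_iff {l l' : List ℕ} (h : l.all vb = true) (h' : l'.all vb = true) :
    chk l l' = true ↔ (l.map (φ F)).prod = (l'.map (φ F)).prod := by
  rw [chk, h, h', Bool.true_and, Bool.true_and, eqv_iff (F := F) (φ_prd (F := F) h).1 (φ_prd (F := F) h').1 (prd_lt _)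
    (prd_lt _), (φ_prd h).2, (φ_prd h').2]

theorem rel {l l' : List ℕ} (h : chk l l' = true) : (l.map (φ F)).prod = (l'.map (φ F)).prod := by
  have h1 := h
  rw [chk, Bool.and_eq_true, Bool.and_eq_true] at h1
  exact (chk_iff h1.1.1 h1.1.2).1 h

theorem nrel {l l' : List ℕ} (h : (l.all vb && l'.all vb && !chk l l') = true) :
    (l.map (φ F)).prod ≠ (l'.map (φ F)).prod := fun e => by
  rw [Bool.and_eq_true, Bool.and_eq_true] at h
  simp [(chk_iff h.1.1 h.1.2).2 e] at h

theorem c_sq : allLt (fun i => chk [sq (i + 1)] [2211, sq i]) 13 = true := by decide +kernel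

theorem φ_sq (i : ℕ) : φ F (sq i) = φ F 2211 ^ i := by
  induction i with
  | zero => exact (φ_one (F := F)).trans (pow_zero _).symm
  | succ i ih =>
    have := rel (F := F) (allLt_spec c_sq (i % 13) (Nat.mod_lt _ (by decide)))
    rw [show sq (i % 13 + 1) = sq (i + 1) by simp [sq], show sq (i % 13) = sq i by simp [sq]] at this
    simpa [ih, pow_succ'] using this

theorem u_pow : φ F 2211 ^ 13 = 1 := (φ_sq 13).symm.trans φ_one

theorem surj [Fintype F] (hF : Fintype.card F = 13) (g : ProjectiveSpecialLinearGroup (Fin 2) F) :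
    ∃ x < 28561, vb x = true ∧ φ F x = g := by
  obtain ⟨X, rfl⟩ := QuotientGroup.mk_surjective g
  have h : ∀ r : F, ∃ n : ℕ, n < 13 ∧ (n : F) = r := fun r => by
    obtain ⟨n, rfl⟩ := (ZMod.castHom_bijective F hF).2 r
    exact ⟨n.val, n.val_lt, by simp⟩
  obtain ⟨a, ha, ha'⟩ := h (X.1 0 0)
  obtain ⟨b, hb, hb'⟩ := h (X.1 0 1)
  obtain ⟨c, hc, hc'⟩ := h (X.1 1 0)
  obtain ⟨d, hd, hd'⟩ := h (X.1 1 1)
  have h1 : T F (a + 13 * b + 169 * c + 2197 * d) = X.1 := by
    rw [T, show (a + 13 * b + 169 * c + 2197 * d) % 13 = a by omega, show (a + 13 * b + 169 * c + 2197 * d) / 13 % 13 = b by omega,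
      show (a + 13 * b + 169 * c + 2197 * d) / 169 % 13 = c by omega,
      show (a + 13 * b + 169 * c + 2197 * d) / 2197 % 13 = d by omega, ha', hb', hc', hd']
    exact (Matrix.eta_fin_two _).symm
  have h2 : (T F (a + 13 * b + 169 * c + 2197 * d)).det = 1 := h1 ▸ X.2
  exact ⟨_, by omega, vb_iff.2 h2, by rw [φ, dif_pos h2]; exact congrArg _ (Subtype.ext h1)⟩

/-- Bruhat word -/
def wd (x : ℕ) : List ℕ := [sq ((x % 13 + 12) * (x / 169 % 13) ^ 11), 2041, sq (13 - x / 169 % 13), 2041,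
  sq ((x / 2197 % 13 + 12) * (x / 169 % 13) ^ 11)]

theorem c_gen : allLt (fun x => !vb x || chk [x] (wd x) || force (mu 2041 x) fun y => chk [x] (2041 :: wd y)) 28561 = true := by
  decide +kernel

theorem gen [Fintype F] (hF : Fintype.card F = 13) {p : ProjectiveSpecialLinearGroup (Fin 2) F → Prop} (h1 : p 1)
    (hs : ∀ g, p g → p (φ F 2211 * g)) (ha : ∀ g, p g → p (φ F 2041 * g)) (g : ProjectiveSpecialLinearGroup (Fin 2) F) :
    p g := by
  have h2 : ∀ i g, p g → p (φ F (sq i) * g) := fun i g hg => by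
    rw [φ_sq]
    induction i with
    | zero => simpa using hg
    | succ i ih => rw [pow_succ', mul_assoc]; exact hs _ ih
  have h3 : ∀ x, p ((wd x).map (φ F)).prod := fun x => h2 _ _ (ha _ (h2 _ _ (ha _ (h2 _ _ h1))))
  obtain ⟨x, hx, hv, rfl⟩ := surj hF g
  have h4 := allLt_spec c_gen x hx
  simp only [hv, Bool.not_true, Bool.false_or, Bool.or_eq_true, force_eq] at h4
  rcases h4 with h | h
  · have := rel (F := F) h
    rw [List.map_singleton, List.prod_singleton] at this
    exact this ▸ h3 x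
  · have := rel (F := F) h
    rw [List.map_singleton, List.prod_singleton] at this
    exact this ▸ ha _ (h3 _)

end Cfsg.Agent.H2.LM
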