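import Cfsg.Agent.H2.LL1
import Cfsg.Agent.H2.LM

/-!
`PSL₂(13)` fixes a vector of the adjoint module of `E₈(3)`.
-/

set_option autoImplicit false
set_option linter.unusedSectionVars false
set_option linter.unusedVariables false
set_option maxRecDepth 100000

namespace Cfsg.Agent.H2.LL

open Module Finset Cfsg.Agent.H4.T8 Cfsg.Agent.H4.BP

universe u

section lin

variable {k V : Type*} [Field k] [AddCommGroup V] [Module k V] [FiniteDimensional k V]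

theorem disj_le {A B C : Submodule k V} (h1 : A ≤ C) (h2 : B ≤ C) (h : ∀ v ∈ A, v ∈ B → v = 0) :
    finrank k A + finrank k B ≤ finrank k C := by
  rw [← Submodule.finrank_sup_add_finrank_inf_eq, (Submodule.disjoint_def.2 h).eq_bot, finrank_bot]
  exact Submodule.finrank_mono (sup_le h1 h2)

theorem rk (g : End k V) : finrank k (LinearMap.range (g - 1)) + dm ⊤ g 1 = finrank k V := by
  rw [← (g - 1).finrank_range_add_finrank_ker, dm,
    show LinearMap.ker (g - 1) = ⊤ ⊓ g.eigenspace 1 by ext v; simp [sub_eq_zero]]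

theorem add_le (A X : Submodule k V) (XA : Submodule k A) (XQ : Submodule k (V ⧸ A))
    (h1 : ∀ v : A, v.1 ∈ X → v ∈ XA) (h2 : ∀ v ∈ X, A.mkQ v ∈ XQ) : finrank k X ≤ finrank k XA + finrank k XQ := by
  have := finrank_le_add X (XA.map A.subtype) XQ A.mkQ h2 fun v hv e =>
    ⟨⟨v, by simpa using e⟩, h1 _ hv, rfl⟩
  rw [Submodule.finrank_map_subtype_eq] at this
  omega

theorem add_ge (A X : Submodule k V) (XA : Submodule k A) (XQ : Submodule k (V ⧸ A))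
    (h1 : ∀ v ∈ XA, v.1 ∈ X) (h2 : ∀ y ∈ XQ, ∃ v ∈ X, A.mkQ v = y) : finrank k XA + finrank k XQ ≤ finrank k X := by
  rw [← (A.mkQ ∘ₗ X.subtype).finrank_range_add_finrank_ker, add_comm]
  refine add_le_add (Submodule.finrank_mono fun y hy => ?_) ?_
  · obtain ⟨v, hv, rfl⟩ := h2 y hy
    exact ⟨⟨v, hv⟩, rfl⟩
  · refine LinearMap.finrank_le_finrank_of_injective (f := LinearMap.codRestrict _
      ((A.subtype ∘ₗ XA.subtype).codRestrict X fun v => h1 _ v.2)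
      fun v => (Submodule.Quotient.mk_eq_zero A).2 v.1.2) fun a b e => ?_
    exact Subtype.ext (Subtype.ext (congrArg (fun x => x.1.1) e))

end lin

variable {G : Type*} [Group G] (R : R13 G)

section

variable {V : Type u} [AddCommGroup V] [Module (ZMod 3) V] [FiniteDimensional (ZMod 3) V] (ρ : G →* End (ZMod 3) V)

theorem YW {v : V} (h : v ∈ LinearMap.range (ρ R.u - 1)) (h' : ρ R.u v = v) : v = 0 := by
  obtain ⟨y, rfl⟩ := h
  rw [← Efix R ρ h', LinearMap.sub_apply, map_sub, Eu, End.one_apply, sub_self]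

theorem Y_pow (n : ℕ) (y : V) : ρ (R.u ^ n) y - y ∈ LinearMap.range (ρ R.u - 1) := by
  induction n with
  | zero => simp
  | succ n ih =>
    have := Submodule.add_mem _ (LinearMap.mem_range_self (ρ R.u - 1) (ρ (R.u ^ n) y)) ih
    rwa [LinearMap.sub_apply, End.one_apply, sub_add_sub_cancel, ← mu, ← pow_succ'] at this

theorem scott (hs : ∀ A : Submodule (ZMod 3) V, (∀ g, A ≤ A.comap (ρ g)) → A = ⊥ ∨ A = ⊤)
    (h0 : ¬ ∀ g v, ρ g v = v) :
    dm ⊤ (ρ R.x) 1 + dm ⊤ (ρ R.t) 1 + dm ⊤ (ρ (R.x * R.t)) 1 ≤ finrank (ZMod 3) V := by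
  have h1 : ∀ v, ρ R.x v = v → ρ R.t v = v → v = 0 := fun v a1 a2 => by
    let A : Submodule (ZMod 3) V := ⨅ g, LinearMap.ker (ρ g - 1)
    have mA : ∀ v, v ∈ A ↔ ∀ g, ρ g v = v := fun v => by simp [A, sub_eq_zero]
    have := (hs A fun g v hv => by rw [Submodule.mem_comap, (mA v).1 hv]; exact hv).resolve_right fun e =>
      h0 fun g v => (mA v).1 (e.ge trivial) g
    rw [← Submodule.mem_bot (ZMod 3), ← this, mA]
    exact R.gen' (fun g => ρ g v = v) (by simp) (fun g e => by rw [mu, e, a1]) fun g e => by rw [mu, e, a2]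
  have h2 : LinearMap.range (ρ R.x - 1) ⊔ LinearMap.range (ρ R.t - 1) = ⊤ := by
    obtain ⟨B, hB⟩ : ∃ B, B = LinearMap.range (ρ R.x - 1) ⊔ LinearMap.range (ρ R.t - 1) := ⟨_, rfl⟩
    have b1 : ∀ v, ρ R.x v - v ∈ B := fun v => hB ▸ Submodule.mem_sup_left ⟨v, rfl⟩
    have b2 : ∀ v, ρ R.t v - v ∈ B := fun v => hB ▸ Submodule.mem_sup_right ⟨v, rfl⟩
    have a1 := R.gen' (fun g => ∀ v, ρ g v - v ∈ B) (by simp)
      (fun g e v => by rw [mu, ← sub_add_sub_cancel _ (ρ g v)]; exact B.add_mem (b1 _) (e v))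
      fun g e v => by rw [mu, ← sub_add_sub_cancel _ (ρ g v)]; exact B.add_mem (b2 _) (e v)
    rw [← hB]
    refine (hs _ fun g v hv => ?_).resolve_left fun e => h0 fun g v => sub_eq_zero.1 ?_
    · rw [Submodule.mem_comap, ← sub_add_cancel (ρ g v) v]; exact B.add_mem (a1 g v) hv
    · rw [← Submodule.mem_bot (ZMod 3), ← e]; exact a1 g v
  have h4 := Submodule.finrank_sup_add_finrank_inf_eq (LinearMap.range (ρ R.x - 1)) (LinearMap.range (ρ R.t - 1))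
  rw [h2, finrank_top] at h4
  have h5 : dm ⊤ (ρ (R.x * R.t)) 1 ≤ _ := finrank_le_one (⊤ ⊓ (ρ (R.x * R.t)).eigenspace 1)
    (LinearMap.range (ρ R.x - 1) ⊓ LinearMap.range (ρ R.t - 1)) (ρ R.t - 1)
    (fun v hv => ⟨⟨-ρ R.t v, by
      rw [LinearMap.sub_apply, LinearMap.sub_apply, map_neg, ← mu, mem_eig.1 hv, End.one_apply, End.one_apply]
      abel⟩, v, rfl⟩) fun v hv e => by
      have a1 : ρ R.t v = v := sub_eq_zero.1 e
      have a2 := mem_eig.1 hv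
      rw [mu, a1] at a2
      exact h1 v a2 a1
  have := rk (ρ R.x)
  have := rk (ρ R.t)
  omega

theorem tcount (hs : ∀ A : Submodule (ZMod 3) V, (∀ g, A ≤ A.comap (ρ g)) → A = ⊥ ∨ A = ⊤) :
    finrank (ZMod 3) V + 2 * dm ⊤ (ρ R.u) 1 ≤ 3 * dm ⊤ (ρ R.t) 1 := by
  have h6 := finrank_le_three (LinearMap.range (ρ R.u - 1))
    (LinearMap.range (ρ R.u - 1) ⊓ (⊤ ⊓ (ρ R.t).eigenspace 1)) (ρ R.t - 1)
    (by
      rintro _ ⟨y, rfl⟩
      refine Submodule.sub_mem _ ?_ ⟨y, rfl⟩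
      rw [LinearMap.sub_apply, map_sub, ← mu, R.tu, mu]
      exact Y_pow R ρ 3 _)
    (fun v hv e => ⟨hv, mem_eig.2 (sub_eq_zero.1 e)⟩) fun v _ => by
      simp only [LinearMap.sub_apply, End.one_apply, map_sub, ttt]
      linear_combination (norm := abel) h3 (ρ R.t v) - h3 (ρ R.t (ρ R.t v))
  have h7 : _ + dm ⊤ (ρ R.u) 1 ≤ dm ⊤ (ρ R.t) 1 :=
    disj_le (A := LinearMap.range (ρ R.u - 1) ⊓ (⊤ ⊓ (ρ R.t).eigenspace 1))
    (B := ⊤ ⊓ (ρ R.u).eigenspace 1) (C := ⊤ ⊓ (ρ R.t).eigenspace 1) inf_le_right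
    (fun v hv => mem_eig.2 (tW R ρ hs (mem_eig.1 hv))) fun v hv hv' => YW R ρ hv.1 (mem_eig.1 hv')
  have := rk (ρ R.u)
  omega

theorem simple (hs : ∀ A : Submodule (ZMod 3) V, (∀ g, A ≤ A.comap (ρ g)) → A = ⊥ ∨ A = ⊤) :
    3 * dm ⊤ (ρ R.x) 1 + 2 * dm ⊤ (ρ R.u) 1 + 3 * dm ⊤ (ρ (R.x * R.t)) 1 ≤
      6 * finrank (ZMod 3) (fx [ρ R.u, ρ R.s, J R ρ]) + 2 * finrank (ZMod 3) V := by
  by_cases h0 : ∀ g v, ρ g v = v
  · have : fx [ρ R.u, ρ R.s, J R ρ] = ⊤ := eq_top_iff.2 fun v _ => (mP R ρ).2 ⟨h0 _ _, h0 _ _, by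
      rw [J_ap, Efix R ρ (h0 _ _), h0, h0, h0, h3, add_zero]⟩
    rw [this, finrank_top]
    have := rk (ρ R.x)
    have := rk (ρ R.u)
    have := rk (ρ (R.x * R.t))
    omega
  have := scott R ρ hs h0
  have := tcount R ρ hs
  omega

end

theorem ind (n : ℕ) : ∀ (V : Type u) [AddCommGroup V] [Module (ZMod 3) V] [FiniteDimensional (ZMod 3) V]
    (ρ : G →* End (ZMod 3) V), finrank (ZMod 3) V = n →
    3 * dm ⊤ (ρ R.x) 1 + 2 * dm ⊤ (ρ R.u) 1 + 3 * dm ⊤ (ρ (R.x * R.t)) 1 ≤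
      6 * finrank (ZMod 3) (fx [ρ R.u, ρ R.s, J R ρ]) + 2 * finrank (ZMod 3) V := by
  induction n using Nat.strong_induction_on with
  | _ n ih =>
  intro V _ _ _ ρ hn
  by_cases hs : ∀ A : Submodule (ZMod 3) V, (∀ g, A ≤ A.comap (ρ g)) → A = ⊥ ∨ A = ⊤
  · exact simple R ρ hs
  push Not at hs
  obtain ⟨A, hA, a1, a2⟩ := hs
  let ρ₁ : G →* End (ZMod 3) A := Representation.subrepresentation ρ A hA
  let ρ₂ : G →* End (ZMod 3) (V ⧸ A) := Representation.quotient ρ A hA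
  have e1 : ∀ g (v : A), (ρ₁ g v).1 = ρ g v.1 := fun _ _ => rfl
  have e2 : ∀ g v, ρ₂ g (A.mkQ v) = A.mkQ (ρ g v) := fun _ _ => rfl
  have E1 : ∀ v : A, (E R ρ₁ v).1 = E R ρ v.1 := fun v => by simp only [E_ap, Submodule.coe_sum, e1]
  have E2 : ∀ v, E R ρ₂ (A.mkQ v) = A.mkQ (E R ρ v) := fun v => by simp only [E_ap, map_sum, e2]
  have j1 : ∀ v : A, (J R ρ₁ v).1 = J R ρ v.1 := fun v => by simp only [J_ap, Submodule.coe_add, E1, e1]
  have j2 : ∀ v, J R ρ₂ (A.mkQ v) = A.mkQ (J R ρ v) := fun v => by simp only [J_ap, map_add, E2, e2]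
  have d1 := A.finrank_quotient_add_finrank
  have d2 := Submodule.finrank_lt a2
  have d3 : finrank (ZMod 3) A ≠ 0 := fun e => a1 (Submodule.finrank_eq_zero.1 e)
  have i1 := ih _ (by omega) A ρ₁ rfl
  have i2 := ih _ (by omega) (V ⧸ A) ρ₂ rfl
  have k : ∀ g, dm ⊤ (ρ g) 1 ≤ dm ⊤ (ρ₁ g) 1 + dm ⊤ (ρ₂ g) 1 := fun g =>
    add_le A _ _ _ (fun v hv => mem_eig.2 (Subtype.ext (mem_eig.1 hv)))
      fun v hv => mem_eig.2 (by rw [e2, mem_eig.1 hv])
  have k1 := k R.x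
  have k2 := k R.u
  have k3 := k (R.x * R.t)
  have k4 := add_ge A (fx [ρ R.u, ρ R.s, J R ρ]) (fx [ρ₁ R.u, ρ₁ R.s, J R ρ₁]) (fx [ρ₂ R.u, ρ₂ R.s, J R ρ₂])
    (fun v hv => by
      obtain ⟨b1, b2, b3⟩ := (mP R ρ₁).1 hv
      exact (mP R ρ).2 ⟨by rw [← e1, b1], by rw [← e1, b2], by rw [← j1, b3]⟩)
    fun y hy => by
      obtain ⟨b1, b2, b3⟩ := (mP R ρ₂).1 hy
      obtain ⟨v, rfl⟩ := A.mkQ_surjective y
      have c1 : ρ R.u (E R ρ v + ρ R.s (E R ρ v)) = E R ρ v + ρ R.s (E R ρ v) := by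
        rw [map_add, uE, us' R ρ (uE R ρ v)]
      have c2 : ρ R.s (E R ρ v + ρ R.s (E R ρ v)) = E R ρ v + ρ R.s (E R ρ v) := by rw [map_add, ss, add_comm]
      refine ⟨_ + J R ρ (E R ρ v + ρ R.s (E R ρ v)), (mP R ρ).2 ⟨by rw [map_add, c1, J_u R ρ c1],
        by rw [map_add, c2, J_s R ρ c2], by rw [map_add, JJ R ρ c1 c2, add_comm]⟩, ?_⟩
      simp only [map_add, ← j2, ← e2, ← E2, Efix R ρ₂ b1, b2, b3]
      linear_combination (norm := abel) h3 (A.mkQ v)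
  omega

variable {V : Type u} [AddCommGroup V] [Module (ZMod 3) V] [FiniteDimensional (ZMod 3) V] (ρ : G →* End (ZMod 3) V)

theorem dih : 2 * finrank (ZMod 3) (fx [ρ R.u, ρ R.s]) + finrank (ZMod 3) V ≤
    2 * dm ⊤ (ρ R.s) 1 + dm ⊤ (ρ R.u) 1 := by
  have mS : ∀ v, v ∈ fx [-ρ R.s] ↔ ρ R.s v = -v := fun v => by simp [mem_fx, neg_eq_iff_eq_neg]
  have uu : ∀ v, ρ R.u (ρ (R.u ^ 12) v) = v := fun v => by
    rw [← mu, ← pow_succ', R.u13, map_one, End.one_apply]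
  have h1 := finrank_le_add ⊤ (⊤ ⊓ (ρ R.s).eigenspace 1) (fx [-ρ R.s]) (ρ R.s - 1)
    (fun v _ => (mS _).2 (by simp [ss])) fun v _ e => mem_eig.2 (sub_eq_zero.1 e)
  have h2 := finrank_le_add (fx [-ρ R.s]) (fx [-ρ R.s] ⊓ (⊤ ⊓ (ρ R.u).eigenspace 1))
    (LinearMap.range (ρ R.u - 1) ⊓ (⊤ ⊓ (ρ R.s).eigenspace 1)) (ρ R.u - ρ (R.u ^ 12))
    (fun v hv => ⟨by simpa using Submodule.sub_mem _ (Y_pow R ρ 1 v) (Y_pow R ρ 12 v), mem_eig.2 (by
      have a1 := ap ρ R.su v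
      have a2 := ap ρ R.us v
      rw [mu, mu, (mS v).1 hv, map_neg] at a1 a2
      rw [LinearMap.sub_apply, map_sub, a1, ← a2]; abel)⟩)
    fun v hv e => ⟨hv, mem_eig.2 (by
      have a1 : ρ (R.u ^ 2) v = v := by rw [pow_two, mu, sub_eq_zero.1 e, uu]
      have a2 := pf ρ a1 7
      rwa [← pow_mul, show 2 * 7 = 13 + 1 from rfl, pow_succ, R.u13, one_mul] at a2)⟩
  have h4 := disj_le (A := LinearMap.range (ρ R.u - 1) ⊓ (⊤ ⊓ (ρ R.s).eigenspace 1)) (B := fx [ρ R.u, ρ R.s])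
    (C := ⊤ ⊓ (ρ R.s).eigenspace 1) inf_le_right (fun v hv => mem_eig.2 ((mU R ρ).1 hv).2)
    fun v hv hv' => YW R ρ hv.1 ((mU R ρ).1 hv').1
  have h5 := disj_le (A := fx [-ρ R.s] ⊓ (⊤ ⊓ (ρ R.u).eigenspace 1)) (B := fx [ρ R.u, ρ R.s])
    (C := ⊤ ⊓ (ρ R.u).eigenspace 1) inf_le_right (fun v hv => mem_eig.2 ((mU R ρ).1 hv).1)
    fun v hv hv' => half (eq_neg_iff_add_eq_zero.1 (((mU R ρ).1 hv').2.symm.trans ((mS v).1 hv.1)))
  rw [finrank_top] at h1
  simp only [dm]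
  omega

theorem three (β : LinearMap.BilinForm (ZMod 3) V) (hn : ∀ v, (∀ w, β v w = 0) → v = 0)
    (hβ : ∀ g v w, β (ρ g v) (ρ g w) = β v w) (h0 : ∀ v, (∀ g, ρ g v = v) → v = 0) :
    3 * finrank (ZMod 3) (fx [ρ R.u, ρ R.s, J R ρ]) ≤ finrank (ZMod 3) (fx [ρ R.u, ρ R.s]) := by
  let f : End (ZMod 3) V := ρ R.t - ρ R.t * ρ R.t
  have hf : ∀ v, f v = ρ R.t v - ρ R.t (ρ R.t v) := fun _ => rfl
  have fu : ∀ v, ρ R.u v = v → ρ R.u (f v) = f v := fun v h => by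
    rw [hf, map_sub, ut' R ρ h, ut' R ρ (ut' R ρ h)]
  have fs : ∀ v, ρ R.s v = v → ρ R.s (f v) = f v := fun v h => by rw [hf, map_sub, st', st', st', h]
  have fJ : ∀ v, J R ρ (f v) = -f (J R ρ v) := fun v => by simp only [hf, map_sub, Jt, ttt, neg_sub]
  have inj : ∀ v ∈ fx [ρ R.u, ρ R.s, J R ρ], f v = 0 → v = 0 := fun v hv e => by
    obtain ⟨b1, b2, b3⟩ := (mP R ρ).1 hv
    have e' : ρ R.t v = ρ R.t (ρ R.t v) := sub_eq_zero.1 e
    have := congrArg (fun y => ρ R.t (ρ R.t y)) e'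
    simp only [ttt] at this
    exact h0 v (fixed R ρ b1 b2 this.symm b3)
  have ff : ∀ v ∈ fx [ρ R.u, ρ R.s, J R ρ], f (f v) = 0 := fun v hv => by
    obtain ⟨b1, b2, b3⟩ := (mP R ρ).1 hv
    refine inj _ ((mP R ρ).2 ⟨fu _ (fu _ b1), fs _ (fs _ b2), by rw [fJ, fJ, b3, map_neg, neg_neg]⟩) ?_
    simp only [hf, map_sub, ttt]
    linear_combination (norm := abel) h3 (ρ R.t (ρ R.t v)) - h3 (ρ R.t v)
  have at1 : ∀ v y, β (ρ R.t v) y = β v (ρ R.t (ρ R.t y)) := fun v y => by rw [← hβ R.t v, ttt]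
  have at2 : ∀ v y, β (ρ R.t (ρ R.t v)) y = β v (ρ R.t y) := fun v y => by rw [at1, at1, ttt]
  have aE : ∀ v y, ρ R.u v = v → β v (E R ρ y) = β v y := fun v y h => by
    rw [E_ap, map_sum, sum_congr rfl fun i _ => by rw [← pf ρ h i, hβ], s13]
  have aE' : ∀ v y, ρ R.u y = y → β (E R ρ v) y = β v y := fun v y h => by
    rw [E_ap, map_sum, LinearMap.sum_apply, sum_congr rfl fun i _ => by rw [← pf ρ h i, hβ], s13]
  have aJ : ∀ v y, ρ R.u v = v → ρ R.u y = y → β (J R ρ v) y = β v (J R ρ y) := fun v y h h' => by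
    simp only [J_ap, map_add, LinearMap.add_apply, aE _ _ h, aE' _ _ h', at2, at1 v]
    rw [← hβ R.w _ y, ww]
    ring
  have hW : (fx [ρ R.u, ρ R.s, J R ρ]).map f ≤ fx [ρ R.u, ρ R.s, -J R ρ] := by
    rintro _ ⟨v, hv, rfl⟩
    obtain ⟨b1, b2, b3⟩ := (mP R ρ).1 hv
    exact (mM R ρ).2 ⟨fu _ b1, fs _ b2, by rw [fJ, b3]⟩
  have h1 := E8L.orth_le β _ ((fx [ρ R.u, ρ R.s, J R ρ]).map f) _ hW (fun v hv e => hn v fun y => by
    obtain ⟨b1, b2, b3⟩ := (mM R ρ).1 (hW hv)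
    have c1 : ρ R.u (E R ρ y + ρ R.s (E R ρ y)) = E R ρ y + ρ R.s (E R ρ y) := by
      rw [map_add, uE, us' R ρ (uE R ρ y)]
    have c2 : ρ R.s (E R ρ y + ρ R.s (E R ρ y)) = E R ρ y + ρ R.s (E R ρ y) := by rw [map_add, ss, add_comm]
    have := e (_ - J R ρ (E R ρ y + ρ R.s (E R ρ y))) ((mM R ρ).2 ⟨by rw [map_sub, c1, J_u R ρ c1],
      by rw [map_sub, c2, J_s R ρ c2], by rw [map_sub, JJ R ρ c1 c2, neg_sub]⟩)
    have c3 : β v (ρ R.s (E R ρ y)) = β v y := by rw [← aE v y b1, ← hβ R.s v (E R ρ y), b2]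
    rw [map_sub, ← aJ _ _ b1 c1, b3, map_neg, LinearMap.neg_apply, map_add, aE _ _ b1, c3] at this
    linear_combination (norm := abel) this - h3 (β v y)) (by
      rintro _ ⟨v, hv, rfl⟩ _ ⟨y, hy, rfl⟩
      have := ff y hy
      rw [hf v, map_sub, LinearMap.sub_apply, at2, at1, ← map_sub, ← neg_sub, ← hf, this, neg_zero, map_zero])
  have h2 := finrank_le_one _ ((fx [ρ R.u, ρ R.s, J R ρ]).map f) f (fun v hv => ⟨v, hv, rfl⟩) inj
  have h4 := disj_le (A := fx [ρ R.u, ρ R.s, J R ρ]) (B := fx [ρ R.u, ρ R.s, -J R ρ]) (C := fx [ρ R.u, ρ R.s])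
    (fun v hv => (mU R ρ).2 ⟨((mP R ρ).1 hv).1, ((mP R ρ).1 hv).2.1⟩)
    (fun v hv => (mU R ρ).2 ⟨((mM R ρ).1 hv).1, ((mM R ρ).1 hv).2.1⟩)
    fun v hv hv' => half (eq_neg_iff_add_eq_zero.1 (((mP R ρ).1 hv).2.2.symm.trans ((mM R ρ).1 hv').2.2))
  omega

include R in
theorem main0 (h : Fac ρ) (h7 : ∀ x, x ^ 7 = 1 → 38 ≤ dm ⊤ (ρ x) 1) (h13 : ∀ x, x ^ 13 = 1 → 20 ≤ dm ⊤ (ρ x) 1)
    (β : LinearMap.BilinForm (ZMod 3) V) (hn : ∀ v, (∀ w, β v w = 0) → v = 0)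
    (hβ : ∀ g v w, β (ρ g v) (ρ g w) = β v w) : ∃ v ≠ 0, ∀ g, ρ g v = v := by
  by_contra hc
  have h1 := three R ρ β hn hβ fun v hv => by_contra fun e => hc ⟨v, e, hv⟩
  have h2 := dih R ρ
  have h4 := ind R _ V ρ rfl
  obtain ⟨g, hg⟩ := R.xs
  have h5 := dm_conj ρ hg 1
  have h6 := h7 _ R.z7
  have h8 := h13 _ R.u13
  have h9 := h.invol R.s2 R.s1
  have h10 := finrank_le_add ⊤ (⊤ ⊓ (ρ R.s).eigenspace 1) (⊤ ⊓ (ρ R.s).eigenspace (-1)) (ρ R.s - 1)
    (fun v _ => ⟨trivial, End.mem_eigenspace_iff.2 (by simp [ss])⟩) fun v _ e => mem_eig.2 (sub_eq_zero.1 e)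
  rw [finrank_top] at h10
  have := h.dim
  simp only [tau, dm] at *
  omega

open LM in
/-- the relations hold in `PSL₂(13)` -/
noncomputable def r13 {F : Type*} [Field F] [Fintype F] [CharP F 13] (hF : Fintype.card F = 13) :
    R13 (Matrix.ProjectiveSpecialLinearGroup (Fin 2) F) where
  u := φ F 2211
  w := φ F 2041
  t := φ F 21974
  s := φ F 10993
  x := φ F 28237
  u13 := u_pow
  w2 := by simpa using rel (F := F) (l := [2041, 2041]) (l' := []) (by decide +kernel)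
  s2 := by simpa using rel (F := F) (l := [10993, 10993]) (l' := []) (by decide +kernel)
  t3 := by simpa using rel (F := F) (l := [21974, 21974, 21974]) (l' := []) (by decide +kernel)
  st := by simpa using rel (F := F) (l := [10993, 21974]) (l' := [21974, 10993]) (by decide +kernel)
  su := by simpa [φ_sq] using rel (F := F) (l := [10993, 2211]) (l' := [sq 12, 10993]) (by decide +kernel)
  us := by simpa [φ_sq] using rel (F := F) (l := [2211, 10993]) (l' := [10993, sq 12]) (by decide +kernel)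
  tu := by simpa [φ_sq] using rel (F := F) (l := [21974, 2211]) (l' := [sq 3, 21974]) (by decide +kernel)
  ut := by simpa [φ_sq] using rel (F := F) (l := [2211, 21974]) (l' := [21974, sq 9]) (by decide +kernel)
  tw := by simpa using rel (F := F) (l := [21974, 2041]) (l' := [2041, 21974, 21974]) (by decide +kernel)
  wt := by simpa using rel (F := F) (l := [2041, 21974]) (l' := [21974, 21974, 2041]) (by decide +kernel)
  sw := by simpa using rel (F := F) (l := [10993, 2041]) (l' := [2041, 10993]) (by decide +kernel)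
  bru := fun j h0 h1 => by
    have c : allLt (fun j => Nat.beq j 0 || chk [2041, sq j, 2041] ([sq (aa j), 2041] ++
        (List.replicate (ee j) 10993 ++ (List.replicate (kk j) 21974 ++ [sq (aa j)])))) 13 = true := by
      decide +kernel
    have := allLt_spec c j h1
    rw [Bool.or_eq_true, Nat.beq_eq] at this
    simpa [φ_sq] using rel (F := F) (this.resolve_left h0.ne')
  gen := fun p h1 h2 h3 g => LM.gen hF h1 h2 h3 g
  gen' := fun p h1 h2 h3 g => by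
    have k : ∀ l : List ℕ, (∀ a ∈ l, a = 28237 ∨ a = 21974) → ∀ g, p g → p ((l.map (φ F)).prod * g) := by
      intro l hl g hg
      induction l with
      | nil => simpa using hg
      | cons a l ih =>
        rw [List.map_cons, List.prod_cons, mul_assoc]
        have := ih fun b hb => hl b (List.mem_cons_of_mem _ hb)
        rcases hl a List.mem_cons_self with rfl | rfl
        · exact h2 _ this
        · exact h3 _ this
    have a1 := rel (F := F) (l := [2211]) (l' := [21974, 21974, 28237, 21974, 28237, 21974, 28237, 21974, 21974, 28237, 21974, 28237, 21974, 28237, 21974, 21974, 28237, 21974, 21974, 28237, 21974, 28237, 21974, 28237, 21974]) (by decide +kernel)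
    have a2 := rel (F := F) (l := [2041]) (l' := [28237, 21974, 28237, 21974, 21974, 28237, 21974, 21974, 28237, 21974, 28237, 21974, 28237, 21974, 21974, 28237, 21974, 21974, 28237, 21974, 28237, 21974, 28237, 21974, 21974, 28237, 21974]) (by decide +kernel)
    rw [List.map_singleton, List.prod_singleton] at a1 a2
    exact LM.gen hF h1 (fun g e => a1 ▸ k _ (by decide) g e) (fun g e => a2 ▸ k _ (by decide) g e) g
  xs := ⟨φ F 23249, by simpa using rel (F := F) (l := [28237, 23249]) (l' := [23249, 10993]) (by decide +kernel)⟩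
  z7 := by
    have a1 := rel (F := F) (l := [28237, 21974]) (l' := [7570]) (by decide +kernel)
    have a2 := rel (F := F) (l := List.replicate 7 7570) (l' := []) (by decide +kernel)
    simp only [List.map_cons, List.map_nil, List.prod_cons, List.prod_nil, mul_one, List.map_replicate,
      List.prod_replicate] at a1 a2
    rw [a1, a2]
  s1 := by simpa using nrel (F := F) (l := [10993]) (l' := []) (by decide +kernel)

theorem main {F : Type*} [Field F] [Fintype F] (hF : Fintype.card F = 13)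
    (ρ : Matrix.ProjectiveSpecialLinearGroup (Fin 2) F →* Module.End (ZMod 3) V)
    (h : Fac ρ) (h7 : ∀ x, x ^ 7 = 1 → 38 ≤ dm ⊤ (ρ x) 1) (h13 : ∀ x, x ^ 13 = 1 → 20 ≤ dm ⊤ (ρ x) 1)
    (β : LinearMap.BilinForm (ZMod 3) V) (hs : ∀ v w, β v w = β w v) (hn : ∀ v, (∀ w, β v w = 0) → v = 0)
    (hβ : ∀ g v w, β (ρ g v) (ρ g w) = β v w) : ∃ v ≠ 0, ∀ g, ρ g v = v := by
  have : Fact (Nat.Prime 13) := ⟨by decide⟩
  have : CharP F 13 := charP_of_card_eq_prime hF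
  exact main0 (r13 hF) ρ h h7 h13 β hn hβ

end Cfsg.Agent.H2.LL
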