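import Cfsg.Agent.H2.E8L

/-!
Modules in characteristic three for a group with the relations of `PSL₂(13)`.
-/

set_option autoImplicit false
set_option linter.unusedSectionVars false
set_option linter.unusedVariables false

namespace Cfsg.Agent.H2.LL

open Module Finset Cfsg.Agent.H4.T8

/-- exponents in the Bruhat relations -/
def aa (j : ℕ) : ℕ := [0, 12, 6, 4, 3, 5, 2, 11, 8, 10, 9, 7, 1].getD j 0
/-- exponents in the Bruhat relations -/
def ee (j : ℕ) : ℕ := [0, 0, 1, 0, 0, 1, 1, 1, 1, 0, 0, 1, 0].getD j 0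
/-- exponents in the Bruhat relations -/
def kk (j : ℕ) : ℕ := [0, 0, 2, 2, 1, 0, 1, 1, 0, 1, 2, 2, 0].getD j 0

/-- generators and relations -/
structure R13 (G : Type*) [Group G] where
  u : G
  w : G
  t : G
  s : G
  x : G
  u13 : u ^ 13 = 1
  w2 : w * w = 1
  s2 : s * s = 1
  t3 : t * (t * t) = 1
  st : s * t = t * s
  su : s * u = u ^ 12 * s
  us : u * s = s * u ^ 12
  tu : t * u = u ^ 3 * t
  ut : u * t = t * u ^ 9
  tw : t * w = w * (t * t)
  wt : w * t = t * (t * w)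
  sw : s * w = w * s
  bru : ∀ j, 0 < j → j < 13 → w * (u ^ j * w) = u ^ aa j * (w * (s ^ ee j * (t ^ kk j * u ^ aa j)))
  gen : ∀ p : G → Prop, p 1 → (∀ g, p g → p (u * g)) → (∀ g, p g → p (w * g)) → ∀ g, p g
  gen' : ∀ p : G → Prop, p 1 → (∀ g, p g → p (x * g)) → (∀ g, p g → p (t * g)) → ∀ g, p g
  xs : ∃ g, x * g = g * s
  z7 : (x * t) ^ 7 = 1
  s1 : s ≠ 1

universe u

variable {G : Type*} [Group G] (R : R13 G) {V : Type u} [AddCommGroup V] [Module (ZMod 3) V]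
  [FiniteDimensional (ZMod 3) V] (ρ : G →* End (ZMod 3) V)

theorem h3 (y : V) : y + y + y = 0 := by
  rw [← one_smul (ZMod 3) y, ← add_smul, ← add_smul, show (1 + 1 + 1 : ZMod 3) = 0 from rfl, zero_smul]

theorem half {y : V} (h : y + y = 0) : y = 0 := by simpa [h] using h3 y

theorem ap {a b : G} (h : a = b) (v : V) : ρ a v = ρ b v := by rw [h]

theorem mu (a b : G) (v : V) : ρ (a * b) v = ρ a (ρ b v) := by rw [map_mul, End.mul_apply]

theorem pf {a : G} {v : V} (h : ρ a v = v) (n : ℕ) : ρ (a ^ n) v = v := by rw [map_pow]; exact pow_fix h n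

/-- the averaging operator of the unipotent subgroup -/
noncomputable def E : End (ZMod 3) V := ∑ i ∈ range 13, ρ (R.u ^ i)

/-- an involution of the Hecke algebra -/
noncomputable def J : End (ZMod 3) V := E R ρ * ρ R.w + (1 + ρ R.t + ρ R.t * ρ R.t)

theorem E_ap (v : V) : E R ρ v = ∑ i ∈ range 13, ρ (R.u ^ i) v := LinearMap.sum_apply _ _ _

theorem J_ap (v : V) : J R ρ v = E R ρ (ρ R.w v) + (v + ρ R.t v + ρ R.t (ρ R.t v)) := rfl

theorem s13 (v : V) : ∑ i ∈ range 13, v = v := by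
  simp only [sum_range_succ, range_zero, sum_empty]
  linear_combination (norm := abel) h3 v + h3 v + h3 v + h3 v

theorem uE (v : V) : ρ R.u (E R ρ v) = E R ρ v := by
  have := sum_range_succ' (fun i => ρ (R.u ^ i) v) 13
  rw [sum_range_succ, R.u13, pow_zero, add_left_inj] at this
  simp only [E_ap, map_sum, ← mu, ← pow_succ']
  exact this.symm

theorem Eu (v : V) : E R ρ (ρ R.u v) = E R ρ v := by
  rw [← uE R ρ v]
  simp only [E_ap, map_sum, ← mu, ← pow_succ', ← pow_succ]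

theorem Eup (n : ℕ) (v : V) : E R ρ (ρ (R.u ^ n) v) = E R ρ v := by
  induction n with
  | zero => simp
  | succ n ih => rw [pow_succ', mu, Eu, ih]

theorem Efix {v : V} (h : ρ R.u v = v) : E R ρ v = v := by
  simp only [E_ap, pf ρ h, s13]

theorem gE {g : G} {k l : ℕ} (h1 : g * R.u = R.u ^ k * g) (h2 : R.u * g = g * R.u ^ l) (v : V) :
    ρ g (E R ρ v) = E R ρ (ρ g v) := by
  have a1 : ∀ i, g * R.u ^ i = R.u ^ (k * i) * g := fun i => by
    induction i with
    | zero => simp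
    | succ i ih => rw [pow_succ, ← mul_assoc, ih, mul_assoc, h1, ← mul_assoc, ← pow_add, mul_add, mul_one]
  rw [← Efix R ρ (v := ρ g (E R ρ v)) (by rw [← mu, h2, mu, pf ρ (uE R ρ v)]), E_ap R ρ v, map_sum, map_sum]
  simp only [← mu, a1]
  simp only [mu, Eup, s13]

theorem tE (v : V) : ρ R.t (E R ρ v) = E R ρ (ρ R.t v) := gE R ρ R.tu R.ut v

theorem sE (v : V) : ρ R.s (E R ρ v) = E R ρ (ρ R.s v) := gE R ρ R.su R.us v

theorem ttt (v : V) : ρ R.t (ρ R.t (ρ R.t v)) = v := by rw [← mu, ← mu, mul_assoc, R.t3, map_one, End.one_apply]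

theorem ww (v : V) : ρ R.w (ρ R.w v) = v := by rw [← mu, R.w2, map_one, End.one_apply]

theorem ss (v : V) : ρ R.s (ρ R.s v) = v := by rw [← mu, R.s2, map_one, End.one_apply]

theorem st' (v : V) : ρ R.s (ρ R.t v) = ρ R.t (ρ R.s v) := by rw [← mu, R.st, mu]

theorem sw' (v : V) : ρ R.s (ρ R.w v) = ρ R.w (ρ R.s v) := by rw [← mu, R.sw, mu]

theorem tw' (v : V) : ρ R.t (ρ R.w v) = ρ R.w (ρ R.t (ρ R.t v)) := by rw [← mu, R.tw, mu, mu]

theorem wt' (v : V) : ρ R.w (ρ R.t v) = ρ R.t (ρ R.t (ρ R.w v)) := by rw [← mu, R.wt, mu, mu]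

theorem ut' {v : V} (h : ρ R.u v = v) : ρ R.u (ρ R.t v) = ρ R.t v := by rw [← mu, R.ut, mu, pf ρ h]

theorem us' {v : V} (h : ρ R.u v = v) : ρ R.u (ρ R.s v) = ρ R.s v := by rw [← mu, R.us, mu, pf ρ h]

theorem br {v : V} (h : ρ R.u v = v) (j : ℕ) (h0 : 0 < j) (h1 : j < 13) :
    ρ R.w (ρ (R.u ^ j) (ρ R.w v)) = ρ (R.u ^ aa j) (ρ R.w (ρ (R.s ^ ee j) (ρ (R.t ^ kk j) v))) := by
  rw [← mu, ← mu, mul_assoc, R.bru j h0 h1]
  simp only [mu, pf ρ h]

theorem TT {v : V} (h : ρ R.u v = v) (h' : ρ R.s v = v) :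
    E R ρ (ρ R.w (E R ρ (ρ R.w v))) = v + E R ρ (ρ R.w (v + ρ R.t v + ρ R.t (ρ R.t v))) := by
  have a1 : ∀ k, ρ R.s (ρ (R.t ^ k) v) = ρ (R.t ^ k) v := fun k => by
    rw [← mu, (show Commute R.s R.t from R.st).pow_right, mu, h']
  rw [E_ap R ρ (ρ R.w v), map_sum, map_sum, sum_range_succ', sum_congr rfl fun j hj => by
    rw [br R ρ h (j + 1) (by omega) (by have := mem_range.1 hj; omega), Eup, pf ρ (a1 _)], pow_zero, map_one,
    End.one_apply, ww, Efix R ρ h]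
  simp only [sum_range_succ, range_zero, sum_empty, kk, List.getD_cons_succ, List.getD_cons_zero, pow_zero, pow_one,
    pow_two, mu, map_one, End.one_apply, map_add]
  linear_combination (norm := abel) h3 (E R ρ (ρ R.w v)) + h3 (E R ρ (ρ R.w (ρ R.t v))) +
    h3 (E R ρ (ρ R.w (ρ R.t (ρ R.t v))))

theorem J_u {v : V} (h : ρ R.u v = v) : ρ R.u (J R ρ v) = J R ρ v := by
  simp only [J_ap, map_add, uE, h, ut' R ρ h, ut' R ρ (ut' R ρ h)]

theorem J_s {v : V} (h : ρ R.s v = v) : ρ R.s (J R ρ v) = J R ρ v := by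
  simp only [J_ap, map_add, sE, sw', st', h]

theorem JJ {v : V} (h : ρ R.u v = v) (h' : ρ R.s v = v) : J R ρ (J R ρ v) = v := by
  rw [J_ap R ρ v, map_add, J_ap, TT R ρ h h', J_ap]
  simp only [map_add, tE, tw', ttt]
  linear_combination (norm := abel) h3 (E R ρ (ρ R.w v)) + h3 (E R ρ (ρ R.w (ρ R.t v))) +
    h3 (E R ρ (ρ R.w (ρ R.t (ρ R.t v)))) + h3 v + h3 (ρ R.t v) + h3 (ρ R.t (ρ R.t v))

theorem Jt (v : V) : J R ρ (ρ R.t v) = ρ R.t (ρ R.t (J R ρ v)) := by
  simp only [J_ap, map_add, tE, wt', ttt]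
  abel

theorem fixed {v : V} (h : ρ R.u v = v) (h' : ρ R.s v = v) (ht : ρ R.t v = v) (hJ : J R ρ v = v) (g : G) :
    ρ g v = v := by
  have a1 : E R ρ (ρ R.w v) = v := by rw [J_ap, ht, ht, h3, add_zero] at hJ; exact hJ
  have a2 : ρ R.w v + ρ R.w (E R ρ (ρ R.w v)) = v + E R ρ (ρ R.w v) := by
    rw [E_ap, map_sum, sum_range_succ', sum_congr rfl fun j hj => by
      rw [br R ρ h (j + 1) (by omega) (by have := mem_range.1 hj; omega), pf ρ ht, pf ρ h'], pow_zero, map_one,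
      End.one_apply, ww]
    simp only [sum_range_succ, range_zero, sum_empty, aa, List.getD_cons_succ, List.getD_cons_zero, pow_zero,
      map_one, End.one_apply]
    abel
  rw [a1] at a2
  have a3 : ρ R.w v = v := sub_eq_zero.1 (half (by linear_combination (norm := abel) a2))
  exact R.gen (fun g => ρ g v = v) (by simp) (fun g e => by rw [mu, e, h]) (fun g e => by rw [mu, e, a3]) g

theorem mP {v : V} : v ∈ fx [ρ R.u, ρ R.s, J R ρ] ↔ ρ R.u v = v ∧ ρ R.s v = v ∧ J R ρ v = v := by simp [mem_fx]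

theorem mM {v : V} : v ∈ fx [ρ R.u, ρ R.s, -J R ρ] ↔ ρ R.u v = v ∧ ρ R.s v = v ∧ J R ρ v = -v := by
  simp [mem_fx, neg_eq_iff_eq_neg]

theorem mU {v : V} : v ∈ fx [ρ R.u, ρ R.s] ↔ ρ R.u v = v ∧ ρ R.s v = v := by simp [mem_fx]

section simple

variable (hs : ∀ A : Submodule (ZMod 3) V, (∀ g, A ≤ A.comap (ρ g)) → A = ⊥ ∨ A = ⊤)
include hs

theorem tW {y : V} (hy : ρ R.u y = y) : ρ R.t y = y := by
  by_cases y0 : y = 0
  · simp [y0]
  obtain ⟨v, v0, v1, v2, c, v3⟩ : ∃ v ≠ 0, ρ R.u v = v ∧ ρ R.t v = v ∧ ∃ c : ZMod 3, ρ R.s v = c • v := by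
    have := finrank_le_three (fx [ρ R.u]) (fx [ρ R.u, ρ R.t]) (ρ R.t - 1)
      (fun v hv => by
        have : ρ R.u v = v := by simpa [mem_fx] using hv
        simp [mem_fx, this, ut' R ρ this])
      (fun v hv e => by simpa [mem_fx, sub_eq_zero.1 e] using hv) fun v _ => by
        simp only [LinearMap.sub_apply, End.one_apply, map_sub, ttt]
        linear_combination (norm := abel) h3 (ρ R.t v) - h3 (ρ R.t (ρ R.t v))
    obtain ⟨v, hv, v0⟩ := (fx [ρ R.u, ρ R.t]).exists_mem_ne_zero_of_ne_bot fun e => y0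
      (eq_zero_of_mem (U := fx [ρ R.u]) (by rw [e, finrank_bot] at this; omega) (by simp [mem_fx, hy]))
    obtain ⟨v1, v2⟩ : ρ R.u v = v ∧ ρ R.t v = v := by simpa [mem_fx] using hv
    by_cases e : v + ρ R.s v = 0
    · exact ⟨v, v0, v1, v2, -1, by rw [neg_one_smul, eq_neg_of_add_eq_zero_right e]⟩
    · exact ⟨_, e, by rw [map_add, v1, us' R ρ v1], by rw [map_add, ← st', v2], 1, by
        rw [map_add, ss, one_smul, add_comm]⟩
  have c1 : ∀ n, ρ (R.s ^ n) v = c ^ n • v := fun n => by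
    induction n with
    | zero => simp
    | succ n ih => rw [pow_succ, mu, v3, map_smul, ih, smul_smul, pow_succ']
  let M := Submodule.span (ZMod 3) (insert v (Set.range fun i : ℕ => ρ (R.u ^ i) (ρ R.w v)))
  have m0 : v ∈ M := Submodule.subset_span (Set.mem_insert _ _)
  have m1 : ∀ i, ρ (R.u ^ i) (ρ R.w v) ∈ M := fun i => Submodule.subset_span (Set.mem_insert_of_mem _ ⟨i, rfl⟩)
  have iu : M ≤ M.comap (ρ R.u) := Submodule.span_le.2 (by
    rintro _ (rfl | ⟨i, rfl⟩)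
    · exact (v1.symm ▸ m0 : ρ R.u _ ∈ M)
    · change ρ R.u (ρ _ _) ∈ M
      rw [← mu, ← pow_succ']; exact m1 _)
  have iw : M ≤ M.comap (ρ R.w) := Submodule.span_le.2 (by
    rintro _ (rfl | ⟨i, rfl⟩)
    · simpa using m1 0
    · change ρ R.w (ρ _ _) ∈ M
      rw [pow_eq_pow_mod i R.u13]
      rcases Nat.eq_zero_or_pos (i % 13) with e | e
      · rw [e, pow_zero, map_one, End.one_apply, ww]; exact m0
      · rw [br R ρ v1 _ e (Nat.mod_lt _ (by decide)), pf ρ v2, c1, map_smul, map_smul]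
        exact M.smul_mem _ (m1 _))
  have hM := (hs M (R.gen (fun g => M ≤ M.comap (ρ g)) (fun z hz => by simpa using hz)
    (fun g e z hz => by simpa using iu (e hz)) fun g e z hz => by simpa using iw (e hz))).resolve_left
    fun e => v0 (by rwa [e] at m0)
  have : M ≤ (fx [ρ R.t]).comap (E R ρ) := Submodule.span_le.2 (by
    rintro _ (rfl | ⟨i, rfl⟩)
    · simp [mem_fx, Efix R ρ v1, v2]
    · change E R ρ (ρ _ _) ∈ fx [ρ R.t]
      rw [Eup]
      simp [mem_fx, tE, tw', v2])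
  simpa [mem_fx, Efix R ρ hy] using this (hM.ge trivial : y ∈ M)

end simple

end Cfsg.Agent.H2.LL
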