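import Mathlib

set_option autoImplicit false

/-! Singer groups: multiplications by `Kˣ` on `K` as an `F`-space. -/

namespace Cfsg.Agent.H2.Singer

variable (F K : Type*) [Field F] [Field K] [Algebra F K]

/-- multiplication hom -/
abbrev singerHom : Kˣ →* (Module.End F K)ˣ :=
  Units.map ((Algebra.lmul F K : K →ₐ[F] Module.End F K) : K →* Module.End F K)

variable {F K}

theorem singerHom_apply (k : Kˣ) (x : K) : (singerHom F K k : Module.End F K) x = k * x := rfl

theorem mem_singer_iff (g : (Module.End F K)ˣ) :
    g ∈ (singerHom F K).range ↔ ∃ k : K, ∀ x, (g : Module.End F K) x = k * x := by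
  constructor
  · rintro ⟨k, rfl⟩
    exact ⟨k, fun x => rfl⟩
  · rintro ⟨k, hk⟩
    have hk0 : k ≠ 0 := by
      rintro rfl
      have : ((g * g⁻¹ : (Module.End F K)ˣ) : Module.End F K) 1 = 0 := by
        rw [Units.val_mul, Module.End.mul_apply, hk, zero_mul]
      rw [mul_inv_cancel] at this
      exact one_ne_zero this
    refine ⟨Units.mk0 k hk0, Units.ext (LinearMap.ext fun x => ?_)⟩
    rw [hk]; rfl

theorem singerHom_injective : Function.Injective (singerHom F K) := by
  intro a b hab
  have := congrArg (fun g : (Module.End F K)ˣ => (g : Module.End F K) 1) hab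
  simp only [singerHom_apply, mul_one] at this
  exact Units.ext this

theorem card_singer : Nat.card (singerHom F K).range = Nat.card K - 1 := by
  rw [← Nat.card_units, ← Nat.card_congr (MonoidHom.ofInjective singerHom_injective).toEquiv]

theorem apply_inv_apply (g : (Module.End F K)ˣ) (x : K) :
    (g : Module.End F K) (((g⁻¹ : (Module.End F K)ˣ) : Module.End F K) x) = x := by
  rw [← Module.End.mul_apply, ← Units.val_mul, mul_inv_cancel]; rfl

theorem inv_apply_apply (g : (Module.End F K)ˣ) (x : K) :
    ((g⁻¹ : (Module.End F K)ˣ) : Module.End F K) ((g : Module.End F K) x) = x := by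
  rw [← Module.End.mul_apply, ← Units.val_mul, inv_mul_cancel]; rfl

theorem centralizer_singer :
    Subgroup.centralizer ((singerHom F K).range : Set (Module.End F K)ˣ) =
      (singerHom F K).range := by
  apply le_antisymm
  · intro g hg
    rw [mem_singer_iff]
    refine ⟨(g : Module.End F K) 1, fun x => ?_⟩
    by_cases hx : x = 0
    · simp [hx]
    have := hg (singerHom F K (Units.mk0 x hx)) ⟨_, rfl⟩
    have := congrArg (fun g : (Module.End F K)ˣ => (g : Module.End F K) 1) this
    simp only [Units.val_mul, Module.End.mul_apply, singerHom_apply, Units.val_mk0, mul_one] at this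
    rw [← this, mul_comm]
  · rintro _ ⟨a, rfl⟩ _ ⟨b, rfl⟩
    rw [← map_mul, ← map_mul, mul_comm]

/-- a semilinear map as a unit -/
def semi (u : Kˣ) (σ : K ≃ₐ[F] K) : (Module.End F K)ˣ :=
  singerHom F K u * (LinearMap.GeneralLinearGroup.ofLinearEquiv σ.toLinearEquiv)

theorem semi_apply (u : Kˣ) (σ : K ≃ₐ[F] K) (x : K) :
    (semi u σ : Module.End F K) x = u * σ x := rfl

theorem semi_mem (u : Kˣ) (σ : K ≃ₐ[F] K) :
    semi u σ ∈ Subgroup.normalizer ((singerHom F K).range : Set (Module.End F K)ˣ) := by
  rw [Subgroup.mem_normalizer_iff]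
  intro h
  rw [mem_singer_iff, mem_singer_iff]
  constructor
  · rintro ⟨k, hk⟩
    refine ⟨σ k, fun x => ?_⟩
    conv_rhs => rw [← apply_inv_apply (semi u σ) x]
    rw [Units.val_mul, Units.val_mul, Module.End.mul_apply, Module.End.mul_apply, hk, semi_apply,
      semi_apply, map_mul]
    ring
  · rintro ⟨k, hk⟩
    refine ⟨σ.symm k, fun x => ?_⟩
    have := hk ((semi u σ : Module.End F K) x)
    rw [Units.val_mul, Units.val_mul, Module.End.mul_apply, Module.End.mul_apply, inv_apply_apply,
      semi_apply, semi_apply] at this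
    apply σ.injective
    rw [map_mul, AlgEquiv.apply_symm_apply]
    apply mul_left_cancel₀ u.ne_zero
    rw [this]; ring

theorem card_normalizer_singer :
    Nat.card (Subgroup.normalizer ((singerHom F K).range : Set (Module.End F K)ˣ)) =
      Nat.card Kˣ * Nat.card (K ≃ₐ[F] K) := by
  rw [← Nat.card_prod]
  symm
  apply Nat.card_eq_of_bijective (fun x : Kˣ × (K ≃ₐ[F] K) => ⟨semi x.1 x.2, semi_mem _ _⟩)
  constructor
  · rintro ⟨u, σ⟩ ⟨v, τ⟩ h
    have h' : ∀ x, (u : K) * σ x = v * τ x := fun x =>
      congrArg (fun g : Subgroup.normalizer ((singerHom F K).range : Set (Module.End F K)ˣ) =>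
        ((g : (Module.End F K)ˣ) : Module.End F K) x) h
    have huv : u = v := by
      have := h' 1
      simp only [map_one, mul_one] at this
      exact Units.ext this
    subst huv
    refine Prod.ext rfl (AlgEquiv.ext fun x => ?_)
    exact mul_left_cancel₀ u.ne_zero (h' x)
  · rintro ⟨g, hg⟩
    have hg1 : (g : Module.End F K) 1 ≠ 0 := by
      intro h
      have := inv_apply_apply g 1
      rw [h, map_zero] at this
      exact zero_ne_one this
    have hmul : ∀ k x : K, (g : Module.End F K) (k * x) =
        ((g : Module.End F K) 1)⁻¹ * (g : Module.End F K) k * (g : Module.End F K) x := by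
      intro k x
      by_cases hk : k = 0
      · simp [hk]
      obtain ⟨l, hl⟩ := (mem_singer_iff _).mp
        ((Subgroup.mem_normalizer_iff.mp hg (singerHom F K (Units.mk0 k hk))).mp ⟨_, rfl⟩)
      have h1 : ∀ y, (g : Module.End F K) (k * y) = l * (g : Module.End F K) y := by
        intro y
        rw [← hl, Units.val_mul, Units.val_mul, Module.End.mul_apply, Module.End.mul_apply,
          inv_apply_apply]
        rfl
      have h2 := h1 1
      rw [mul_one] at h2
      rw [h1, h2]
      field_simp
    let e : K ≃ₗ[F] K := LinearMap.GeneralLinearGroup.toLinearEquiv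
      ((singerHom F K (Units.mk0 _ hg1))⁻¹ * g)
    have he : ∀ x, e x = ((g : Module.End F K) 1)⁻¹ * (g : Module.End F K) x := by
      intro x
      change (((singerHom F K (Units.mk0 _ hg1))⁻¹ * g : (Module.End F K)ˣ) : Module.End F K) x = _
      rw [← map_inv, Units.val_mul, Module.End.mul_apply, singerHom_apply]
      simp
    let σ : K ≃ₐ[F] K := AlgEquiv.ofLinearEquiv e (by rw [he, inv_mul_cancel₀ hg1])
      (fun x y => by rw [he, he, he, hmul]; ring)
    refine ⟨(Units.mk0 _ hg1, σ), Subtype.ext (Units.ext (LinearMap.ext fun x => ?_))⟩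
    change (g : Module.End F K) 1 * e x = (g : Module.End F K) x
    rw [he, ← mul_assoc, mul_inv_cancel₀ hg1, one_mul]

end Cfsg.Agent.H2.Singer
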